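import Cfsg.Agent.H66.OrthNum

/-!
The minimal index of a proper subgroup of the orthogonal groups in even dimension.
-/

set_option autoImplicit false
set_option linter.unusedSectionVars false

namespace Cfsg.Agent.H66

open Module QuadraticMap Cfsg.Agent.H11 Classical

variable {F : Type*} [Field F] [Finite F]

theorem cnt_plus_zero (m : ℕ) : cnt (qPlus F (m + 1)) 0 + Nat.card F ^ m =
    Nat.card F * (Nat.card F ^ m) ^ 2 + Nat.card F * Nat.card F ^ m := by
  rw [cnt_plus, cnt_zero_of_aniso (Q := qPlus F 0) fun x _ => Subsingleton.elim _ _, one_mul]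

theorem cnt_plus_ne {t : F} (ht : t ≠ 0) (m : ℕ) : cnt (qPlus F (m + 1)) t + Nat.card F ^ m =
    Nat.card F * (Nat.card F ^ m) ^ 2 := by
  rw [cnt_plus, cnt_plus_base ht, zero_mul, add_zero]

theorem cnt_minus_zero {a b : F}
    (hab : ∀ z₁ z₂ : F, z₁ ^ 2 + a * z₁ * z₂ + b * z₂ ^ 2 = 0 → z₁ = 0 ∧ z₂ = 0) (m : ℕ) :
    cnt (qMinus m a b) 0 + Nat.card F * Nat.card F ^ m =
      Nat.card F * (Nat.card F ^ m) ^ 2 + Nat.card F ^ m := by
  rw [cnt_minus, cnt_zero_of_aniso (qMinus_zero_aniso hab), one_mul]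

theorem cnt_minus_le {a b : F}
    (hab : ∀ z₁ z₂ : F, z₁ ^ 2 + a * z₁ * z₂ + b * z₂ ^ 2 = 0 → z₁ = 0 ∧ z₂ = 0) (m : ℕ) (t : F) :
    cnt (qMinus m a b) 0 ≤ cnt (qMinus m a b) t := by
  have h1 := cnt_minus_zero hab m
  have h2 := cnt_minus a b t m
  have h3 := Nat.mul_le_mul_right (Nat.card F ^ m) (cnt_minus_base hab t)
  omega

theorem plus_min (j : ℕ) {M : ℕ}
    (hM : (4 ≤ Nat.card F ∧ M * (Nat.card F - 1) + 1 ≤ cnt (qPlus F (j + 4)) 0) ∨
      (Nat.card F = 2 ∧ M ≤ cnt (qPlus F (j + 4)) 1))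
    {H : Subgroup (EG (qPlus F (j + 4)))} (hH : H ≠ ⊤) : M ≤ H.index := by
  have z1 : cnt (qPlus F (j + 3)) 0 + _ = _ := cnt_plus_zero (F := F) (j + 2)
  have z0 : cnt (qPlus F (j + 4)) 0 + _ = _ := cnt_plus_zero (F := F) (j + 3)
  have a1 : cnt (qPlus F (j + 3)) 1 + _ = _ := cnt_plus_ne (F := F) one_ne_zero (j + 2)
  have a0 : cnt (qPlus F (j + 4)) 1 + _ = _ := cnt_plus_ne (F := F) one_ne_zero (j + 3)
  have hnsq := sq_le_nsq (F := F)
  have hY : Nat.card F ^ 2 ≤ Nat.card F ^ (j + 2) :=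
    Nat.pow_le_pow_right Nat.card_pos (by omega)
  have h0 : M * (Nat.card F - 1) + 1 ≤ cnt (qPlus F (j + 4)) 0 := by
    rcases hM with h | ⟨h, h'⟩
    · exact h.2
    · have : 0 < Nat.card F ^ (j + 3) := Nat.pow_pos Nat.card_pos
      generalize Nat.card F ^ (j + 3) = X at *
      rw [h] at z0 a0 ⊢
      omega
  obtain ⟨r, hr⟩ : ∃ r, Nat.card F = r + 1 + 1 :=
    ⟨Nat.card F - 2, by rcases hM with h | h <;> omega⟩
  refine orth_index (splitPlus F (j + 3)) (nd_qPlus F _) (by simp; omega) (k := j + 3)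
    (a₁ := cnt (qPlus F (j + 3)) 1)
    (fun t ht => by have : cnt (qPlus F (j + 3)) t + _ = _ := cnt_plus_ne ht (j + 2); omega) ?_
    (wittLe_plus _) ?_ h0 (fun t ht => ?_) ?_ hH
  · rw [NsHyp, ← mul_assoc, card_plus_space]
    have hd : 6 ≤ finrank F (Fin (j + 3) ⊕ Fin (j + 3) → F) := by simp; omega
    rw [pow_succ' _ (j + 2)] at *
    generalize Nat.card F ^ (j + 2) = Y at *
    generalize Nat.card F = q at *
    subst hr
    simp only [Nat.add_sub_cancel] at *
    rcases hM with h | ⟨h, h'⟩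
    · refine Or.inl (ns_arith (hnsq (by omega)) (by omega) ?_)
      have h3 : 33 ≤ (r + 1 + 1) * Y := by nlinarith
      have h4 := Nat.mul_le_mul_left ((r + 1 + 1) ^ 2 * Y) h3
      have h5 := congrArg ((r + 1 + 1) ^ 2 * ·) a1
      nlinarith
    · obtain rfl : r = 0 := by omega
      refine Or.inr (Or.inr ⟨rfl, hd, ?_, ?_⟩) <;> nlinarith
  · rw [SpHyp, card_plus_space]
    show _ ∨ _ ∧ _ ∧ _ ∧ ∃ K, _ ∧ (_ ∨ _ ∧ _ ∧ ∀ f m, _ ≤ f * (cnt (qPlus F (j + 4)) 0 - 1) → _)
    generalize cnt (qPlus F (j + 3)) 0 = c1 at *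
    generalize cnt (qPlus F (j + 4)) 0 = c0 at *
    generalize cnt (qPlus F (j + 3)) 1 = d1 at *
    generalize cnt (qPlus F (j + 4)) 1 = d0 at *
    rcases j with _ | j
    · right
      generalize Nat.card F = q at *
      subst hr
      simp only [Nat.add_sub_cancel, zero_add] at *
      obtain rfl : c1 = (r + 2) ^ 5 + (r + 2) ^ 2 * (r + 1) := by nlinarith
      obtain rfl : c0 = (r + 2) ^ 7 + (r + 2) ^ 3 * (r + 1) := by nlinarith
      have e1 : (r + 1 + 1) ^ 3 - (r + 1 + 1) = (r + 1) * (r + 2) * (r + 3) :=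
        Nat.sub_eq_of_eq_add (by ring)
      have e2 : (r + 1 + 1) ^ 3 - 1 = (r + 1) * ((r + 2) ^ 2 + r + 3) :=
        Nat.sub_eq_of_eq_add (by ring)
      have h5 : M ≤ (r + 3) * ((r + 2) ^ 2 + 1) + (r + 3) * ((r + 2) ^ 2 + 1) * (r + 2) ^ 3 :=
        Nat.le_of_mul_le_mul_right (c := r + 1) (by nlinarith) (by omega)
      refine ⟨by omega, by rw [e1]; ring, h5.trans (by ring_nf; omega),
        (r + 3) * ((r + 2) ^ 2 + 1), by rw [e2]; nlinarith, ?_⟩
      rcases hM with h | ⟨h, h'⟩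
      · refine Or.inr ⟨by omega, h5.trans ?_, fun f m h1 h2 => ?_⟩
        · obtain rfl : d1 = (r + 2) ^ 2 * ((r + 1) * ((r + 2) ^ 2 + r + 3)) := by nlinarith
          ring_nf
          omega
        have e3 : (r + 1 + 1) ^ (3 + 1) - 1 = (r + 1) * (r + 3) * ((r + 2) ^ 2 + 1) :=
          Nat.sub_eq_of_eq_add (by ring)
        have e4 : (r + 2) ^ 7 + (r + 2) ^ 3 * (r + 1) - 1 = (r + 1) * (r + 3) * ((r + 2) ^ 2 + 1) *
            (1 * (r + 2) ^ 3 + 1) := Nat.sub_eq_of_eq_add (by ring)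
        rw [e3, e4] at h1
        exact sp_arith le_rfl (Nat.succ_le_of_lt (by positivity)) h1 h2
          (Nat.succ_le_of_lt (by positivity)) fun f hf => h5.trans (by omega)
      · obtain rfl : r = 0 := by omega
        left
        omega
    · left
      have hX : Nat.card F ^ 2 ≤ Nat.card F ^ (j + 2) := Nat.pow_le_pow_right (by omega) (by omega)
      have e1 : Nat.card F ^ (j + 1 + 2) = Nat.card F * Nat.card F ^ (j + 2) := by ring
      rw [pow_succ' _ (j + 1 + 2)] at *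
      generalize Nat.card F ^ (j + 1 + 2) = Y at *
      generalize Nat.card F ^ (j + 2) = W at *
      obtain ⟨e, rfl⟩ : ∃ e, Y = e + 1 := ⟨Y - 1, by
        have : 0 < Nat.card F ^ 2 := by rw [hr]; positivity
        omega⟩
      generalize Nat.card F = q at *
      subst hr
      simp only [Nat.add_sub_cancel] at *
      refine ⟨(r + 1 + 1) * ((W + 1) * e), ?_, fun c hc => ?_⟩
      · have : (r + 1 + 1) * ((W + 1) * e) + (r + 1 + 1) + (r + 1) * (e + 1) ^ 2 = c1 := by
          zify at e1 z1 ⊢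
          linear_combination -z1 - (e : ℤ) * e1
        rw [← this]
        ring
      have h3 := c_arith (by omega) (by nlinarith) hc
      have h4 : (r + 1 + 1) ^ 2 + 1 ≤ c := by omega
      have h5 := Nat.mul_le_mul_right c1 h4
      have h6 := congrArg (((r + 1 + 1) ^ 2 + 1) * ·) z1
      have h7 : (r + 1 + 1) * (e + 1) * (r + 1 + 1) ≤ (r + 1 + 1) * (e + 1) * (e + 1) :=
        Nat.mul_le_mul_left _ (by nlinarith)
      have h8 : M ≤ c0 := by nlinarith
      nlinarith
  · have a2 : cnt (qPlus F (j + 4)) t + _ = _ := cnt_plus_ne ht (j + 3)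
    show _ ≤ cnt (qPlus F (j + 4)) t
    rcases hM with h | ⟨h, h'⟩
    · have h3 : M * (if (2 : F) = 0 then 1 else 2) ≤ M * 2 :=
        Nat.mul_le_mul_left _ (by split_ifs <;> omega)
      refine h3.trans ?_
      have hX : Nat.card F ≤ Nat.card F ^ (j + 3) := Nat.le_self_pow (by omega) _
      generalize Nat.card F ^ (j + 3) = X at *
      generalize Nat.card F = q at *
      subst hr
      simp only [Nat.add_sub_cancel] at *
      have h4 : M * 3 ≤ M * (r + 1) := Nat.mul_le_mul_left _ (by omega)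
      have h5 : (r + 1 + 1) * X * 4 ≤ (r + 1 + 1) * X * X := Nat.mul_le_mul_left _ (by omega)
      nlinarith
    · have h2 : (2 : F) = 0 := by
        have := cast_card_zero F
        rw [h] at this
        exact_mod_cast this
      rw [if_pos h2]
      omega
  · rw [card_plus_space]
    have hX : Nat.card F ≤ Nat.card F ^ (j + 3) := Nat.le_self_pow (by omega) _
    generalize Nat.card F ^ (j + 3) = X at *
    generalize Nat.card F = q at *
    subst hr
    simp only [Nat.add_sub_cancel] at *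
    rcases hM with h | ⟨h, h'⟩
    · refine Nat.le_of_mul_le_mul_right (c := r + 1) ?_ (by omega)
      have h5 : X * (r + 1 + 1) ≤ X * X := Nat.mul_le_mul_left _ (by omega)
      have h6 : X * X * 1 ≤ X * X * r := Nat.mul_le_mul_left _ (by omega)
      nlinarith
    · obtain rfl : r = 0 := by omega
      omega

theorem minus_min {a b : F}
    (hab : ∀ z₁ z₂ : F, z₁ ^ 2 + a * z₁ * z₂ + b * z₂ ^ 2 = 0 → z₁ = 0 ∧ z₂ = 0) (j : ℕ) {M : ℕ}
    (h0 : M * (Nat.card F - 1) + 1 ≤ cnt (qMinus (j + 3) a b) 0)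
    {H : Subgroup (EG (qMinus (j + 3) a b))} (hH : H ≠ ⊤) : M ≤ H.index := by
  have z1 := cnt_minus_zero hab (j + 2)
  have z0 := cnt_minus_zero hab (j + 3)
  have hnsq := sq_le_nsq (F := F)
  have hY : Nat.card F ^ 2 ≤ Nat.card F ^ (j + 2) :=
    Nat.pow_le_pow_right Nat.card_pos (by omega)
  have hq : 2 ≤ Nat.card F := Finite.one_lt_card
  obtain ⟨r, hr⟩ : ∃ r, Nat.card F = r + 1 + 1 := ⟨Nat.card F - 2, by omega⟩
  refine orth_index (splitMinus (j + 2) a b) (nd_qMinus hab _) (by simp; omega) (k := j + 2)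
    (a₁ := cnt (qMinus (j + 2) a b) 0) (fun t _ => cnt_minus_le hab _ t) ?_
    (wittLe_minus hab _) (Or.inl ?_) h0 (fun t ht => ?_) ?_ hH
  · rw [NsHyp, ← mul_assoc, card_minus_space]
    have hd : 6 ≤ finrank F ((Fin (j + 2) ⊕ Fin (j + 2)) ⊕ Fin 2 → F) := by simp; omega
    rw [pow_succ' _ (j + 2)] at *
    generalize cnt (qMinus (j + 2) a b) 0 = c1 at *
    generalize cnt (qMinus (j + 3) a b) 0 = c0 at *
    generalize Nat.card F ^ (j + 2) = Y at *
    generalize Nat.card F = q at *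
    subst hr
    simp only [Nat.add_sub_cancel] at *
    rcases r with _ | _ | r
    · refine Or.inr (Or.inr ⟨rfl, hd, ?_, ?_⟩) <;> nlinarith
    · refine Or.inr (Or.inl ⟨rfl, ?_, ?_⟩) <;> nlinarith
    · refine Or.inl (ns_arith (hnsq (by omega)) (by omega) ?_)
      have h3 : 17 * (r + 4) ^ 2 + 16 ≤ (r + 4) ^ 2 * Y + 33 * (r + 4) := by
        have := Nat.mul_le_mul_left ((r + 4) ^ 2) hY
        nlinarith
      have h4 := Nat.mul_le_mul_left ((r + 4) * Y) h3
      have h5 := congrArg ((r + 4) ^ 2 * ·) z1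
      nlinarith
  · rw [card_minus_space]
    have hX : Nat.card F ≤ Nat.card F ^ (j + 1) := Nat.le_self_pow (by omega) _
    have e1 : Nat.card F ^ (j + 2) = Nat.card F * Nat.card F ^ (j + 1) := by ring
    rw [pow_succ' _ (j + 2)] at *
    generalize cnt (qMinus (j + 2) a b) 0 = c1 at *
    generalize cnt (qMinus (j + 3) a b) 0 = c0 at *
    generalize Nat.card F ^ (j + 2) = Y at *
    generalize Nat.card F ^ (j + 1) = W at *
    obtain ⟨e, rfl⟩ : ∃ e, W = e + 1 := ⟨W - 1, by omega⟩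
    generalize Nat.card F = q at *
    subst hr
    simp only [Nat.add_sub_cancel] at *
    refine ⟨(r + 1 + 1) * ((Y + 1) * e), ?_, fun c hc => ?_⟩
    · have : (r + 1 + 1) * ((Y + 1) * e) + (r + 1 + 1) + (r + 1) * Y ^ 2 = c1 := by
        zify at e1 z1 ⊢
        linear_combination -z1 - (Y + 1 : ℤ) * e1
      rw [← this]
      ring
    rw [e1] at hc
    have h3 := c_arith (by omega) (by omega) hc
    have h4 : (r + 1 + 1) ^ 2 + 1 ≤ c := by omega
    have h5 := Nat.mul_le_mul_right c1 h4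
    have h6 := congrArg (((r + 1 + 1) ^ 2 + 1) * ·) z1
    have h7 := Nat.mul_le_mul_left ((r + 1 + 1) * Y) hY
    have h8 : M ≤ c0 := by nlinarith
    nlinarith
  · refine le_trans ?_ (cnt_minus_le hab (j + 3) t)
    refine le_trans (Nat.mul_le_mul_left _ ?_) ((Nat.le_succ _).trans h0)
    split_ifs with h2
    · omega
    · have := Fintype.ofFinite F
      obtain ⟨k, hk⟩ := two_ne_zero_iff_odd.1 h2
      rw [← Nat.card_eq_fintype_card] at hk
      omega
  · rw [card_minus_space]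
    rw [pow_succ' _ (j + 2)] at *
    generalize Nat.card F ^ (j + 2) = Y at *
    generalize Nat.card F = q at *
    subst hr
    simp only [Nat.add_sub_cancel] at *
    refine Nat.le_of_mul_le_mul_right (c := r + 1) ?_ (by omega)
    have h1 : (r + 1 + 1) * Y ≤ (r + 1 + 1) * ((r + 1 + 1) * Y) :=
      Nat.le_mul_of_pos_left _ (by omega)
    have h2 : M * (r + 1) ≤ (r + 1 + 1) * ((r + 1 + 1) * Y) ^ 2 := by omega
    refine h2.trans ?_
    nlinarith [Nat.zero_le (r * ((r + 1 + 1) * Y) ^ 2)]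

end Cfsg.Agent.H66
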