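import Cfsg.Agent.H65.OreAdj
import Cfsg.Agent.H65.OreEx
import Cfsg.Agent.H65.OreEx2
import Cfsg.Agent.H65.OreBN
import Cfsg.Agent.H65.OreGood

set_option autoImplicit false

/-! Project ORE: common steps for symplectic groups. -/

namespace Cfsg.Agent.H65.Ore.Sp0

open Polynomial Matrix Module

variable {F V G : Type*} [Field F] [AddCommGroup V] [Module F V] [Group G] [FiniteDimensional F V]
  {Γ : Geo F V G} {ι κ : Type*} [Fintype ι] [DecidableEq ι] [Fintype κ] [DecidableEq κ]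

theorem comm_top {D g x y : G} (hg : g = x * y⁻¹) (hx : IsConj D x) (hy : IsConj D y) :
    ∃ a b : G, g = a * b * a⁻¹ * b⁻¹ :=
  have ⟨a, _, b, _, e⟩ := comm_of ⊤ (Subgroup.mem_top D) (fun _ => ⟨1, by simp, trivial⟩) hg hx hy
  ⟨a, b, e⟩

theorem M_zero (Φ : Fr Γ ι) (hM : finrank F V = 2 * Fintype.card ι) {m : V} (hm : m ∈ Φ.M) :
    m = 0 := by
  have := finrank_M Φ
  rwa [Submodule.finrank_eq_zero.1 (show finrank F Φ.M = 0 by omega)] at hm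

theorem gauss0 (Φ : Fr Γ ι) (hM : finrank F V = 2 * Fintype.card ι) (g : G) (l : GL ι F)
    (hl : Φ.lm g = l.1) : ∃ v ∈ Γ.R Φ.swap.W, ∃ u ∈ Γ.R Φ.W, g = v * Φ.lev l * 1 * u := by
  obtain ⟨v, hv, s, hs, u, hu, e⟩ := Φ.gauss g l hl
  rw [Φ.mid_eq hs Φ.Mid.one_mem fun m hm => by rw [M_zero Φ hM hm, map_zero, map_zero]] at e
  exact ⟨v, hv, u, hu, e⟩

theorem fin0 [Finite F] (Φ : Fr Γ ι) (hM : finrank F V = 2 * Fintype.card ι) {g : G}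
    {l D A B : GL ι F} (hl : Φ.lm g = l.1) (h1 : l * B = A) (hA : Rel Γ.σ D A) (hB : Rel Γ.σ D B)
    {r : F[X]} (hr : aeval D.1 r = 0) (hc : IsCoprime r (dag Γ.σ r)) :
    ∃ a b : G, g = a * b * a⁻¹ * b⁻¹ := by
  have : Finite V := Module.finite_of_finite F
  have := Γ.finite
  obtain ⟨v, hv, u, hu, e⟩ := gauss0 Φ hM g l hl
  obtain ⟨x, y, e, hx, hy⟩ := Φ.main1 hv hu e Φ.Mid.one_mem Φ.Mid.one_mem h1 (by simp) hA hB hr
    (p := 1) (fun m hm => by rw [M_zero Φ hM hm, map_zero])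
    ⟨hc, isCoprime_one_right, isCoprime_one_right⟩
  exact comm_top e hx hy

theorem sp_adj [Nonempty κ] (hS : Γ.IsSp) (Φ₀ : Fr Γ (Option κ)) (g : G)
    (hg : ∀ c : F, Γ.ρ g ≠ c • 1) : ∃ (Ψ : Fr Γ (Option κ)) (l : GL (Option κ) F),
      Ψ.lm g = l.1 ∧ l.1.det = 1 ∧ ∀ c : F, l.1 ≠ c • 1 := by
  obtain ⟨Φ, u, hl, u1, u2, hb⟩ := exists_F0 Φ₀ g hg (.inl ⟨1, one_ne_zero, hS.τ_eq 1⟩)
  have hδ : (Φ.lm g).det ≠ 0 := ((isUnit_iff_isUnit_det _).1 hl).ne_zero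
  obtain ⟨e1, e2⟩ := Φ.adj_lm (zero_mem _) (hS.Q_eq (Φ.f none + 0 +
    Γ.σ (((Φ.lm g).det⁻¹ - 1) / Γ.B (Γ.ρ g (Φ.E u)) (Φ.e none)) • Φ.e none)) hl u2
  rw [map_add, map_add, map_zero, LinearMap.map_smulₛₗ, Γ.σσ, smul_eq_mul, div_mul_cancel₀ _ hb,
    ← Φ.π_apply, ← Φ.lm_mulVec, u2, Pi.single_eq_same, add_zero (1 : F), add_sub_cancel] at e1 e2
  rw [inv_mul_cancel₀ hδ] at e1
  obtain ⟨l, hl'⟩ := (isUnit_iff_isUnit_det _).2 (e1 ▸ isUnit_one)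
  exact ⟨_, l, hl'.symm, hl' ▸ e1, Fr.ns_of (inv_ne_zero hδ) u1 (hl' ▸ e2)⟩

theorem aeval_dsum (c : Fˣ) {D : GL κ F} {q : F[X]} (h : aeval D.1 q = 0) :
    aeval (dsum (c, D)).1 ((X - C c.1) * q) = 0 := by
  rw [dsum_val, aeval_dsumM, map_mul, h]
  ext i j
  cases i <;> cases j <;> simp [dsumM]

theorem coeff_ne {q : F[X]} (hi : Irreducible q) (h2 : 2 ≤ q.natDegree) : q.coeff 0 ≠ 0 := by
  rw [coeff_zero_eq_eval_zero]
  exact hi.not_isRoot_of_natDegree_ne_one (by omega)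

end Cfsg.Agent.H65.Ore.Sp0
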