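import Mathlib

/-! Finite facts about `SL(2,5)`. -/

set_option autoImplicit false

namespace Cfsg.Agent.H66

namespace Div

abbrev Z5 := ZMod 5
abbrev M4 := Z5 × Z5 × Z5 × Z5
abbrev SL5 := Matrix.SpecialLinearGroup (Fin 2) (ZMod 5)

def m4 (x y : M4) : M4 :=
  (x.1 * y.1 + x.2.1 * y.2.2.1, x.1 * y.2.1 + x.2.1 * y.2.2.2,
    x.2.2.1 * y.1 + x.2.2.2 * y.2.2.1, x.2.2.1 * y.2.1 + x.2.2.2 * y.2.2.2)

def d4 (x : M4) : Z5 := x.1 * x.2.2.2 - x.2.1 * x.2.2.1

def enc (x : SL5) : M4 := (x.1 0 0, x.1 0 1, x.1 1 0, x.1 1 1)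

def dec (x : M4) (h : d4 x = 1) : SL5 :=
  ⟨!![x.1, x.2.1; x.2.2.1, x.2.2.2], by rw [Matrix.det_fin_two_of]; exact h⟩

theorem enc_dec (x : M4) (h : d4 x = 1) : enc (dec x h) = x := rfl

theorem enc_inj : Function.Injective enc := by
  intro x y h
  simp only [enc, Prod.mk.injEq] at h
  ext i j
  fin_cases i <;> fin_cases j
  exacts [h.1, h.2.1, h.2.2.1, h.2.2.2]

theorem enc_mul (x y : SL5) : enc (x * y) = m4 (enc x) (enc y) := by
  simp [enc, m4, Matrix.mul_apply, Fin.sum_univ_two]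

theorem d4_enc (x : SL5) : d4 (enc x) = 1 := by
  have := x.2
  rw [Matrix.det_fin_two] at this
  exact this

theorem enc_one : enc 1 = (1, 0, 0, 1) := by simp [enc]

def u : SL5 := dec (0, -1, 1, 0) (by decide)
def g : SL5 := dec (1, 1, 0, 1) (by decide)
def v : SL5 := dec (0, 1, -1, -1) (by decide)
def j : SL5 := dec (2, 0, 0, 3) (by decide)
def z : SL5 := dec (-1, 0, 0, -1) (by decide)

theorem enc_u : enc u = (0, -1, 1, 0) := rfl
theorem enc_g : enc g = (1, 1, 0, 1) := rfl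
theorem enc_v : enc v = (0, 1, -1, -1) := rfl
theorem enc_j : enc j = (2, 0, 0, 3) := rfl
theorem enc_z : enc z = (-1, 0, 0, -1) := rfl

theorem uv : u * v = g := enc_inj (by rw [enc_mul]; decide)
theorem uu : u * u = z := enc_inj (by rw [enc_mul]; decide)
theorem jj : j * j = z := enc_inj (by rw [enc_mul]; decide)
theorem zz : z * z = 1 := enc_inj (by rw [enc_mul, enc_one]; decide)
theorem z_ne : z ≠ 1 := fun h => by
  have := congrArg enc h
  rw [enc_one] at this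
  revert this; decide
theorem uj : u * j = z * (j * u) := enc_inj (by simp only [enc_mul]; decide)
theorem v3 : v * v * v = 1 := enc_inj (by simp only [enc_mul, enc_one]; decide)
theorem v_ne : v ≠ 1 := fun h => by
  have := congrArg enc h
  rw [enc_one] at this
  revert this; decide
theorem g5 : g * g * g * g * g = 1 := enc_inj (by simp only [enc_mul, enc_one]; decide)
theorem g_ne : g ≠ 1 := fun h => by
  have := congrArg enc h
  rw [enc_one] at this
  revert this; decide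

theorem enc_gpow (n : ℕ) : enc (g ^ n) = (1, (n : Z5), 0, 1) := by
  induction n with
  | zero => rw [pow_zero, enc_one]; simp
  | succ n ih => rw [pow_succ, enc_mul, ih, enc_g]; simp [m4, add_comm]

set_option synthInstance.maxSize 1000 in
theorem f1 : ∀ x : M4, d4 x = 1 → ∃ a b c d : Fin 5,
    x = m4 (m4 (m4 (m4 (m4 (m4 (m4 (1, ((a : ℕ) : Z5), 0, 1) (0, -1, 1, 0)) (1, ((b : ℕ) : Z5), 0, 1))
      (0, -1, 1, 0)) (1, ((c : ℕ) : Z5), 0, 1)) (0, -1, 1, 0)) (1, ((d : ℕ) : Z5), 0, 1))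
        (0, -1, 1, 0) := by
  decide +kernel

set_option synthInstance.maxSize 1000 in
theorem f2 : ∀ x : M4, d4 x = 1 → m4 (m4 x x) x = (1, 0, 0, 1) → x ≠ (1, 0, 0, 1) →
    ∃ h : M4, d4 h = 1 ∧ m4 x h = m4 h (0, 1, -1, -1) := by
  decide +kernel

set_option synthInstance.maxSize 1000 in
theorem f3 : ∀ x : M4, d4 x = 1 → m4 x (0, 1, -1, -1) = m4 (0, 1, -1, -1) x →
    m4 (m4 x x) x = (1, 0, 0, 1) ∨ m4 (m4 x x) x = (-1, 0, 0, -1) := by
  decide +kernel

set_option synthInstance.maxSize 1000 in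
theorem f4 : ∀ x : M4, d4 x = 1 → m4 (m4 (m4 (m4 x x) x) x) x = (1, 0, 0, 1) → x ≠ (1, 0, 0, 1) →
    ∃ h : M4, d4 h = 1 ∧ (m4 x h = m4 h (1, 1, 0, 1) ∨
      m4 x h = m4 h (m4 (1, 1, 0, 1) (1, 1, 0, 1))) := by
  decide +kernel

set_option synthInstance.maxSize 1000 in
theorem f5 : ∀ x : M4, d4 x = 1 → m4 x x = (-1, 0, 0, -1) → ∀ y : M4, m4 x y = (1, 1, 0, 1) →
    m4 (m4 y y) y = (1, 0, 0, 1) → ∃ k : Fin 5,
      m4 x (1, ((k : ℕ) : Z5), 0, 1) = m4 (1, ((k : ℕ) : Z5), 0, 1) (0, -1, 1, 0) := by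
  decide +kernel

set_option synthInstance.maxSize 1000 in
theorem f6 : ∀ x : M4, d4 x = 1 → m4 x (0, -1, 1, 0) = m4 (0, -1, 1, 0) x →
    m4 x (1, 1, 0, 1) = m4 (1, 1, 0, 1) x → x = (1, 0, 0, 1) ∨ x = (-1, 0, 0, -1) := by
  decide +kernel

theorem gen (K : Subgroup SL5) (hu : u ∈ K) (hg : g ∈ K) (x : SL5) : x ∈ K := by
  obtain ⟨a, b, c, d, h⟩ := f1 (enc x) (d4_enc x)
  have : x = g ^ (a : ℕ) * u * g ^ (b : ℕ) * u * g ^ (c : ℕ) * u * g ^ (d : ℕ) * u :=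
    enc_inj (by simp only [enc_mul, enc_gpow, enc_u]; exact h)
  rw [this]
  have h1 := fun n => K.pow_mem hg n
  exact K.mul_mem (K.mul_mem (K.mul_mem (K.mul_mem (K.mul_mem (K.mul_mem (K.mul_mem (h1 _) hu)
    (h1 _)) hu) (h1 _)) hu) (h1 _)) hu

theorem conj_v (x : SL5) (h : x * x * x = 1) (h1 : x ≠ 1) : ∃ y, x * y = y * v := by
  obtain ⟨y, hy, h2⟩ := f2 (enc x) (d4_enc x) (by rw [← enc_mul, ← enc_mul, h, enc_one])
    (fun h3 => h1 (enc_inj (h3.trans enc_one.symm)))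
  exact ⟨dec y hy, enc_inj (by rw [enc_mul, enc_mul]; exact h2)⟩

theorem cent_v (x : SL5) (h : x * v = v * x) : x * x * x = 1 ∨ x * x * x = z := by
  have h1 := congrArg enc h
  rw [enc_mul, enc_mul] at h1
  rcases f3 (enc x) (d4_enc x) h1 with h2 | h2
  · exact Or.inl (enc_inj (by rw [enc_mul, enc_mul, enc_one]; exact h2))
  · exact Or.inr (enc_inj (by rw [enc_mul, enc_mul]; exact h2))

theorem conj_g (x : SL5) (h : x * x * x * x * x = 1) (h1 : x ≠ 1) :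
    ∃ y, x * y = y * g ∨ x * y = y * (g * g) := by
  obtain ⟨y, hy, h2⟩ := f4 (enc x) (d4_enc x)
    (by rw [← enc_mul, ← enc_mul, ← enc_mul, ← enc_mul, h, enc_one])
    (fun h3 => h1 (enc_inj (h3.trans enc_one.symm)))
  refine ⟨dec y hy, h2.imp (fun h2 => enc_inj ?_) (fun h2 => enc_inj ?_)⟩
  · rw [enc_mul, enc_mul]; exact h2
  · rw [enc_mul, enc_mul, enc_mul]; exact h2

theorem conj_u (x y : SL5) (h : x * x = z) (h1 : x * y = g) (h2 : y * y * y = 1) :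
    ∃ k : ℕ, x * g ^ k = g ^ k * u := by
  obtain ⟨k, hk⟩ := f5 (enc x) (d4_enc x) (by rw [← enc_mul, h]; rfl) (enc y)
    (by rw [← enc_mul, h1]; rfl) (by rw [← enc_mul, ← enc_mul, h2, enc_one])
  exact ⟨k, enc_inj (by rw [enc_mul, enc_mul, enc_gpow]; exact hk)⟩

theorem cent_ug (x : SL5) (h : x * u = u * x) (h' : x * g = g * x) : x = 1 ∨ x = z := by
  have h1 := congrArg enc h
  have h2 := congrArg enc h'
  rw [enc_mul, enc_mul] at h1 h2
  rcases f6 (enc x) (d4_enc x) h1 h2 with h3 | h3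
  · exact Or.inl (enc_inj (h3.trans enc_one.symm))
  · exact Or.inr (enc_inj h3)

end Div

end Cfsg.Agent.H66
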