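import Cfsg.Agent.H66.DivQ
import Cfsg.Agent.H66.DivF

/-! `SL(2,5)` inside the multiplicative group of a division ring: no centralizing element of
prime order at least 7, and no overgroup of index 2. -/

set_option autoImplicit false
set_option linter.style.haveILetI false

namespace Cfsg.Agent.H66.Div

variable {D : Type*} [DivisionRing D] {G : Type*} [Group G]

theorem psi_z (ψ : SL5 →* D) (hψ : Function.Injective ψ) : ψ z = -1 := by
  rcases sq_eq_cases (x := ψ z) (y := 1) (by rw [mul_one, one_mul])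
    (by rw [← map_mul, zz, map_one, mul_one]) with h | h
  · exact absurd (hψ (h.trans ψ.map_one.symm)) z_ne
  · exact h

theorem two_ne (ψ : SL5 →* D) (hψ : Function.Injective ψ) : (2 : D) ≠ 0 := by
  intro h
  apply z_ne
  apply hψ
  rw [psi_z ψ hψ, map_one, neg_eq_iff_add_eq_zero, one_add_one_eq_two, h]

theorem g5' : g ^ 5 = 1 := by rw [← g5]; simp only [pow_succ, pow_zero, one_mul]

theorem tr_comm (ψ : SL5 →* D) (hψ : Function.Injective ψ) (x : SL5) :
    Commute (ψ g + ψ g ^ 4) (ψ x) := by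
  have hu : ψ u * ψ u = -1 := by rw [← map_mul, uu, psi_z ψ hψ]
  have hv : ψ v * ψ v = -1 - ψ v := by
    have h := geom_zero (x := ψ v) (n := 3)
      (by rw [← map_pow, show v ^ 3 = v * v * v by simp only [pow_succ, pow_zero, one_mul], v3,
        map_one]) (fun h => v_ne (hψ (h.trans ψ.map_one.symm)))
    simp only [Finset.sum_range_succ, Finset.sum_range_zero, pow_zero, pow_one, zero_add, sq] at h
    rw [← sub_eq_zero, ← h]; abel
  have hg : ψ u * ψ v = ψ g := by rw [← map_mul, uv]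
  have h := trace_comm hu hv (w := ψ g ^ 4) (by rw [hg, ← pow_succ', ← map_pow, g5', map_one])
  rw [hg] at h
  let K : Subgroup SL5 :=
    { carrier := {x | Commute (ψ g + ψ g ^ 4) (ψ x)}
      mul_mem' := fun {a b} ha hb => by
        show Commute _ (ψ (a * b))
        rw [map_mul]; exact Commute.mul_right ha hb
      one_mem' := by
        show Commute _ (ψ 1)
        rw [map_one]; exact Commute.one_right _
      inv_mem' := fun {a} ha => by
        show Commute _ (ψ a⁻¹)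
        rw [map_inv]; exact Commute.inv_right₀ ha }
  have hK : g ∈ K := by rw [← uv]; exact K.mul_mem h.1 h.2
  exact gen K h.1 hK x

theorem tr_sum (ψ : SL5 →* D) (hψ : Function.Injective ψ) :
    1 + ψ g + ψ g ^ 2 + ψ g ^ 3 + ψ g ^ 4 = 0 := by
  have h := geom_zero (x := ψ g) (n := 5) (by rw [← map_pow, g5', map_one])
    (fun h => g_ne (hψ (h.trans ψ.map_one.symm)))
  simpa only [Finset.sum_range_succ, Finset.sum_range_zero, pow_zero, pow_one, zero_add] using h

theorem tr_sq (ψ : SL5 →* D) (hψ : Function.Injective ψ) :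
    (2 * (ψ g + ψ g ^ 4) + 1) ^ 2 = 5 := by
  have h := tr_sum ψ hψ
  have h5 : ψ g ^ 5 = 1 := by rw [← map_pow, g5', map_one]
  generalize ψ g = γ at h h5
  have h8 : γ ^ 8 = γ ^ 3 := by rw [show 8 = 5 + 3 from rfl, pow_add, h5, one_mul]
  calc (2 * (γ + γ ^ 4) + 1) ^ 2 = 4 * (γ + γ ^ 2 + γ ^ 8 + γ ^ 4) + 8 * γ ^ 5 + 1 := by
        noncomm_ring
    _ = 4 * (1 + γ + γ ^ 2 + γ ^ 3 + γ ^ 4) + 5 * 1 := by rw [h8, h5]; noncomm_ring
    _ = 5 := by rw [h, mul_zero, zero_add, mul_one]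

theorem quat_uj (ψ : SL5 →* D) (hψ : Function.Injective ψ) :
    ψ u * ψ u = -1 ∧ ψ j * ψ j = -1 ∧ ψ u * ψ j = -(ψ j * ψ u) := by
  refine ⟨by rw [← map_mul, uu, psi_z ψ hψ], by rw [← map_mul, jj, psi_z ψ hψ], ?_⟩
  rw [← map_mul, uj, map_mul, map_mul, psi_z ψ hψ, neg_one_mul]

theorem no_cent (ψ : SL5 →* D) (hψ : Function.Injective ψ) {m : D} {p : ℕ} (hp : p.Prime)
    (h30 : p.Coprime 30) (hm : m ^ p = 1) (hm1 : m ≠ 1) (hc : ∀ x, Commute m (ψ x)) : False := by
  obtain ⟨h1, h2, h3⟩ := quat_uj ψ hψ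
  have hr : ∀ x, Commute (2 * (ψ g + ψ g ^ 4) + 1) (ψ x) := fun x =>
    ((Commute.ofNat_left 2 _).mul_left (tr_comm ψ hψ x)).add_left (Commute.one_left _)
  refine no_root (two_ne ψ hψ) h1 h2 h3 (tr_sq ψ hψ) hp h30 hm hm1 (hr u) (hr j) (hc u) (hc j) ?_
  exact ((Commute.ofNat_left 2 _).mul_left ((hc g).symm.add_left
    ((hc g).symm.pow_left 4))).add_left (Commute.one_left _)

theorem no_index_two (φ : G →* D) (hφ : Function.Injective φ) (e : SL5 →* G)
    (he : Function.Injective e) (hi : e.range.index = 2) : False := by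
  let ψ : SL5 →* D := φ.comp e
  have hψ : Function.Injective ψ := hφ.comp he
  have hψe : ∀ x, φ (e x) = ψ x := fun _ => rfl
  have h2 := two_ne ψ hψ
  have hz := psi_z ψ hψ
  haveI hN : e.range.Normal := Subgroup.normal_of_index_eq_two hi
  have hconj : ∀ (y : G) (x : SL5), ∃ x', e x' * y = y * e x := by
    intro y x
    obtain ⟨x', hx'⟩ := hN.conj_mem (e x) ⟨x, rfl⟩ y
    exact ⟨x', by rw [hx']; group⟩
  have hpow : ∀ (y : G) (x x' : SL5), e x' * y = y * e x → ∀ n : ℕ, x ^ n = 1 → x' ^ n = 1 := by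
    intro y x x' h n hn
    apply he
    have : e x' = y * e x * y⁻¹ := by rw [← h]; group
    rw [map_pow, this, conj_pow, ← map_pow, hn]; simp
  have hne : ∀ (y : G) (x x' : SL5), e x' * y = y * e x → x ≠ 1 → x' ≠ 1 := by
    intro y x x' h hx h1
    rw [h1, map_one, one_mul] at h
    exact hx (he (by rw [map_one]; exact (left_eq_mul.1 h)))
  have hsq : ∀ y : G, ∃ w, e w = y * y := fun y => Subgroup.mul_self_mem_of_index_two hi y
  have hout : ∀ (y : G) (x : SL5), y ∉ e.range → e x * y ∉ e.range := by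
    intro y x hy h
    exact hy ((e.range.mul_mem_cancel_left ⟨x, rfl⟩).1 h)
  have hinv : ∀ y : G, y ∉ e.range → y * y ≠ 1 := by
    intro y hy h
    rcases sq_eq_cases (x := φ y) (y := 1) (by rw [mul_one, one_mul])
      (by rw [← map_mul, h, map_one, mul_one]) with h1 | h1
    · exact hy ⟨1, hφ (by rw [h1, map_one, map_one])⟩
    · exact hy ⟨z, hφ (by rw [h1, hψe, hz])⟩
  have p3 : ∀ x : SL5, x ^ 3 = x * x * x := fun x => by simp only [pow_succ, pow_zero, one_mul]
  have p5 : ∀ x : SL5, x ^ 5 = x * x * x * x * x := fun x => by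
    simp only [pow_succ, pow_zero, one_mul]
  obtain ⟨y0, hy0⟩ : ∃ y, y ∉ e.range := by
    by_contra hn
    push Not at hn
    rw [(Subgroup.eq_top_iff' _).2 hn, Subgroup.index_top] at hi
    norm_num at hi
  obtain ⟨Y, hY, hYY⟩ : ∃ Y, Y ∉ e.range ∧ Y * Y = e z := by
    obtain ⟨x', hx'⟩ := hconj y0 v
    obtain ⟨h, hh⟩ := conj_v x' (by rw [← p3]; exact hpow y0 v x' hx' 3 (by rw [p3, v3]))
      (hne y0 v x' hx' v_ne)
    have h1 : e h⁻¹ * y0 * e v = e v * (e h⁻¹ * y0) := by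
      have : h⁻¹ * x' = v * h⁻¹ := by
        rw [inv_mul_eq_iff_eq_mul, ← mul_assoc, ← hh]; group
      rw [mul_assoc, ← hx', ← mul_assoc, ← map_mul, this, map_mul, mul_assoc]
    have h3 := hout y0 h⁻¹ hy0
    generalize e h⁻¹ * y0 = y1 at h1 h3
    obtain ⟨w, hw⟩ := hsq y1
    have h4 : w * v = v * w := he (by
      rw [map_mul, map_mul, hw, mul_assoc, h1, ← mul_assoc, h1, mul_assoc])
    have h5 : (e w * y1) * (e w * y1) = e (w * w * w) := by
      rw [map_mul, map_mul, hw]; group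
    refine ⟨e w * y1, hout y1 w h3, ?_⟩
    rcases cent_v w h4 with h6 | h6
    · exact absurd (by rw [h5, h6, map_one]) (hinv _ (hout y1 w h3))
    · rw [h5, h6]
  obtain ⟨x', hx'⟩ := hconj Y g
  obtain ⟨h, hh | hh⟩ := conj_g x' (by rw [← p5]; exact hpow Y g x' hx' 5 g5')
    (hne Y g x' hx' g_ne)
  · have h1 : e h⁻¹ * Y * e g = e g * (e h⁻¹ * Y) := by
      have : h⁻¹ * x' = g * h⁻¹ := by
        rw [inv_mul_eq_iff_eq_mul, ← mul_assoc, ← hh]; group
      rw [mul_assoc, ← hx', ← mul_assoc, ← map_mul, this, map_mul, mul_assoc]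
    have h3 := hout Y h⁻¹ hY
    generalize e h⁻¹ * Y = y1 at h1 h3
    obtain ⟨u', hu'⟩ := hconj y1 u
    obtain ⟨v', hv'⟩ := hconj y1 v
    have hzc : e z * y1 = y1 * e z := hφ (by
      rw [map_mul, map_mul, hψe, hz, neg_one_mul, mul_neg_one])
    have h4 : u' * u' = z := he (mul_right_cancel (b := y1) (by
      rw [map_mul, mul_assoc, hu', ← mul_assoc, hu', mul_assoc, ← map_mul, uu, hzc]))
    have h5 : u' * v' = g := he (mul_right_cancel (b := y1) (by
      rw [map_mul, mul_assoc, hv', ← mul_assoc, hu', mul_assoc, ← map_mul, uv, h1]))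
    obtain ⟨k, hk⟩ := conj_u u' v' h4 h5
      (by rw [← p3]; exact hpow y1 v v' hv' 3 (by rw [p3, v3]))
    have h6 : e (g ^ k)⁻¹ * y1 * e u = e u * (e (g ^ k)⁻¹ * y1) := by
      have : (g ^ k)⁻¹ * u' = u * (g ^ k)⁻¹ := by
        rw [inv_mul_eq_iff_eq_mul, ← mul_assoc, ← hk]; group
      rw [mul_assoc, ← hu', ← mul_assoc, ← map_mul, this, map_mul, mul_assoc]
    have h7 : e (g ^ k)⁻¹ * y1 * e g = e g * (e (g ^ k)⁻¹ * y1) := by
      have : (g ^ k)⁻¹ * g = g * (g ^ k)⁻¹ := by group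
      rw [mul_assoc, h1, ← mul_assoc, ← map_mul, this, map_mul, mul_assoc]
    have h8 := hout y1 (g ^ k)⁻¹ h3
    generalize e (g ^ k)⁻¹ * y1 = c at h6 h7 h8
    obtain ⟨w, hw⟩ := hsq c
    have h9 : ∀ x, c * e x = e x * c → w * x = x * w := fun x hx => he (by
      rw [map_mul, map_mul, hw, mul_assoc, hx, ← mul_assoc, hx, mul_assoc])
    rcases cent_ug w (h9 u h6) (h9 g h7) with h10 | h10
    · exact hinv c h8 (by rw [← hw, h10, map_one])
    · rcases sq_eq_cases (x := φ c) (y := φ (e u)) (by rw [← map_mul, h6, map_mul])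
        (by rw [← map_mul, ← map_mul, ← hw, ← map_mul, uu, h10]) with h11 | h11
      · exact h8 ⟨u, (hφ h11).symm⟩
      · exact h8 ⟨z * u, hφ (by rw [h11, map_mul, map_mul, hψe z, hz, neg_one_mul])⟩
  · obtain ⟨q1, q2, q3⟩ := quat_uj ψ hψ
    haveI := charZero_of_quat h2 q1 q2 q3
    have hsum := tr_sum ψ hψ
    have hr2 := tr_sq ψ hψ
    have h5 : ψ g ^ 5 = 1 := by rw [← map_pow, g5', map_one]
    have hh0 : ψ h ≠ 0 := by
      have : ψ h * ψ h⁻¹ = 1 := by rw [← map_mul, mul_inv_cancel, map_one]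
      exact left_ne_zero_of_mul_eq_one this
    have e1 : ψ x' * φ Y = φ Y * ψ g := by rw [← hψe, ← hψe, ← map_mul, hx', map_mul]
    have e2 : ψ x' * ψ h = ψ h * ψ g ^ 2 := by rw [← map_mul, hh, map_mul, map_mul, sq]
    have e3 : ψ x' ^ 4 * φ Y = φ Y * ψ g ^ 4 := (SemiconjBy.pow_right e1.symm 4).symm
    have e4 : ψ x' ^ 4 * ψ h = ψ h * (ψ g ^ 2) ^ 4 := (SemiconjBy.pow_right e2.symm 4).symm
    have h8 : (ψ g ^ 2) ^ 4 = ψ g ^ 3 := by
      rw [← pow_mul, show 2 * 4 = 5 + 3 from rfl, pow_add, h5, one_mul]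
    have e5 : ψ x' + ψ x' ^ 4 = -1 - (ψ g + ψ g ^ 4) := by
      apply mul_right_cancel₀ hh0
      rw [add_mul, e2, e4, h8, ← mul_add, sub_mul, (tr_comm ψ hψ h).eq, neg_one_mul,
        ← mul_neg_one, ← mul_sub]
      congr 1
      rw [← sub_eq_zero, ← hsum]; abel
    have e6 : φ Y * (ψ g + ψ g ^ 4) = (-1 - (ψ g + ψ g ^ 4)) * φ Y := by
      rw [← e5, mul_add, add_mul, e1, e3]
    have hYY' : φ Y * φ Y = -1 := by rw [← map_mul, hYY, hψe, hz]
    generalize ψ g + ψ g ^ 4 = s at e6 hr2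
    generalize φ Y = y at e6 hYY'
    have e7 : y * (2 * s + 1) = -((2 * s + 1) * y) := by
      calc y * (2 * s + 1) = 2 * (y * s) + y := by noncomm_ring
        _ = -((2 * s + 1) * y) := by rw [e6]; noncomm_ring
    generalize 2 * s + 1 = r at e7 hr2
    have e8 : (r + y) * (r + y) = 2 * 2 := by
      calc (r + y) * (r + y) = r ^ 2 + y * y + (r * y + y * r) := by noncomm_ring
        _ = 2 * 2 := by rw [hr2, hYY', e7]; norm_num
    have e9 : y * (r + y) = (r + y) * y := by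
      rcases sq_eq_cases (Commute.ofNat_right _ 2).eq e8 with h9 | h9 <;> rw [h9]
      · exact (Commute.ofNat_right _ 2).eq
      · exact (Commute.ofNat_right _ 2).neg_right.eq
    rw [mul_add, add_mul, e7] at e9
    have e10 := eq_zero_of_eq_neg' h2 (add_right_cancel e9).symm
    have hy0 : y ≠ 0 := by rintro rfl; simp at hYY'
    rw [(mul_eq_zero.1 e10).resolve_right hy0] at hr2
    norm_num at hr2

end Cfsg.Agent.H66.Div
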