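import Mathlib

/-! Minus one is a sum of three squares in a field of characteristic zero containing a square
root of five and a primitive root of unity of prime order at least seven. -/

set_option autoImplicit false
set_option linter.style.haveILetI false

namespace Cfsg.Agent.H66

open Finset

/-- Thue's lemma for the form `u² + 5 y²`. -/
theorem thue_five {l : ℕ} (hl : l.Prime) (r : ZMod l) (hr : r ^ 2 = -5) :
    ∃ (u y : ℤ) (k : ℕ), 0 < k ∧ k ≤ 5 ∧ u ^ 2 + 5 * y ^ 2 = k * l := by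
  haveI : NeZero l := ⟨hl.ne_zero⟩
  set s := Nat.sqrt l with hs
  have hs1 : s * s < l := by
    have h1 : s * s ≤ l := Nat.sqrt_le l
    rcases h1.lt_or_eq with h | h
    · exact h
    · exfalso
      have h2 : s ∣ l := ⟨s, h.symm⟩
      rcases (Nat.dvd_prime hl).1 h2 with h3 | h3
      · rw [h3] at h; exact hl.one_lt.ne h
      · rw [h3] at h
        have := hl.one_lt
        nlinarith
  have hs2 : l < (s + 1) * (s + 1) := Nat.lt_succ_sqrt l
  have hcard : Fintype.card (ZMod l) < Fintype.card (Fin (s + 1) × Fin (s + 1)) := by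
    rw [ZMod.card, Fintype.card_prod, Fintype.card_fin]; exact hs2
  obtain ⟨a, b, hab, h⟩ := Fintype.exists_ne_map_eq_of_card_lt
    (fun x : Fin (s + 1) × Fin (s + 1) => ((x.1 : ℕ) : ZMod l) - r * ((x.2 : ℕ) : ZMod l)) hcard
  set u : ℤ := ((a.1 : ℕ) : ℤ) - ((b.1 : ℕ) : ℤ) with hu
  set y : ℤ := ((a.2 : ℕ) : ℤ) - ((b.2 : ℕ) : ℤ) with hy
  have h0 : ((u ^ 2 + 5 * y ^ 2 : ℤ) : ZMod l) = 0 := by
    have h1 : (u : ZMod l) = r * (y : ZMod l) := by
      simp only [hu, hy, Int.cast_sub, Int.cast_natCast]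
      linear_combination h
    push_cast
    rw [h1, mul_pow, hr]; ring
  obtain ⟨c, hc⟩ := (ZMod.intCast_zmod_eq_zero_iff_dvd _ _).1 h0
  have hu2 : u ^ 2 ≤ s * s := by
    have h1 := a.1.2; have h2 := b.1.2
    have : |u| ≤ s := by rw [abs_le]; constructor <;> omega
    calc u ^ 2 = |u| ^ 2 := (sq_abs u).symm
      _ ≤ (s : ℤ) ^ 2 := pow_le_pow_left₀ (abs_nonneg _) this 2
      _ = s * s := by ring
  have hy2 : y ^ 2 ≤ s * s := by
    have h1 := a.2.2; have h2 := b.2.2
    have : |y| ≤ s := by rw [abs_le]; constructor <;> omega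
    calc y ^ 2 = |y| ^ 2 := (sq_abs y).symm
      _ ≤ (s : ℤ) ^ 2 := pow_le_pow_left₀ (abs_nonneg _) this 2
      _ = s * s := by ring
  have hpos : 0 < u ^ 2 + 5 * y ^ 2 := by
    by_contra hn
    have h1 : u ^ 2 = 0 := by nlinarith [sq_nonneg u, sq_nonneg y]
    have h2 : y ^ 2 = 0 := by nlinarith [sq_nonneg u, sq_nonneg y]
    have h3 := pow_eq_zero_iff (two_ne_zero) |>.1 h1
    have h4 := pow_eq_zero_iff (two_ne_zero) |>.1 h2
    apply hab
    ext <;> omega
  have hs1' : (s : ℤ) * s < l := by exact_mod_cast hs1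
  have hl0 : (0 : ℤ) < l := by exact_mod_cast hl.pos
  have hc0 : 0 < c := by
    by_contra hn
    have : (l : ℤ) * c ≤ 0 := mul_nonpos_of_nonneg_of_nonpos hl0.le (by omega)
    omega
  have hc6 : c < 6 := by
    by_contra hn
    have : (l : ℤ) * 6 ≤ l * c := mul_le_mul_of_nonneg_left (by omega) hl0.le
    omega
  refine ⟨u, y, c.toNat, by omega, by omega, ?_⟩
  rw [hc, Int.toNat_of_nonneg hc0.le, mul_comm]

theorem three_not_sq : ¬ IsSquare (3 : ZMod 5) := by decide

/-- A prime `l ≡ 3 mod 20` is a sum of two squares in a field containing a square root of 5. -/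
theorem prime_two_sq {K : Type*} [Field K] [CharZero K] {r : K} (hr : r ^ 2 = 5) {l : ℕ}
    (hl : l.Prime) (h20 : l % 20 = 3) : ∃ c d : K, (l : K) = c ^ 2 + d ^ 2 := by
  haveI : Fact l.Prime := ⟨hl⟩
  haveI : Fact (Nat.Prime 5) := ⟨by norm_num⟩
  have hl2 : l ≠ 2 := by rintro rfl; norm_num at h20
  have h5 : ¬ IsSquare ((5 : ℕ) : ZMod l) := by
    rw [← ZMod.exists_sq_eq_prime_iff_of_mod_four_eq_one (p := 5) (q := l) (by norm_num) hl2]
    have : (l : ZMod 5) = 3 := by
      have h : l % 5 = 3 := by omega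
      rw [← ZMod.natCast_mod l 5, h]; rfl
    rw [this]
    exact three_not_sq
  have hm : ¬ IsSquare (-1 : ZMod l) := by
    rw [ZMod.exists_sq_eq_neg_one_iff]; omega
  have h5' : quadraticChar (ZMod l) ((5 : ℕ) : ZMod l) = -1 := quadraticChar_neg_one_iff_not_isSquare.2 h5
  have hm' : quadraticChar (ZMod l) (-1) = -1 := quadraticChar_neg_one_iff_not_isSquare.2 hm
  have hp : quadraticChar (ZMod l) (-5) = 1 := by
    have : (-5 : ZMod l) = -1 * ((5 : ℕ) : ZMod l) := by push_cast; ring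
    rw [this, map_mul, h5', hm']; norm_num
  have hne : (-5 : ZMod l) ≠ 0 := by
    intro h; rw [h, MulChar.map_zero] at hp; exact zero_ne_one hp
  obtain ⟨t, ht⟩ := (quadraticChar_one_iff_isSquare hne).1 hp
  obtain ⟨u, y, k, hk0, hk5, h⟩ := thue_five hl t (by rw [ht]; ring)
  have h' : (u : K) ^ 2 + (r * y) ^ 2 = k * l := by
    have := congrArg (Int.cast : ℤ → K) h
    push_cast at this
    rw [mul_pow, hr]; exact this
  have hk : ∃ a b : K, (k : K) = a ^ 2 + b ^ 2 := by
    interval_cases k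
    · exact ⟨1, 0, by norm_num⟩
    · exact ⟨1, 1, by norm_num⟩
    · exact ⟨(1 + r) / 2, (1 - r) / 2, by push_cast; linear_combination (-1 / 2 : K) * hr⟩
    · exact ⟨2, 0, by norm_num⟩
    · exact ⟨2, 1, by norm_num⟩
  obtain ⟨a, b, hab⟩ := hk
  have hk' : (k : K) ≠ 0 := by exact_mod_cast hk0.ne'
  refine ⟨(u * a + r * y * b) / k, (u * b - r * y * a) / k, ?_⟩
  field_simp
  linear_combination (-(a ^ 2 + b ^ 2)) * h' + ((k : K) * l) * hab

/-- Gauss's identity at a point: `(x ^ l - 1) / (x - 1)` is a norm from `K(√(-l))`. -/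
theorem gauss_norm {K : Type*} [Field K] [CharZero K] {l : ℕ} (hl : l.Prime) (h4 : l % 4 = 3)
    (x : K) : ∃ a b : K, (x - 1) * (a ^ 2 + l * b ^ 2) = 4 * (x ^ l - 1) := by
  classical
  haveI : Fact l.Prime := ⟨hl⟩
  haveI : NeZero l := ⟨hl.ne_zero⟩
  let L := CyclotomicField l K
  haveI : IsGalois K L := IsCyclotomicExtension.isGalois {l} K L
  haveI : FiniteDimensional K L := IsCyclotomicExtension.finiteDimensional {l} K L
  haveI : CharZero L := charZero_of_injective_algebraMap (algebraMap K L).injective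
  have hη := IsCyclotomicExtension.zeta_spec l K L
  set η := IsCyclotomicExtension.zeta l K L with hηdef
  let ψ : AddChar (ZMod l) L := AddChar.zmodChar l ((IsPrimitiveRoot.iff_def η l).mp hη).left
  have hψ : ψ.IsPrimitive := AddChar.zmodChar_primitive_of_primitive_root l hη
  have hψa : ∀ a : ZMod l, ψ a = η ^ a.val := fun a => AddChar.zmodChar_apply _ a
  have hl2 : ringChar (ZMod l) ≠ 2 := by
    rw [ZMod.ringChar_zmod_n]; rintro rfl; norm_num at h4
  let χ0 := quadraticChar (ZMod l)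
  let χ : MulChar (ZMod l) L := χ0.ringHomComp (Int.castRingHom L)
  have hχ1 : χ ≠ 1 :=
    (MulChar.ringHomComp_ne_one_iff (RingHom.injective_int _)).2 (quadraticChar_ne_one hl2)
  have hχ2 : χ.IsQuadratic := (quadraticChar_isQuadratic (ZMod l)).comp _
  have hm : χ0 (-1) = -1 := by
    apply quadraticChar_neg_one_iff_not_isSquare.2
    rw [ZMod.exists_sq_eq_neg_one_iff]; omega
  have hg : gaussSum χ ψ ^ 2 = -(l : L) := by
    rw [gaussSum_sq hχ1 hχ2 hψ, ZMod.card]
    have : χ (-1) = -1 := by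
      show (Int.castRingHom L) (χ0 (-1)) = -1
      rw [hm]; simp
    rw [this]; ring
  set g := gaussSum χ ψ with hgdef
  have hg0 : g ≠ 0 := by
    intro h; rw [h] at hg
    have : (l : L) = 0 := by linear_combination hg
    exact hl.ne_zero (by exact_mod_cast this)
  let X : L := algebraMap K L x
  let P : ℤ → L := fun e => ∏ r ∈ univ.filter (fun r : ZMod l => χ0 r = e), (X - ψ r)
  have hP : (X - 1) * (P 1 * P (-1)) = X ^ l - 1 := by
    have h1 : X ^ l - 1 = ∏ r : ZMod l, (X - ψ r) := by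
      have h2 := congrArg (Polynomial.eval X)
        (X_pow_sub_C_eq_prod hη hl.pos (one_pow l : (1 : L) ^ l = 1))
      simp only [Polynomial.eval_sub, Polynomial.eval_pow, Polynomial.eval_X, Polynomial.eval_C,
        Polynomial.eval_prod, mul_one] at h2
      rw [h2]
      symm
      refine Finset.prod_bij (fun r _ => r.val) (fun r _ => mem_range.2 (ZMod.val_lt r))
        (fun a _ b _ h => ZMod.val_injective l h)
        (fun i hi => ⟨(i : ZMod l), mem_univ _, ZMod.val_cast_of_lt (mem_range.1 hi)⟩) ?_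
      intro r _; rw [hψa]
    rw [h1, ← Finset.prod_filter_mul_prod_filter_not univ (fun r : ZMod l => r = 0),
      ← Finset.prod_filter_mul_prod_filter_not (univ.filter fun r : ZMod l => ¬ r = 0)
        (fun r => χ0 r = 1)]
    congr 1
    · rw [Finset.filter_eq' univ (0 : ZMod l)]; simp
    · congr 1
      · apply Finset.prod_congr _ (fun _ _ => rfl)
        ext r
        simp only [mem_filter, mem_univ, true_and]
        refine ⟨fun h => ⟨?_, h⟩, fun h => h.2⟩
        rintro rfl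
        rw [MulChar.map_zero] at h; exact zero_ne_one h
      · apply Finset.prod_congr _ (fun _ _ => rfl)
        ext r
        simp only [mem_filter, mem_univ, true_and]
        constructor
        · intro h
          refine ⟨?_, by rw [h]; norm_num⟩
          rintro rfl
          rw [MulChar.map_zero] at h; norm_num at h
        · rintro ⟨h0, h1⟩
          exact (quadraticChar_dichotomy h0).resolve_left h1
  have hσ : ∀ σ : L ≃ₐ[K] L, ∃ t : (ZMod l)ˣ, ∀ r, σ (ψ r) = ψ (t * r) := by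
    intro σ
    have h1 : σ η ^ l = 1 := by rw [← map_pow, hη.pow_eq_one, map_one]
    obtain ⟨i, -, hi⟩ := hη.eq_pow_of_pow_eq_one h1
    have hi0 : (i : ZMod l) ≠ 0 := by
      intro h
      obtain ⟨c, rfl⟩ := (ZMod.natCast_eq_zero_iff _ _).1 h
      rw [pow_mul, hη.pow_eq_one, one_pow] at hi
      exact hη.ne_one hl.one_lt (σ.injective (by rw [← hi, map_one]))
    refine ⟨Units.mk0 _ hi0, fun r => ?_⟩
    rw [hψa, map_pow, ← hi, ← pow_mul, Units.val_mk0]
    have : (i : ZMod l) * r = ((i * r.val : ℕ) : ZMod l) := by push_cast; rw [ZMod.natCast_zmod_val]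
    rw [this]
    exact (AddChar.zmodChar_apply' _ _).symm
  have hσP : ∀ (σ : L ≃ₐ[K] L) (t : (ZMod l)ˣ), (∀ r, σ (ψ r) = ψ (t * r)) → ∀ e,
      σ (P e) = P (χ0 t * e) := by
    intro σ t ht e
    simp only [P, map_prod, map_sub, ht, X, AlgEquiv.commutes]
    have ht2 : χ0 t * χ0 t = 1 := by
      rw [← sq]; exact quadraticChar_sq_one t.ne_zero
    refine Finset.prod_bij (fun r _ => (t : ZMod l) * r) (fun r hr => ?_)
      (fun a _ b _ h => t.isUnit.mul_left_cancel h) (fun r hr => ⟨(t⁻¹ : (ZMod l)ˣ) * r, ?_, ?_⟩)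
      (fun _ _ => rfl)
    · simp only [mem_filter, mem_univ, true_and] at hr ⊢
      rw [map_mul, hr]
    · simp only [mem_filter, mem_univ, true_and] at hr ⊢
      have h3 : χ0 t * χ0 ((t⁻¹ : (ZMod l)ˣ) * r) = χ0 r := by
        rw [← map_mul, ← mul_assoc, Units.mul_inv, one_mul]
      calc χ0 ((t⁻¹ : (ZMod l)ˣ) * r) = (χ0 t * χ0 t) * χ0 ((t⁻¹ : (ZMod l)ˣ) * r) := by
            rw [ht2, one_mul]
        _ = χ0 t * (χ0 t * e) := by rw [mul_assoc, h3, hr]
        _ = e := by rw [← mul_assoc, ht2, one_mul]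
    · rw [← mul_assoc, Units.mul_inv, one_mul]
  have hσg : ∀ (σ : L ≃ₐ[K] L) (t : (ZMod l)ˣ), (∀ r, σ (ψ r) = ψ (t * r)) →
      (χ0 t : L) * σ g = g := by
    intro σ t ht
    have h1 : σ g = gaussSum χ (ψ.mulShift t) := by
      simp only [hgdef, gaussSum, map_sum, map_mul, ht, AddChar.mulShift_apply]
      refine Finset.sum_congr rfl fun r _ => ?_
      congr 1
      exact map_intCast σ (χ0 r)
    rw [h1]
    exact gaussSum_mulShift χ ψ t
  obtain ⟨a, ha⟩ : P 1 + P (-1) ∈ Set.range (algebraMap K L) := by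
    rw [IsGalois.mem_range_algebraMap_iff_fixed]
    intro σ
    obtain ⟨t, ht⟩ := hσ σ
    rw [map_add, hσP σ t ht, hσP σ t ht]
    rcases quadraticChar_dichotomy t.ne_zero with h | h
    · simp only [χ0, h, one_mul]
    · simp only [χ0, h, mul_one, mul_neg, neg_neg]; ring
  obtain ⟨b, hb⟩ : (P 1 - P (-1)) / g ∈ Set.range (algebraMap K L) := by
    rw [IsGalois.mem_range_algebraMap_iff_fixed]
    intro σ
    obtain ⟨t, ht⟩ := hσ σ
    have h1 := hσg σ t ht
    rw [map_div₀, map_sub, hσP σ t ht, hσP σ t ht]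
    rcases quadraticChar_dichotomy t.ne_zero with h | h
    · simp only [χ0, h, one_mul, Int.cast_one] at h1 ⊢
      rw [h1]
    · simp only [χ0, h, mul_one, mul_neg, neg_neg, Int.cast_neg, Int.cast_one] at h1 ⊢
      have : σ g = -g := by linear_combination -h1
      rw [this, div_neg, ← neg_div, neg_sub]
  refine ⟨a, b, (algebraMap K L).injective ?_⟩
  simp only [map_mul, map_sub, map_add, map_pow, map_one, map_natCast, map_ofNat, ha, hb]
  have hl' : (l : L) = -g ^ 2 := by rw [hg]; ring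
  rw [hl']
  change (X - 1) * _ = 4 * (X ^ l - 1)
  rw [← hP, div_pow, neg_mul, mul_div_cancel₀ _ (pow_ne_zero 2 hg0)]
  ring

/-- The level of a field containing `√5` and a primitive `p`-th root of unity. -/
theorem neg_one_three_sq {K : Type*} [Field K] [CharZero K] {r z : K} (hr : r ^ 2 = 5) {p : ℕ}
    (hp : p.Prime) (h30 : p.Coprime 30) (hz : z ^ p = 1) (hz1 : z ≠ 1) :
    ∃ a b c : K, 1 + a ^ 2 + b ^ 2 + c ^ 2 = 0 := by
  have h20 : p.Coprime 20 := by
    have : (20 : ℕ) ∣ 30 ^ 2 := by norm_num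
    exact Nat.Coprime.coprime_dvd_right this (h30.pow_right 2)
  obtain ⟨a, ha1, ha2⟩ := Nat.chineseRemainder h20 (p - 1) 3
  have hp1 := hp.one_lt
  have hac : a.Coprime (p * 20) := by
    refine Nat.Coprime.mul_right ?_ ?_
    · rw [Nat.Coprime, ha1.gcd_eq]
      have : p = (p - 1) + 1 := by omega
      rw [this]; simp
    · rw [Nat.Coprime, ha2.gcd_eq]; norm_num
  obtain ⟨l, -, hl, hla⟩ := Nat.forall_exists_prime_gt_and_modEq 0 (by positivity) hac
  have hl1 : l ≡ p - 1 [MOD p] := (hla.of_mul_right 20).trans ha1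
  have hl2 : l % 20 = 3 := (hla.of_mul_left p).trans ha2
  obtain ⟨c, d, hcd⟩ := prime_two_sq hr hl hl2
  obtain ⟨u, v, huv⟩ := gauss_norm hl (by omega) z
  have hzl : z ^ l * z = 1 := by
    rw [pow_eq_pow_mod l hz, hl1, ← pow_eq_pow_mod _ hz, ← pow_succ, Nat.sub_add_cancel hp1.le, hz]
  have hodd : p % 2 = 1 := by
    rcases hp.eq_two_or_odd with rfl | h
    · norm_num at h30
    · exact h
  obtain ⟨w, hw⟩ : ∃ w : K, w ^ 2 = z := ⟨z ^ ((p + 1) / 2), by
    rw [← pow_mul, show (p + 1) / 2 * 2 = p + 1 by omega, pow_succ, hz, one_mul]⟩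
  have h1 : z * (u ^ 2 + l * v ^ 2) = -4 := by
    have h2 : (z - 1) * (z * (u ^ 2 + l * v ^ 2) + 4) = 0 := by
      linear_combination z * huv + 4 * hzl
    have := (mul_eq_zero.1 h2).resolve_left (sub_ne_zero.2 hz1)
    linear_combination this
  refine ⟨w * u / 2, w * c * v / 2, w * d * v / 2, ?_⟩
  rw [hcd, ← hw] at h1
  linear_combination (1 / 4 : K) * h1

end Cfsg.Agent.H66
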