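import Cfsg.Agent.H66.DivNT

/-! Copies of `SL(2,5)` in the multiplicative group of a division ring. -/

set_option autoImplicit false
set_option linter.style.haveILetI false

namespace Cfsg.Agent.H66

section Ring
variable {D : Type*} [DivisionRing D]

theorem sq_eq_cases {x y : D} (hc : x * y = y * x) (h : x * x = y * y) : x = y ∨ x = -y := by
  have h1 : (x - y) * (x + y) = 0 := by
    rw [sub_mul, mul_add, mul_add, hc, h]; abel
  rcases mul_eq_zero.1 h1 with h2 | h2
  · exact Or.inl (sub_eq_zero.1 h2)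
  · exact Or.inr (eq_neg_of_add_eq_zero_left h2)

theorem eq_zero_of_eq_neg' (h2 : (2 : D) ≠ 0) {x : D} (h : x = -x) : x = 0 := by
  have : (2 : D) * x = 0 := by rw [two_mul]; exact add_eq_zero_iff_eq_neg.2 h
  exact (mul_eq_zero.1 this).resolve_left h2

theorem quat_ne (h2 : (2 : D) ≠ 0) {i j a b c : D} (hi : i * i = -1) (hj : j * j = -1)
    (hij : i * j = -(j * i)) (ai : Commute a i) (aj : Commute a j) (bi : Commute b i)
    (bj : Commute b j) (ci : Commute c i) (cj : Commute c j) (ab : Commute a b)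
    (ac : Commute a c) (bc : Commute b c) : 1 + a ^ 2 + b ^ 2 + c ^ 2 ≠ 0 := by
  intro h
  have key : ∀ s t p q : D, Commute t p → (s * p) * (t * q) = (s * t) * (p * q) := by
    intro s t p q htp
    rw [mul_assoc, ← mul_assoc p, ← htp.eq, mul_assoc, mul_assoc]
  have hji : j * i = -(i * j) := by rw [hij, neg_neg]
  have hik : i * (i * j) = -j := by rw [← mul_assoc, hi, neg_one_mul]
  have hki : (i * j) * i = j := by rw [mul_assoc, hji, mul_neg, hik, neg_neg]
  have hkj : (i * j) * j = -i := by rw [mul_assoc, hj, mul_neg_one]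
  have hjk : j * (i * j) = i := by rw [← mul_assoc, hji, neg_mul, hkj, neg_neg]
  have hk : (i * j) * (i * j) = -1 := by rw [← mul_assoc, hki, hj]
  have ak : Commute a (i * j) := ai.mul_right aj
  have bk : Commute b (i * j) := bi.mul_right bj
  have ck : Commute c (i * j) := ci.mul_right cj
  set k := i * j with hkdef
  have hx : (a * i + b * j + c * k) * (a * i + b * j + c * k) = 1 * 1 := by
    simp only [add_mul, mul_add]
    rw [key a a i i ai, key a b i j bi, key a c i k ci, key b a j i aj, key b b j j bj,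
      key b c j k cj, key c a k i ak, key c b k j bk, key c c k k ck, hi, hj, hk, hji, hik, hki,
      hkj, hjk, ← ab.eq, ← ac.eq, ← bc.eq, ← hkdef]
    have h' : (1 : D) = -(a * a) - b * b - c * c := by
      rw [← sub_eq_zero, ← h]; noncomm_ring
    rw [one_mul]
    conv_rhs => rw [h']
    noncomm_ring
  have hc : Commute (a * i + b * j + c * k) i ∧ Commute (a * i + b * j + c * k) j ∧
      a * i + b * j + c * k ≠ 0 := by
    rcases sq_eq_cases (by rw [mul_one, one_mul]) hx with h1 | h1 <;> rw [h1]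
    · exact ⟨Commute.one_left _, Commute.one_left _, one_ne_zero⟩
    · exact ⟨Commute.neg_one_left _, Commute.neg_one_left _, neg_ne_zero.2 one_ne_zero⟩
  obtain ⟨h1, h3, h4⟩ := hc
  have hi0 : i ≠ 0 := by rintro rfl; simp at hi
  have hj0 : j ≠ 0 := by rintro rfl; simp at hj
  have iA : i * (a * i) = a * i * i := by rw [← mul_assoc, ai.eq]
  have iB : i * (b * j) = -(b * j * i) := by
    rw [← mul_assoc, ← bi.eq, mul_assoc, mul_assoc, hji, mul_neg, neg_neg]
  have iC : i * (c * k) = -(c * k * i) := by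
    rw [← mul_assoc, ← ci.eq, mul_assoc, mul_assoc, hik, hki, mul_neg]
  have jA : j * (a * i) = -(a * i * j) := by
    rw [← mul_assoc, ← aj.eq, mul_assoc, mul_assoc, hji, mul_neg]
  generalize a * i = A at *
  generalize b * j = B at *
  generalize c * k = C at *
  have e1 : (B + C) * i = -((B + C) * i) := by
    have := h1.eq
    simp only [add_mul, mul_add] at this ⊢
    rw [iA, iB, iC, add_assoc, add_assoc] at this
    rw [add_left_cancel this, neg_add]
    rw [neg_neg, neg_neg]
    have h7 := add_left_cancel this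
    rw [← h7]
  have e2 : B + C = 0 := (mul_eq_zero.1 (eq_zero_of_eq_neg' h2 e1)).resolve_right hi0
  rw [add_assoc, e2, add_zero] at h3 h4
  have e3 : A * j = -(A * j) := by rw [← jA]; exact h3.eq
  exact h4 ((mul_eq_zero.1 (eq_zero_of_eq_neg' h2 e3)).resolve_right hj0)

theorem charZero_of_quat (h2 : (2 : D) ≠ 0) {i j : D} (hi : i * i = -1) (hj : j * j = -1)
    (hij : i * j = -(j * i)) : CharZero D := by
  obtain ⟨p, hp⟩ := CharP.exists D
  rcases Nat.eq_zero_or_pos p with rfl | h0
  · exact CharP.charP_to_charZero D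
  · haveI : NeZero p := ⟨h0.ne'⟩
    obtain ⟨a, b, hab⟩ := CharP.sq_add_sq D p (-1)
    exfalso
    refine quat_ne h2 hi hj hij (a := a) (b := b) (c := 0) (Nat.cast_commute _ _)
      (Nat.cast_commute _ _) (Nat.cast_commute _ _) (Nat.cast_commute _ _) (Commute.zero_left _)
      (Commute.zero_left _) (Nat.cast_commute _ _) (Commute.zero_right _) (Commute.zero_right _) ?_
    rw [add_assoc 1, hab]; simp

theorem no_root (h2 : (2 : D) ≠ 0) {i j r z : D} (hi : i * i = -1) (hj : j * j = -1)
    (hij : i * j = -(j * i)) (hr : r ^ 2 = 5) {p : ℕ} (hp : p.Prime) (h30 : p.Coprime 30)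
    (hz : z ^ p = 1) (hz1 : z ≠ 1) (ri : Commute r i) (rj : Commute r j) (zi : Commute z i)
    (zj : Commute z j) (rz : Commute r z) : False := by
  haveI := charZero_of_quat h2 hi hj hij
  let X : Set D := {r, z}
  let C : Subring D := Subring.centralizer X
  let F : Subring D := Subring.centralizer (C : Set D)
  have hC : ∀ x, Commute r x → Commute z x → x ∈ C := by
    intro x h1 h3
    rw [Subring.mem_centralizer_iff]
    rintro y (rfl | rfl)
    · exact h1.eq
    · exact h3.eq
  have hrF : r ∈ F := by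
    rw [Subring.mem_centralizer_iff]
    intro y hy
    exact ((Subring.mem_centralizer_iff.1 hy) r (Or.inl rfl)).symm
  have hzF : z ∈ F := by
    rw [Subring.mem_centralizer_iff]
    intro y hy
    exact ((Subring.mem_centralizer_iff.1 hy) z (Or.inr rfl)).symm
  have hFC : ∀ x ∈ F, ∀ y ∈ C, Commute x y := fun x hx y hy =>
    ((Subring.mem_centralizer_iff.1 hx) y hy).symm
  have hle : ∀ x ∈ F, x ∈ C := fun x hx =>
    hC x (hFC x hx r (hC r rfl rz.symm)).symm (hFC x hx z (hC z rz rfl)).symm
  have hF : IsField F := by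
    refine ⟨⟨0, 1, zero_ne_one⟩, fun x y => Subtype.ext (hFC x x.2 y (hle y y.2)).eq, ?_⟩
    intro x hx
    have hx' : (x : D) ≠ 0 := fun h => hx (Subtype.ext h)
    refine ⟨⟨(x : D)⁻¹, ?_⟩, Subtype.ext (mul_inv_cancel₀ hx')⟩
    rw [Subring.mem_centralizer_iff]
    intro y hy
    exact ((hFC x x.2 y hy).inv_left₀).symm.eq
  letI := hF.toField
  haveI : CharZero F := SubsemiringClass.instCharZero F
  obtain ⟨a, b, c, h⟩ := neg_one_three_sq (K := F) (r := ⟨r, hrF⟩) (z := ⟨z, hzF⟩)
    (Subtype.ext hr) hp h30 (Subtype.ext hz) (fun h => hz1 (congrArg Subtype.val h))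
  have hiC := hC i ri zi
  have hjC := hC j rj zj
  exact quat_ne h2 hi hj hij (hFC a a.2 i hiC) (hFC a a.2 j hjC) (hFC b b.2 i hiC)
    (hFC b b.2 j hjC) (hFC c c.2 i hiC) (hFC c c.2 j hjC) (hFC a a.2 b (hle b b.2))
    (hFC a a.2 c (hle c c.2)) (hFC b b.2 c (hle c c.2)) (congrArg Subtype.val h)

/-- If `u² = -1`, `v² + v + 1 = 0` then `uv + (uv)⁻¹` commutes with `u` and `v`. -/
theorem trace_comm {u v w : D} (hu : u * u = -1) (hv : v * v = -1 - v) (hw : u * v * w = 1) :
    Commute (u * v + w) u ∧ Commute (u * v + w) v := by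
  have h1 : w = (1 + v) * u := by
    have h3 : u * v * ((1 + v) * u) = 1 := by
      calc u * v * ((1 + v) * u) = u * (v + v * v) * u := by noncomm_ring
        _ = -(u * u) := by rw [hv]; noncomm_ring
        _ = 1 := by rw [hu, neg_neg]
    have h0 : u * v ≠ 0 := left_ne_zero_of_mul_eq_one hw
    exact mul_left_cancel₀ h0 (hw.trans h3.symm)
  subst h1
  constructor
  · show (u * v + (1 + v) * u) * u = u * (u * v + (1 + v) * u)
    calc (u * v + (1 + v) * u) * u = u * v * u + (1 + v) * (u * u) := by noncomm_ring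
      _ = (u * u) * v + u * u + u * v * u := by rw [hu]; noncomm_ring
      _ = u * (u * v + (1 + v) * u) := by noncomm_ring
  · show (u * v + (1 + v) * u) * v = v * (u * v + (1 + v) * u)
    calc (u * v + (1 + v) * u) * v = u * (v * v) + u * v + v * u * v := by noncomm_ring
      _ = v * u * v + v * u + (v * v) * u := by rw [hv]; noncomm_ring
      _ = v * (u * v + (1 + v) * u) := by noncomm_ring

theorem geom_zero {x : D} {n : ℕ} (h : x ^ n = 1) (h1 : x ≠ 1) :
    ∑ k ∈ Finset.range n, x ^ k = 0 := by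
  have := mul_geom_sum x n
  rw [h, sub_self] at this
  exact (mul_eq_zero.1 this).resolve_left (sub_ne_zero.2 h1)

end Ring

end Cfsg.Agent.H66
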