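import Cfsg.Agent.L43.Defs
import Cfsg.Agent.H9.SLBasic

set_option autoImplicit false

/-! Block structure of the parabolic subgroup `P` of `SL₄(3)`. -/

namespace Cfsg.Agent.L43.Blk

open Subgroup Matrix

/-- the lower right block -/
def lo : P →* S3 := MonoidHom.mk' (fun m => ⟨m.1.1.submatrix Fin.succ Fin.succ, by
    obtain ⟨a0, a1, a2, a3⟩ := m.2
    have := m.1.2
    rw [det_succ_column_zero, Fin.sum_univ_four, a0, a1, a2, a3] at this
    simpa using this⟩) fun a b => Subtype.ext (Matrix.ext fun i j => by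
  obtain ⟨-, a1, a2, a3⟩ := a.2
  have : a.1.1 i.succ 0 = 0 := by fin_cases i <;> assumption
  change (a * b).1.1 i.succ j.succ = ∑ k : Fin 3, a.1.1 i.succ k.succ * b.1.1 k.succ j.succ
  rw [P_mul, mul_apply, Fin.sum_univ_succ, this, zero_mul, zero_add])

theorem lo_apply (m : P) (i j : Fin 3) : (lo m).1 i j = m.1.1 i.succ j.succ := rfl

/-- the first row without its first entry -/
def row (m : P) : Fin 3 → F := fun j => m.1.1 0 j.succ

theorem row_mul (a b : P) : row (a * b) = row a ᵥ* (lo b).1 + row b := funext fun j => by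
  change (a * b).1.1 0 j.succ = ∑ k : Fin 3, a.1.1 0 k.succ * b.1.1 k.succ j.succ + b.1.1 0 j.succ
  rw [P_mul, mul_apply, Fin.sum_univ_succ, a.2.1, one_mul, add_comm]

theorem ext {a b : P} (h1 : lo a = lo b) (h2 : row a = row b) : a = b := by
  refine P_ext (Matrix.ext fun i j => ?_)
  induction j using Fin.cases with
  | zero =>
    obtain ⟨a0, a1, a2, a3⟩ := a.2
    obtain ⟨b0, b1, b2, b3⟩ := b.2
    fin_cases i
    exacts [a0.trans b0.symm, a1.trans b1.symm, a2.trans b2.symm, a3.trans b3.symm]
  | succ j =>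
    induction i using Fin.cases with
    | zero => exact congrFun h2 j
    | succ i => rw [← lo_apply, h1, lo_apply]

/-- the element with given blocks -/
def mk (A : S3) (f : Fin 3 → F) : P :=
  pm !![1, f 0, f 1, f 2; 0, A.1 0 0, A.1 0 1, A.1 0 2; 0, A.1 1 0, A.1 1 1, A.1 1 2;
    0, A.1 2 0, A.1 2 1, A.1 2 2] ⟨by
      have := A.2
      rw [det_fin_three] at this
      simp only [det4]
      simp
      linear_combination this, rfl, rfl, rfl, rfl⟩

theorem lo_mk (A : S3) (f : Fin 3 → F) : lo (mk A f) = A :=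
  Subtype.ext (Matrix.ext fun i j => by fin_cases i <;> fin_cases j <;> rfl)

theorem row_mk (A : S3) (f : Fin 3 → F) : row (mk A f) = f := funext fun j => by fin_cases j <;> rfl

theorem card_S3 : Nat.card S3 = 5616 := by
  have := H9.card_sl_fin (F := F) 3 (by decide)
  rw [ZMod.card, Fin.prod_univ_three] at this
  change 2 * Nat.card S3 = 11232 at this
  omega

end Cfsg.Agent.L43.Blk
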