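import Cfsg.Agent.H66.OreSp0
import Cfsg.Agent.H65.OreOA

set_option autoImplicit false

/-! Project ORE: products of copies of `SL(2, F)` in a symplectic group. -/

namespace Cfsg.Agent.H65.Ore.Sp1

open Polynomial Matrix Module MatrixGroups Sp0

variable {F V G : Type*} [Field F] [AddCommGroup V] [Module F V] [Group G]
  {Γ : Geo F V G} {ι κ : Type*} [Fintype ι] [DecidableEq ι] [Fintype κ] [DecidableEq κ]

theorem σ_apply (hS : Γ.IsSp) (c : F) : Γ.σ c = c := by rw [hS.σ_eq]; rfl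

theorem B_smul (hS : Γ.IsSp) (c : F) (x y : V) : Γ.B x (c • y) = c * Γ.B x y := by
  rw [LinearMap.map_smulₛₗ, σ_apply hS]; rfl

theorem B_skew (hS : Γ.IsSp) (x y : V) : Γ.B y x = -Γ.B x y := by
  rw [Γ.symm, σ_apply hS, hS.ε_eq, neg_one_mul]

theorem det2 (s : SL(2, F)) : s 0 0 * s 1 1 - s 0 1 * s 1 0 = 1 :=
  (det_fin_two _).symm.trans s.2

/-- An element of `SL(2, F)` from its entries. -/
def mk2 (a b c d : F) (h : a * d - b * c = 1) : SL(2, F) :=
  ⟨!![a, b; c, d], (det_fin_two_of a b c d).trans h⟩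

theorem mk2_val (a b c d : F) (h : a * d - b * c = 1) : (mk2 a b c d h).1 = !![a, b; c, d] := rfl

/-- Rotation of each hyperbolic pair. -/
def rot (hS : Γ.IsSp) (Φ : Fr Γ ι) (s : ι → SL(2, F)) : Fr Γ ι where
  e i := s i 0 0 • Φ.e i + s i 1 0 • Φ.f i
  f i := s i 0 1 • Φ.e i + s i 1 1 • Φ.f i
  Qe _ := hS.Q_eq _
  Qf _ := hS.Q_eq _
  ee i j := by
    simp only [map_add, LinearMap.add_apply, map_smul, LinearMap.smul_apply, B_smul hS, Φ.ee, Φ.ff,
      Φ.ef, Φ.fe, hS.ε_eq, smul_eq_mul]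
    split_ifs with h
    · rw [h]; ring
    · ring
  ff i j := by
    simp only [map_add, LinearMap.add_apply, map_smul, LinearMap.smul_apply, B_smul hS, Φ.ee, Φ.ff,
      Φ.ef, Φ.fe, hS.ε_eq, smul_eq_mul]
    split_ifs with h
    · rw [h]; ring
    · ring
  ef i j := by
    simp only [map_add, LinearMap.add_apply, map_smul, LinearMap.smul_apply, B_smul hS, Φ.ee, Φ.ff,
      Φ.ef, Φ.fe, hS.ε_eq, smul_eq_mul]
    split_ifs with h
    · rw [h]; linear_combination det2 (s j)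
    · ring

theorem exists_blk (hS : Γ.IsSp) (Φ : Fr Γ ι) (s : ι → SL(2, F)) : ∃ z : G,
    (∀ i, Γ.ρ z (Φ.e i) = s i 0 0 • Φ.e i + s i 1 0 • Φ.f i) ∧
    (∀ i, Γ.ρ z (Φ.f i) = s i 0 1 • Φ.e i + s i 1 1 • Φ.f i) ∧ ∀ m ∈ Φ.M, Γ.ρ z m = m := by
  obtain ⟨z, h1, h2, h3⟩ := Φ.exists_iso (rot hS Φ s) 1 (fun m hm => (rot hS Φ s).mem_M.2 (by
    simp [rot, (Φ.mem_M.1 hm).1, (Φ.mem_M.1 hm).2])) (fun _ _ _ _ => rfl) fun _ _ => rfl
  refine ⟨z, fun i => ?_, fun i => ?_, h3⟩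
  · have := h1 (Pi.single i 1)
    rwa [Fr.E_single, Fr.E_single] at this
  · have := h2 (Pi.single i 1)
    rwa [Fr.E_single, Fr.E_single] at this

/-- The product of the groups `SL(2, F)` of the hyperbolic pairs. -/
noncomputable def blk (hS : Γ.IsSp) (Φ : Fr Γ ι) : (ι → SL(2, F)) →* G :=
  MonoidHom.mk' (fun s => (exists_blk hS Φ s).choose) fun s t => by
    obtain ⟨a1, a2, a3⟩ := (exists_blk hS Φ s).choose_spec
    obtain ⟨b1, b2, b3⟩ := (exists_blk hS Φ t).choose_spec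
    obtain ⟨c1, c2, c3⟩ := (exists_blk hS Φ (s * t)).choose_spec
    refine Φ.ext (fun i => ?_) (fun i => ?_) fun m hm => ?_
    · rw [Γ.ρ_mul, c1, b1, map_add, map_smul, map_smul, a1, a2]
      simp only [Pi.mul_apply, Matrix.SpecialLinearGroup.coe_mul, Matrix.mul_apply, Fin.sum_univ_two]
      module
    · rw [Γ.ρ_mul, c2, b2, map_add, map_smul, map_smul, a1, a2]
      simp only [Pi.mul_apply, Matrix.SpecialLinearGroup.coe_mul, Matrix.mul_apply, Fin.sum_univ_two]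
      module
    · rw [Γ.ρ_mul, c3 m hm, b3 m hm, a3 m hm]

variable (hS : Γ.IsSp) (Φ : Fr Γ ι)

theorem blk_e (s : ι → SL(2, F)) (i : ι) :
    Γ.ρ (blk hS Φ s) (Φ.e i) = s i 0 0 • Φ.e i + s i 1 0 • Φ.f i :=
  (exists_blk hS Φ s).choose_spec.1 i

theorem blk_f (s : ι → SL(2, F)) (i : ι) :
    Γ.ρ (blk hS Φ s) (Φ.f i) = s i 0 1 • Φ.e i + s i 1 1 • Φ.f i :=
  (exists_blk hS Φ s).choose_spec.2.1 i

omit [Fintype κ] in
theorem blk_mid {j : κ → ι} (hj : Function.Injective j) {s : ι → SL(2, F)}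
    (hs : ∀ i, s (j i) = 1) : blk hS Φ s ∈ (Φ.sub j hj).Mid :=
  ⟨fun i => (blk_e hS Φ s (j i)).trans (by simp [hs, Fr.sub]),
    fun i => (blk_f hS Φ s (j i)).trans (by simp [hs, Fr.sub])⟩

variable [FiniteDimensional F V] (hM : finrank F V = 2 * Fintype.card ι)
include hM

theorem eq_blk {g : G} {s : ι → SL(2, F)}
    (h1 : ∀ i, Γ.ρ g (Φ.e i) = s i 0 0 • Φ.e i + s i 1 0 • Φ.f i)
    (h2 : ∀ i, Γ.ρ g (Φ.f i) = s i 0 1 • Φ.e i + s i 1 1 • Φ.f i) : g = blk hS Φ s :=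
  Φ.ext (fun i => by rw [h1, blk_e]) (fun i => by rw [h2, blk_f])
    fun m hm => by rw [M_zero Φ hM hm, map_zero, map_zero]

omit [Fintype κ] in
theorem aeval_blk {j : κ → ι} (hj : Function.Injective j) {s : ι → SL(2, F)} {p : F[X]}
    (hs : ∀ i, (∃ k, j k = i) ∨ aeval (s i).1 p = 0) :
    ∀ m ∈ (Φ.sub j hj).M, aeval (Γ.ρ (blk hS Φ s)) p m = 0 := fun m hm => by
  rw [Φ.decomp m, M_zero Φ hM (Φ.π₀_mem m), add_zero, Fr.E_apply, Fr.E_apply,
    ← Finset.sum_add_distrib, map_sum]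
  refine Finset.sum_eq_zero fun i _ => ?_
  rcases hs i with ⟨k, rfl⟩ | h
  · rw [show Φ.π m (j k) = 0 from congrFun hm.1 k, show Φ.swap.π m (j k) = 0 from congrFun hm.2 k,
      zero_smul, zero_smul, add_zero, map_zero]
  have := aeval_semiconj (Fintype.linearCombination F ![Φ.e i, Φ.f i]) (A := (s i).1.mulVecLin)
    (D := Γ.ρ (blk hS Φ s)) (fun u => by
      simp only [Fintype.linearCombination_apply, Fin.sum_univ_two, mulVecLin_apply, mulVec,
        dotProduct, cons_val_zero, cons_val_one, map_add, map_smul, blk_e, blk_f]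
      module) p ![Φ.π m i, Φ.swap.π m i]
  rw [aeval_mulVecLin, h, zero_mulVec, map_zero] at this
  rw [this, Fintype.linearCombination_apply, Fin.sum_univ_two]
  rfl

omit hM

theorem span2 (Φ : Fr Γ (Option κ)) (hM : finrank F V = 2 * Fintype.card (Option κ)) {v : V}
    (hv : v ∈ Φ.tl.M) : ∃ a b : F, v = a • Φ.e none + b • Φ.f none := by
  refine ⟨Φ.π v none, Φ.swap.π v none, ?_⟩
  conv_lhs => rw [Φ.decomp v, M_zero Φ hM (Φ.π₀_mem v), add_zero, Φ.E_opt, Φ.E'_opt,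
    show (fun j => Φ.π v (some j)) = 0 from hv.1, show (fun j => Φ.swap.π v (some j)) = 0 from hv.2,
    map_zero, map_zero, add_zero, add_zero]

include hS in
theorem exists_sl2 (Φ : Fr Γ (Option κ)) (hM : finrank F V = 2 * Fintype.card (Option κ)) {g : G}
    (h1 : Γ.ρ g (Φ.e none) ∈ Φ.tl.M) (h2 : Γ.ρ g (Φ.f none) ∈ Φ.tl.M) : ∃ s : SL(2, F),
      Γ.ρ g (Φ.e none) = s 0 0 • Φ.e none + s 1 0 • Φ.f none ∧
      Γ.ρ g (Φ.f none) = s 0 1 • Φ.e none + s 1 1 • Φ.f none := by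
  obtain ⟨a, c, h1⟩ := span2 Φ hM h1
  obtain ⟨b, d, h2⟩ := span2 Φ hM h2
  refine ⟨mk2 a b c d ?_, h1, h2⟩
  have := Γ.ρB g (Φ.e none) (Φ.f none)
  simp only [h1, h2, map_add, LinearMap.add_apply, map_smul, LinearMap.smul_apply, B_smul hS, Φ.ee,
    Φ.ff, Φ.ef, Φ.fe, hS.ε_eq, smul_eq_mul, if_true] at this
  linear_combination this

omit [Fintype ι] [FiniteDimensional F V] in
theorem coef {i : ι} {a b c d : F} (h : a • Φ.e i + b • Φ.f i = c • Φ.e i + d • Φ.f i) :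
    a = c ∧ b = d := by
  have h1 := congrArg (Γ.B · (Φ.f i)) h
  have h2 := congrArg (Γ.B · (Φ.e i)) h
  simpa [Φ.ee, Φ.ff, Φ.ef, Φ.fe, Γ.ε_ne] using And.intro h1 h2

theorem aeval_sl2 (a : SL(2, F)) : aeval a.1 (X ^ 2 - C a.1.trace * X + 1 : F[X]) = 0 := by
  have := aeval_self_charpoly a.1
  rwa [charpoly_fin_two, a.2, C_1] at this

theorem char23 (hF : ∀ c : F, c ≠ 0 → c = 1 ∨ c = -1) : (2 : F) = 0 ∨ (3 : F) = 0 :=
  or_iff_not_imp_left.2 fun h => (hF 2 h).elim (fun e => absurd (by linear_combination e) one_ne_zero)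
    fun e => by linear_combination e

theorem sl2_neg (h3 : (3 : F) = 0) : ∃ a k : SL(2, F), -1 * (k * a * k⁻¹) = a ∧ a.1.trace = 0 := by
  refine ⟨mk2 0 (-1) 1 0 (by simp), mk2 1 1 1 (-1) (by linear_combination -h3), ?_, by simp [mk2_val]⟩
  rw [← mul_assoc, mul_inv_eq_iff_eq_mul]
  ext i j
  fin_cases i <;> fin_cases j <;> simp [mk2_val, Matrix.mul_apply, Fin.sum_univ_two]

theorem sl2 (hF : ∀ c : F, c ≠ 0 → c = 1 ∨ c = -1) [Finite F] {s : SL(2, F)}
    (h : s = 1 ∨ s = -1 ∨ s.1.trace = 3) : ∃ a k : SL(2, F), s * (k * a * k⁻¹) = a := by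
  rcases h with rfl | rfl | h
  · exact ⟨1, 1, by simp⟩
  · rcases char23 hF with h | h
    · refine ⟨1, 1, Subtype.ext ?_⟩
      ext i j
      fin_cases i <;> fin_cases j <;> simp [show (-1 : F) = 1 by linear_combination -h]
    · exact (sl2_neg h).imp fun _ => Exists.imp fun _ => And.left
  have := Fintype.ofFinite F
  have ns : ∀ A : Matrix (Fin 2) (Fin 2) F, A.det = 1 → A.trace = 3 → ∀ c : F, A ≠ c • 1 := by
    rintro _ h1 h2 c rfl
    simp only [det_smul, trace_smul, det_one, trace_one, Fintype.card_fin, smul_eq_mul] at h1 h2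
    rcases char23 hF with h | h
    · exact one_ne_zero (by linear_combination (c - 1) * h - h2 : (1 : F) = 0)
    · exact one_ne_zero (by linear_combination 2 * h + (2 * c + 3) * h2 - 4 * h1 : (1 : F) = 0)
  let s0 : SL(2, F) := mk2 2 1 1 1 (by ring)
  have t0 : s0.1.trace = 3 := by simp [s0, mk2_val]; ring
  obtain ⟨P, hP⟩ := isConj_iff.1 (OA.conj2 (A := .mkOfDetNeZero s0.1 (s0.2.trans_ne one_ne_zero))
    (B := .mkOfDetNeZero s.1 (s.2.trans_ne one_ne_zero)) (ns s0.1 s0.2 t0) (ns s.1 s.2 h)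
    (s0.2.trans s.2.symm) (t0.trans h.symm))
  let φ : SL(2, F) →* SL(2, F) := MonoidHom.mk' (fun x => ⟨P.1 * x.1 * P⁻¹.1, by
    rw [det_units_conj, x.2]⟩) fun x y => Subtype.ext (by
      change P.1 * (x.1 * y.1) * P⁻¹.1 = P.1 * x.1 * P⁻¹.1 * (P.1 * y.1 * P⁻¹.1)
      simp only [mul_assoc, Units.inv_mul_cancel_left])
  refine ⟨φ (mk2 1 1 0 1 (by simp)), φ (mk2 0 (-1) 1 0 (by simp)), ?_⟩
  rw [show s = φ s0 from Subtype.ext (congrArg Units.val hP).symm, ← map_inv, ← map_mul, ← map_mul,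
    ← map_mul, ← mul_assoc, mul_inv_eq_iff_eq_mul.2]
  ext i j
  fin_cases i <;> fin_cases j <;> simp [s0, mk2_val, Matrix.mul_apply, Fin.sum_univ_two]
  ring

theorem card23 [Fintype F] (hF : ∀ c : F, c ≠ 0 → c = 1 ∨ c = -1) :
    ((2 : F) = 0 ∧ Fintype.card F = 2) ∨ ((3 : F) = 0 ∧ Fintype.card F = 3) := by
  classical
  by_cases h : (2 : F) = 0
  · refine .inl ⟨h, Finset.card_eq_two.2 ⟨0, 1, zero_ne_one, Finset.ext fun c => ?_⟩⟩
    have := hF c
    rw [show (-1 : F) = 1 by linear_combination -h] at this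
    simp only [Finset.mem_univ, Finset.mem_insert, Finset.mem_singleton]
    tauto
  refine .inr ⟨(char23 hF).resolve_left h, Finset.card_eq_three.2 ⟨0, 1, -1, zero_ne_one,
    (neg_ne_zero.2 one_ne_zero).symm, fun e => h (by linear_combination e), Finset.ext fun c => ?_⟩⟩
  have := hF c
  simp only [Finset.mem_univ, Finset.mem_insert, Finset.mem_singleton]
  tauto

theorem tr3 (hF : ∀ c : F, c ≠ 0 → c = 1 ∨ c = -1) {t : F} (h : t ≠ 3) :
    ∃ c : F, c ^ 2 - c * t + 1 = 0 := by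
  rcases eq_or_ne t 0 with rfl | h0
  · exact ⟨1, by linear_combination (char23 hF).resolve_right h.symm⟩
  rcases hF t h0 with rfl | rfl
  · exact ⟨-1, by linear_combination (char23 hF).resolve_left fun e => h (by linear_combination -e)⟩
  · exact ⟨1, by
      linear_combination (char23 hF).resolve_left fun e => h (by linear_combination -2 * e)⟩

theorem good_sl2 (hF : ∀ c : F, c ≠ 0 → c = 1 ∨ c = -1) {r : F[X]}
    (h : IsCoprime r (dag (RingHom.id F) r)) (t : F) :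
    Good (RingHom.id F) r (X ^ 2 - C t * X + 1) :=
  good_rec h fun x hx => by
    rcases hF x (fun e => by simp [e] at hx) with rfl | rfl <;> simp

end Cfsg.Agent.H65.Ore.Sp1
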