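import Cfsg.Agent.H66.OrthRad

/-!
Annihilators containing a non-singular vector: they lie in a line or are everything.
-/

set_option autoImplicit false
set_option linter.unusedSectionVars false

namespace Cfsg.Agent.H66

open Module QuadraticMap Cfsg.Agent.H11 Classical

theorem eq_of_card_two {F : Type*} [Field F] [Finite F] (h : Nat.card F = 2) (a : F) :
    a = 0 ∨ a = 1 := by
  have := Fintype.ofFinite F
  have h1 := FiniteField.pow_card a
  rw [← Nat.card_eq_fintype_card, h] at h1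
  have : a * (a - 1) = 0 := by linear_combination h1
  rcases mul_eq_zero.1 this with h | h
  · exact Or.inl h
  · exact Or.inr (sub_eq_zero.1 h)

theorem eq_of_card_three {F : Type*} [Field F] [Finite F] (h : Nat.card F = 3) (a : F) :
    a = 0 ∨ a = 1 ∨ a = -1 := by
  have := Fintype.ofFinite F
  have h1 := FiniteField.pow_card a
  rw [← Nat.card_eq_fintype_card, h] at h1
  have : a * ((a - 1) * (a + 1)) = 0 := by linear_combination h1
  rcases mul_eq_zero.1 this with h | h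
  · exact Or.inl h
  · rcases mul_eq_zero.1 h with h | h
    · exact Or.inr (Or.inl (sub_eq_zero.1 h))
    · exact Or.inr (Or.inr (eq_neg_of_add_eq_zero_left h))

theorem cast_card_zero (F : Type*) [Field F] [Finite F] : ((Nat.card F : ℕ) : F) = 0 := by
  have := Fintype.ofFinite F
  rw [Nat.card_eq_fintype_card]
  exact FiniteField.cast_card_eq_zero F

theorem ringChar_eq_of_card_prime {F : Type*} [Field F] [Finite F] {p : ℕ} (hp : p.Prime)
    (h : Nat.card F = p) : ringChar F = p := by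
  have h1 := cast_card_zero F
  rw [h] at h1
  exact (Nat.prime_dvd_prime_iff_eq (CharP.char_is_prime F _) hp).1 (ringChar.dvd h1)

variable {F V : Type*} [Field F] [AddCommGroup V] [Module F V] {Q : QuadraticForm F V}
variable {V₁ : Type*} [AddCommGroup V₁] [Module F V₁] {Q₁ : QuadraticForm F V₁}
variable [Finite F] (S : HypSplit Q Q₁) (h₁ : ND Q₁)
variable {Ω : Type*} [MulAction (EG Q) Ω] [Finite V₁] [Finite Ω] [FiniteDimensional F V₁]

theorem le_cc_of_Q_eq (h4 : 4 ≤ finrank F V₁) {x y : V₁} (hx : x ≠ 0) {k : ℕ}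
    (hk : k ≤ cc S h₁ Ω x) (h : Q₁ y = Q₁ x) : k ≤ cc S h₁ Ω y := by
  by_cases hy : y = 0
  · rw [hy]; exact hk.trans (cc_le_cc_zero S h₁ x)
  · rwa [cc_eq_of_Q_eq S h₁ h4 hy hx h]

theorem mul_sum_le_sum_A (T : Finset ((orthRad S h₁).Orb Ω)) (s : Finset F) (k : ℕ)
    (h : ∀ y, Q₁ y ∈ s → k ≤ ((orthRad S h₁).C T y).card) :
    k * ∑ t ∈ s, cnt Q₁ t ≤ ∑ O ∈ T, Nat.card ((orthRad S h₁).A O) := by
  have := Fintype.ofFinite F
  have := sum_le_sum_A S h₁ T (fun t => if t ∈ s then k else 0) fun y => by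
    split_ifs with hy
    · exact h y hy
    · exact Nat.zero_le _
  simp only [mul_ite, mul_zero, Finset.sum_ite_mem, Finset.univ_inter] at this
  rwa [← Finset.sum_mul, mul_comm] at this

theorem mul_sum_le_card (s : Finset F) (k : ℕ) (h : ∀ y, Q₁ y ∈ s → k ≤ cc S h₁ Ω y) :
    k * ∑ t ∈ s, cnt Q₁ t ≤ Nat.card Ω := by
  rw [card_eq_sum_A' S h₁]
  exact mul_sum_le_sum_A S h₁ _ s k h

theorem card_add_le_sum_A (T : Finset ((orthRad S h₁).Orb Ω)) (t : F) (k : ℕ)
    (h : ∀ y, y ≠ 0 → Q₁ y = t → k ≤ ((orthRad S h₁).C T y).card) :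
    T.card + k * cnt Q₁ t ≤ ∑ O ∈ T, Nat.card ((orthRad S h₁).A O) + if t = 0 then k else 0 := by
  have := Fintype.ofFinite F
  have := Fintype.ofFinite V₁
  have h1 := sum_cnt (Q₁ := Q₁) fun s => if s = t then k else 0
  simp only [mul_ite, mul_zero, Finset.sum_ite_eq', Finset.mem_univ, if_true] at h1
  rw [AbRad.sum_A_eq, mul_comm k, ← h1, ← Finset.add_sum_erase _ _ (Finset.mem_univ (0 : V₁)),
    ← Finset.add_sum_erase _ _ (Finset.mem_univ (0 : V₁)), AbRad.C_zero, map_zero]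
  have h2 : ∑ y ∈ Finset.univ.erase (0 : V₁), (if Q₁ y = t then k else 0) ≤
      ∑ y ∈ Finset.univ.erase (0 : V₁), ((orthRad S h₁).C T y).card :=
    Finset.sum_le_sum fun y hy => by
      split_ifs with h'
      · exact h y (Finset.ne_of_mem_erase hy) h'
      · exact Nat.zero_le _
  simp only [eq_comm (a := (0 : F))]
  omega

theorem sum_cnt_eq_card [Fintype F] : ∑ t : F, cnt Q₁ t = Nat.card V₁ := by
  have := Fintype.ofFinite V₁
  have h1 := sum_cnt (Q₁ := Q₁) fun _ => 1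
  simp only [mul_one, Finset.sum_const, smul_eq_mul, Finset.card_univ] at h1
  rw [← h1, Nat.card_eq_fintype_card]

theorem sum_A_le_card (T : Finset ((orthRad S h₁).Orb Ω)) :
    ∑ O ∈ T, Nat.card ((orthRad S h₁).A O) ≤ Nat.card Ω := by
  rw [card_eq_sum_A' S h₁]
  exact Finset.sum_le_sum_of_subset (Finset.subset_univ _)

omit [Finite V₁] [FiniteDimensional F V₁] in
theorem aniso_two (h2 : Nat.card F = 2) {A : AddSubgroup V₁} (hA : ∀ x ∈ A, Q₁ x = 0 → x = 0)
    {y d : V₁} (hy : y ∈ A) (hy0 : y ≠ 0) (hd : d ∈ A) (h : polar Q₁ y d = 0) : d = 0 ∨ d = y := by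
  have h20 : (2 : F) = 0 := by
    have := cast_card_zero F
    rw [h2] at this
    exact_mod_cast this
  by_contra hc
  push Not at hc
  have q1 : ∀ x ∈ A, x ≠ 0 → Q₁ x = 1 := fun x hx hx0 =>
    (eq_of_card_two h2 _).resolve_left fun h => hx0 (hA x hx h)
  refine hc.2 (sub_eq_zero.1 (hA _ (A.sub_mem hd hy) ?_))
  rw [Q_sub, q1 d hd hc.1, q1 y hy hy0, polar_comm, h]
  linear_combination h20

/-- Over the field with two elements an anisotropic annihilator has many conjugates. -/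
theorem aniso_bound (h2 : Nat.card F = 2) (h6 : 6 ≤ finrank F V₁) {O : (orthRad S h₁).Orb Ω}
    (hO : ∀ x ∈ (orthRad S h₁).A O, Q₁ x = 0 → x = 0) {y z : V₁} (hy : y ∈ (orthRad S h₁).A O)
    (hy0 : y ≠ 0) (hz : z ∈ (orthRad S h₁).A O) (hzy : z ∉ Submodule.span F {y}) :
    16 * cnt Q₁ 1 ≤ 3 * Nat.card Ω := by
  let R := orthRad S h₁
  let T : Finset (R.Orb Ω) := Finset.univ.filter fun O => ∀ x ∈ R.A O, Q₁ x = 0 → x = 0
  have memT : ∀ O, O ∈ T ↔ ∀ x ∈ R.A O, Q₁ x = 0 → x = 0 := fun O => by simp [T]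
  have hT : ∀ (g : OG Q₁) (σ : Equiv.Perm (R.Orb Ω)), (∀ O z, ap g z ∈ R.A (σ O) ↔ z ∈ R.A O) →
      ∀ O ∈ T, σ O ∈ T := by
    intro g σ hσ O hO
    rw [memT] at hO ⊢
    intro x hx hQ
    have := hO (ap g⁻¹ x) ((hσ O _).1 (by rwa [ap_ap_inv])) (by rwa [Q_ap])
    exact ap_eq_zero.1 this
  have h4 : ∀ O ∈ T, Nat.card (R.A O) ≤ 4 := by
    intro O hO
    rw [memT] at hO
    by_cases h0 : ∀ x ∈ R.A O, x = 0
    · have : Subsingleton (R.A O) := ⟨fun a b => Subtype.ext (by rw [h0 a a.2, h0 b b.2])⟩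
      exact (Finite.card_le_one_iff_subsingleton.2 this).trans (by norm_num)
    push Not at h0
    obtain ⟨y, hy, hy0⟩ := h0
    obtain ⟨l, hl⟩ := h₁.exists_eq hy0 1
    have := Nat.card_le_card_of_injective (fun x : R.A O => (polar Q₁ y x, polar Q₁ x l))
      fun a b h => by
        simp only [Prod.mk.injEq] at h
        rcases aniso_two h2 hO hy hy0 ((R.A O).sub_mem a.2 b.2) (by qsimp; rw [h.1, sub_self])
          with h' | h'
        · exact Subtype.ext (sub_eq_zero.1 h')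
        · rw [← h'] at hl
          qsimp at hl
          rw [h.2, sub_self] at hl
          exact (zero_ne_one hl).elim
    rwa [Nat.card_prod, h2] at this
  have key : ∀ O ∈ T, ∀ y z, y ∈ R.A O → y ≠ 0 → z ∈ R.A O → z ∉ Submodule.span F {y} →
      4 ≤ (R.C T y).card := by
    intro O hO y z hy hy0 hz hzy
    have hQy : Q₁ y ≠ 0 := fun h => hy0 ((memT O).1 hO y hy h)
    obtain ⟨e, he, ye, ze⟩ := exists_sing_sep h₁ (by omega) hzy
    have ze1 : polar Q₁ z e = 1 := (eq_of_card_two h2 _).resolve_left ze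
    have hey : e ∉ Submodule.span F {y} := by
      intro h
      obtain ⟨c, rfl⟩ := Submodule.mem_span_singleton.1 h
      have hc : c = 0 := by simpa [Q_smul, hQy] using he
      simp [hc] at ze
    obtain ⟨f, ef, yf⟩ := exists_polar_one h₁ hey 1
    replace yf := yf y rfl
    obtain ⟨l, hl⟩ := h₁.exists_eq hy0 1
    let X := H28.perp Q₁ (Submodule.span F (({e, f, y} : Finset V₁) : Set V₁))
    have hX : ∀ t : X, polar Q₁ e t = 0 ∧ polar Q₁ f t = 0 ∧ polar Q₁ y t = 0 := fun t =>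
      ⟨mem_perp_span.1 t.2 e (by simp), mem_perp_span.1 t.2 f (by simp),
        mem_perp_span.1 t.2 y (by simp)⟩
    have hc : 8 ≤ Nat.card X := by
      rw [Module.natCard_eq_pow_finrank (K := F), h2]
      have h1 : finrank F V₁ ≤ finrank F X + _ := finrank_perp_ge h₁ {e, f, y}
      have h3 := Finset.card_le_three (a := e) (b := f) (c := y)
      exact Nat.pow_le_pow_right (n := 2) (i := 3) (by norm_num) (by omega)
    have := card_mul_le_of_rel (X := X) (Ω := R.C T y)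
      (fun t O' => ap (eich he (hX t).1) z ∈ R.A O'.1) (a := 1) (b := 2) (fun t => by
        obtain ⟨σ, -, hσ⟩ := (orthRad_compat_ext S h₁ (eich_mem_EG he (hX t).1)).exists_perm
          (Ω := Ω)
        have h1 := (hσ O y).2 hy
        rw [ap_eich_of_perp he _ ye (hX t).2.2] at h1
        have : Nonempty {O' : R.C T y // ap (eich he (hX t).1) z ∈ R.A O'.1} :=
          ⟨⟨⟨σ O, R.mem_C.2 ⟨hT _ σ hσ O hO, h1⟩⟩, (hσ O z).2 hz⟩⟩
        exact Nat.card_pos) (fun O' => by
        rw [← h2]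
        refine Nat.card_le_card_of_injective (fun t => polar Q₁ t.1 l) fun a b h => ?_
        obtain ⟨m1, m2⟩ := R.mem_C.1 O'.2
        have hd := (R.A O'.1).sub_mem a.2 b.2
        obtain ⟨c, hc⟩ : ∃ c : F, ap (eich he (hX a.1).1) z - ap (eich he (hX b.1).1) z =
            a.1.1 - b.1.1 - c • e := by
          refine ⟨polar Q₁ z a.1.1 + Q₁ a.1.1 - polar Q₁ z b.1.1 - Q₁ b.1.1, ?_⟩
          rw [ap_eich, ap_eich, ze1]
          module
        rw [hc] at hd
        have hfe : polar Q₁ f e = 1 := by rw [polar_comm, ef]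
        rcases aniso_two h2 ((memT _).1 m1) m2 hy0 hd
          (by qsimp; rw [(hX a.1).2.2, (hX b.1).2.2, ye]; ring) with h' | h'
        · have h3 := congrArg (polar Q₁ f) h'
          qsimp at h3
          rw [(hX a.1).2.1, (hX b.1).2.1, hfe] at h3
          have h4 : c = 0 := by linear_combination -h3
          rw [h4, zero_smul, sub_zero, sub_eq_zero] at h'
          exact Subtype.ext (Subtype.ext h')
        · have h3 := congrArg (polar Q₁ f) h'
          qsimp at h3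
          rw [(hX a.1).2.1, (hX b.1).2.1, hfe, polar_comm, yf] at h3
          have h4 : c = 0 := by linear_combination -h3
          rw [h4, zero_smul, sub_zero] at h'
          rw [← h'] at hl
          qsimp at hl
          simp only at h
          rw [h, sub_self] at hl
          exact (zero_ne_one hl).elim)
    rw [Nat.card_eq_fintype_card (α := R.C T y), Fintype.card_coe] at this
    omega
  have hQy : Q₁ y = 1 := (eq_of_card_two h2 _).resolve_left fun h => hy0 (hO y hy h)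
  have h5 := card_add_le_sum_A S h₁ T 1 4 fun y' hy' hQ => by
    obtain ⟨g, σ, rfl, hσ⟩ := exists_perm_of_Q_eq S h₁ (Ω := Ω) (by omega) hy0 hy'
      (hQy.trans hQ.symm)
    refine key (σ O) (hT g σ hσ O ((memT O).2 hO)) _ (ap g z) ((hσ O y).2 hy) hy'
      ((hσ O z).2 hz) fun h => hzy ?_
    obtain ⟨c, hc⟩ := Submodule.mem_span_singleton.1 h
    exact Submodule.mem_span_singleton.2 ⟨c, ap_injective g (by rw [ap_smul, hc])⟩
  have h6 : ∑ O ∈ T, Nat.card ((orthRad S h₁).A O) ≤ _ := Finset.sum_le_card_nsmul T _ 4 h4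
  have h7 := sum_A_le_card S h₁ T
  rw [if_neg one_ne_zero, add_zero] at h5
  rw [smul_eq_mul] at h6
  have h8 : T.card + 4 * cnt Q₁ 1 ≤ T.card * 4 := h5.trans h6
  have h9 : T.card + 4 * cnt Q₁ 1 ≤ Nat.card Ω := h5.trans h7
  omega

/-- The number of non-zero squares. -/
noncomputable def nsq (F : Type*) [Field F] : ℕ := Nat.card {t : F // t ≠ 0 ∧ IsSquare t}

/-- The numerical conditions used for annihilators containing a non-singular vector. -/
def NsHyp (Q₁ : QuadraticForm F V₁) (a₁ M : ℕ) : Prop :=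
  M ≤ ringChar F * (nsq F * a₁) ∨
  (Nat.card F = 3 ∧ M ≤ 3 * (cnt Q₁ 0 + a₁) ∧ M ≤ 6 * a₁) ∨
  (Nat.card F = 2 ∧ 6 ≤ finrank F V₁ ∧ M ≤ 2 * Nat.card V₁ ∧ 3 * M ≤ 16 * a₁)

theorem A_eq_top_of_nonsing (h5 : 5 ≤ finrank F V₁) {a₁ M : ℕ}
    (ha : ∀ t, t ≠ 0 → a₁ ≤ cnt Q₁ t) (hN : NsHyp Q₁ a₁ M) (hM : Nat.card Ω < M)
    {O : (orthRad S h₁).Orb Ω} (hO : ∀ y, ∃ z ∈ (orthRad S h₁).A O, z ∉ Submodule.span F {y})
    {y : V₁} (hy : y ∈ (orthRad S h₁).A O) (hQ : Q₁ y ≠ 0) (x : V₁) : x ∈ (orthRad S h₁).A O := by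
  by_contra hx
  have := Fintype.ofFinite F
  have hp : ∀ y ∈ (orthRad S h₁).A O, y ≠ 0 → ringChar F ≤ cc S h₁ Ω y := by
    intro y hy hy0
    by_contra hc
    obtain ⟨z, hz, hzy⟩ := hO y
    exact hx (A_eq_top S h₁ h5 hy0 (not_le.1 hc) hy hz hzy x)
  have hy0 : y ≠ 0 := by rintro rfl; exact hQ (map_zero _)
  have pair : ∀ k y z, y ≠ 0 → z ≠ 0 → k ≤ cc S h₁ Ω y → k ≤ cc S h₁ Ω z → Q₁ y ≠ Q₁ z →
      k * (cnt Q₁ (Q₁ y) + cnt Q₁ (Q₁ z)) ≤ Nat.card Ω := by
    intro k y z hy hz ky kz hne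
    have := mul_sum_le_card S h₁ (Ω := Ω) {Q₁ y, Q₁ z} k fun t ht => by
      rcases Finset.mem_insert.1 ht with h | h
      · exact le_cc_of_Q_eq S h₁ (by omega) hy ky h
      · exact le_cc_of_Q_eq S h₁ (by omega) hz kz (Finset.mem_singleton.1 h)
    rwa [Finset.sum_pair hne] at this
  obtain ⟨z, hz, hzy⟩ := hO y
  have hz0 : z ≠ 0 := by rintro rfl; exact hzy (Submodule.zero_mem _)
  rcases hN with hN | ⟨h3, hN1, hN2⟩ | ⟨h2, h6, hN1, hN2⟩
  · let s : Finset F := (Finset.univ.filter fun t => t ≠ 0 ∧ IsSquare t).image (· * Q₁ y)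
    have hs : s.card = nsq F := by
      rw [Finset.card_image_of_injective _ (mul_left_injective₀ hQ), nsq, Nat.card_eq_fintype_card,
        Fintype.card_subtype]
    have hs' : ∀ t ∈ s, ∃ c, c ≠ 0 ∧ t = c * c * Q₁ y := by
      intro t ht
      obtain ⟨r, hr, rfl⟩ := Finset.mem_image.1 ht
      obtain ⟨-, h0, c, rfl⟩ := Finset.mem_filter.1 hr
      exact ⟨c, fun h => h0 (by rw [h, mul_zero]), rfl⟩
    have h1 := mul_sum_le_card S h₁ (Ω := Ω) s (ringChar F) fun y' hy' => by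
      obtain ⟨c, hc, e⟩ := hs' _ hy'
      rw [← cc_eq_of_Q_eq_sq S h₁ (by omega) hQ hc e]
      exact hp y hy hy0
    have h2 : _ ≤ ∑ t ∈ s, cnt Q₁ t := Finset.card_nsmul_le_sum s (cnt Q₁) a₁ fun t ht => by
      obtain ⟨c, hc, rfl⟩ := hs' t ht
      exact ha _ (mul_ne_zero (mul_ne_zero hc hc) hQ)
    rw [hs, smul_eq_mul] at h2
    have := Nat.mul_le_mul_left (ringChar F) h2
    omega
  · rw [ringChar_eq_of_card_prime Nat.prime_three h3] at hp
    have h30 : (3 : F) = 0 := by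
      have := cast_card_zero F
      rw [h3] at this
      exact_mod_cast this
    have fin : ∀ z ∈ (orthRad S h₁).A O, z ≠ 0 → Q₁ z = Q₁ y := by
      intro z hz hz0
      by_contra hne
      have h1 := pair 3 z y hz0 hy0 (hp z hz hz0) (hp y hy hy0) hne
      have h2 := ha _ hQ
      by_cases h0 : Q₁ z = 0
      · rw [h0] at h1; omega
      · have := ha _ h0
        omega
    have e1 := fin z hz hz0
    have e2 := fin (z + y) (AddSubgroup.add_mem _ hz hy) fun h => hzy
      (Submodule.mem_span_singleton.2 ⟨-1, by rw [neg_one_smul, neg_eq_iff_add_eq_zero, add_comm, h]⟩)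
    have e3 := fin (z - y) (AddSubgroup.sub_mem _ hz hy) fun h => hzy
      (Submodule.mem_span_singleton.2 ⟨1, by rw [one_smul, sub_eq_zero.1 h]⟩)
    rw [Q_add, e1] at e2
    rw [Q_sub, e1] at e3
    exact hQ (by linear_combination -e2 - e3 + Q₁ y * h30)
  · rw [ringChar_eq_of_card_prime Nat.prime_two h2] at hp
    by_cases hs : ∀ x ∈ (orthRad S h₁).A O, Q₁ x = 0 → x = 0
    · have h1 := aniso_bound S h₁ h2 h6 hs hy hy0 hz hzy
      have := ha 1 one_ne_zero
      omega
    push Not at hs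
    obtain ⟨t, ht, hQt, ht0⟩ := hs
    have h1 := mul_sum_le_card S h₁ (Ω := Ω) Finset.univ 2 fun y' _ => by
      rcases eq_of_card_two h2 (Q₁ y') with h | h
      · exact le_cc_of_Q_eq S h₁ (by omega) ht0 (hp t ht ht0) (h.trans hQt.symm)
      · exact le_cc_of_Q_eq S h₁ (by omega) hy0 (hp y hy hy0)
          (h.trans ((eq_of_card_two h2 _).resolve_left hQ).symm)
    rw [sum_cnt_eq_card] at h1
    omega

end Cfsg.Agent.H66
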