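import Cfsg.Agent.H66.OrthMain
import Cfsg.Agent.H11.Orders
import Cfsg.Agent.H11.QuadExt

/-!
Counting vectors with a given value of the standard quadratic forms, bounds for totally singular
subspaces, and the transfer of index statements to the projective groups.
-/

set_option autoImplicit false
set_option linter.unusedSectionVars false

namespace Cfsg.Agent.H66

open Module QuadraticMap Cfsg.Agent.H11 Classical

section
variable {F V : Type*} [Field F] [AddCommGroup V] [Module F V] {Q : QuadraticForm F V}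
variable {V₁ : Type*} [AddCommGroup V₁] [Module F V₁] {Q₁ : QuadraticForm F V₁}

/-- Solutions of `ab + Q₁(v) = t`. -/
noncomputable def valEquiv (S : HypSplit Q Q₁) (t : F) :
    {x : V // Q x = t} ≃ (F × {v : V₁ // Q₁ v = t}) ⊕ ({a : F // a ≠ 0} × V₁) where
  toFun x := if h : polar Q x.1 S.w = 0 then
      .inl (polar Q x.1 S.u, ⟨S.p x.1, by
        have := S.Q_eq x.1; rw [x.2, h] at this; simpa using this.symm⟩)
    else .inr (⟨_, h⟩, S.p x.1)
  invFun s := match s with
    | .inl (b, v) => ⟨(0 : F) • S.u + b • S.w + S.j v.1, by rw [S.Q_mk, v.2]; simp⟩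
    | .inr (a, v) => ⟨a.1 • S.u + ((t - Q₁ v) * a.1⁻¹) • S.w + S.j v, by
        rw [S.Q_mk]; have := a.2; field_simp; ring⟩
  left_inv x := by
    by_cases h : polar Q x.1 S.w = 0
    · simp only [h, dif_pos]
      ext
      conv_rhs => rw [S.decomp x.1, h]
    · simp only [h, dif_neg, not_false_eq_true]
      ext
      have h1 := S.Q_eq x.1
      rw [x.2] at h1
      have h2 : (t - Q₁ (S.p x.1)) * (polar Q x.1 S.w)⁻¹ = polar Q x.1 S.u := by
        field_simp; linear_combination h1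
      conv_rhs => rw [S.decomp x.1, ← h2]
  right_inv s := by
    have e := fun a b v => S.equivProd.left_inv (a, b, v)
    rcases s with ⟨b, v⟩ | ⟨a, v⟩
    · have e1 := e 0 b v.1
      simp only [HypSplit.equivProd, Prod.mk.injEq] at e1
      simp only [e1.1, dif_pos, e1.2.1, e1.2.2]
    · have e1 := e a.1 ((t - Q₁ v) * a.1⁻¹) v
      simp only [HypSplit.equivProd, Prod.mk.injEq] at e1
      simp only [e1.1, e1.2.2]
      rw [dif_neg a.2]

variable [Finite F]

theorem cnt_split [Finite V₁] (S : HypSplit Q Q₁) (t : F) :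
    cnt Q t = Nat.card F * cnt Q₁ t + (Nat.card F - 1) * Nat.card V₁ := by
  rw [cnt, cnt, Nat.card_congr (valEquiv S t), Nat.card_sum, Nat.card_prod, Nat.card_prod]
  congr 2
  cases nonempty_fintype F
  simp [Nat.card_eq_fintype_card]

/-- Totally singular subspaces have at most `q ^ k` elements. -/
def WittLe (Q : QuadraticForm F V) (k : ℕ) : Prop :=
  ∀ U : Submodule F V, (∀ x ∈ U, Q x = 0) → Nat.card U ≤ Nat.card F ^ k

theorem wittLe_zero (h : ∀ x, Q x = 0 → x = 0) : WittLe Q 0 := fun U hU => by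
  have : U = ⊥ := (Submodule.eq_bot_iff U).2 fun x hx => h x (hU x hx)
  rw [this, pow_zero, Nat.card_unique]

theorem WittLe.succ [Finite V₁] (S : HypSplit Q Q₁) (h₁ : ND Q₁) {k : ℕ} (h : WittLe Q₁ k) :
    WittLe Q (k + 1) := by
  intro U hU
  by_cases hb : U = ⊥
  · rw [hb, Nat.card_unique]
    exact Nat.pow_pos Nat.card_pos
  obtain ⟨v, hv, hv0⟩ := U.ne_bot_iff.1 hb
  obtain ⟨g, hg⟩ := (S.nd_of h₁).exists_ap_eq hv0 (ne_zero_of_polar_eq_one S.huw)
    ((hU v hv).trans S.hu.symm)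
  have perp : ∀ x ∈ U, polar Q (ap g x) S.u = 0 := fun x hx => by
    rw [← hg, polar_ap]
    exact polar_of_sing (hU x hx) (hU v hv) (hU _ (U.add_mem hx hv))
  let f : V →ₗ[F] V₁ := S.p ∘ₗ (g.1 : V →ₗ[F] V)
  have := h (U.map f) (by
    rintro _ ⟨x, hx, rfl⟩
    have := S.Q_eq (ap g x)
    rw [perp x hx, mul_zero, zero_add, Q_ap, hU x hx] at this
    exact this.symm)
  refine le_trans ?_ (Nat.mul_le_mul_right (Nat.card F) this)
  rw [← Nat.card_prod]
  refine Nat.card_le_card_of_injective (fun x : U => ((⟨f x, x, x.2, rfl⟩ : U.map f),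
    polar Q (ap g x) S.w)) fun a b hab => Subtype.ext (ap_injective g ?_)
  have e1 : S.p (ap g a) = S.p (ap g b) := congrArg (fun t => t.1.1) hab
  have e2 : polar Q (ap g a) S.w = polar Q (ap g b) S.w := congrArg Prod.snd hab
  rw [S.decomp (ap g a), S.decomp (ap g b), e1, e2, perp _ a.2, perp _ b.2]

variable [FiniteDimensional F V]

/-- The projection of the Eichler group onto `PΩ`. -/
noncomputable def toPD (hQ : ND Q) (h5 : 5 ≤ finrank F V) : EG Q →* PD (OG Q) :=
  (QuotientGroup.mk' _).comp (MulEquiv.subgroupCongr (hQ.omega_eq h5).symm).toMonoidHom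

theorem toPD_surjective (hQ : ND Q) (h5 : 5 ≤ finrank F V) : Function.Surjective (toPD hQ h5) :=
  (QuotientGroup.mk'_surjective _).comp (MulEquiv.subgroupCongr _).surjective

theorem le_index_of_EG (hQ : ND Q) (h5 : 5 ≤ finrank F V) {G : Type*} [Group G]
    (e : G ≃* PD (OG Q)) {M : ℕ} (h : ∀ H : Subgroup (EG Q), H ≠ ⊤ → M ≤ H.index)
    (H : Subgroup G) (hH : H ≠ ⊤) : M ≤ H.index := by
  have hs : Function.Surjective (e.symm.toMonoidHom.comp (toPD hQ h5)) :=
    e.symm.surjective.comp (toPD_surjective hQ h5)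
  rw [← Subgroup.index_comap_of_surjective _ hs]
  exact h _ fun h => hH (Subgroup.comap_injective hs (by rw [h, Subgroup.comap_top]))

theorem exists_index (hQ : ND Q) (h5 : 5 ≤ finrank F V) {G : Type*} [Group G]
    (e : G ≃* PD (OG Q)) {u : V} (hu0 : u ≠ 0) (hc : ∀ c : F, c ≠ 0 → Q (c • u) = Q u) :
    ∃ H : Subgroup G, H.index * (Nat.card F - 1) = Nat.card {x // Q x = Q u ∧ x ≠ 0} := by
  let H : Subgroup (EG Q) :=
    { carrier := {g | ∃ c : F, ap g.1 u = c • u}
      one_mem' := ⟨1, by simp⟩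
      mul_mem' := by
        rintro a b ⟨c, hc⟩ ⟨d, hd⟩
        exact ⟨d * c, by rw [Subgroup.coe_mul, ap_mul, hd, ap_smul, hc, smul_smul]⟩
      inv_mem' := by
        rintro a ⟨c, hc⟩
        have h0 : c ≠ 0 := fun h => hu0 (ap_eq_zero.1 (by rw [hc, h, zero_smul]))
        refine ⟨c⁻¹, ap_injective a.1 ?_⟩
        rw [Subgroup.coe_inv, ap_ap_inv, ap_smul, hc, smul_smul, inv_mul_cancel₀ h0, one_smul] }
  have hs : Function.Surjective (e.symm.toMonoidHom.comp (toPD hQ h5)) :=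
    e.symm.surjective.comp (toPD_surjective hQ h5)
  refine ⟨H.map (e.symm.toMonoidHom.comp (toPD hQ h5)), ?_⟩
  rw [Subgroup.index_map_eq _ hs fun g hg => ?_]
  · have h1 : MulAction.stabilizer (EG Q) u ≤ H := fun g hg => ⟨1, by rw [one_smul]; exact hg⟩
    have h2 : (MulAction.stabilizer (EG Q) u).index = Nat.card {x // Q x = Q u ∧ x ≠ 0} := by
      rw [MulAction.index_stabilizer]
      refine Nat.card_congr (Equiv.subtypeEquivRight fun x => ⟨?_, fun h => ?_⟩)
      · rintro ⟨g, rfl⟩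
        exact ⟨Q_ap g.1 u, fun h => hu0 (ap_eq_zero.1 h)⟩
      · obtain ⟨g, hg, e⟩ := hQ.EG_trans (by omega) hu0 h.2 h.1.symm
        exact ⟨⟨g, hg⟩, e⟩
    have h3 : (MulAction.stabilizer (EG Q) u).relIndex H = Nat.card F - 1 := by
      rw [← Nat.card_units]
      refine (MulAction.index_stabilizer H u).trans (Nat.card_congr (Equiv.ofBijective
        (fun c : Fˣ => (⟨(c : F) • u, ?_⟩ : MulAction.orbit H u)) ⟨fun a b hab => ?_, ?_⟩)).symm
      · obtain ⟨g, hg, e⟩ := hQ.EG_trans (by omega) hu0 (smul_ne_zero c.ne_zero hu0)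
          (hc _ c.ne_zero).symm
        exact ⟨⟨⟨g, hg⟩, c, e⟩, e⟩
      · exact Units.ext (smul_left_injective F hu0 (congrArg Subtype.val hab))
      · rintro ⟨_, ⟨g, c, hc⟩, rfl⟩
        exact ⟨Units.mk0 c fun h => hu0 (ap_eq_zero.1 (by rw [hc, h, zero_smul])),
          Subtype.ext hc.symm⟩
    rw [← h2, ← Subgroup.relIndex_mul_index h1, h3, mul_comm]
  · have h1 : toPD hQ h5 g = 1 := e.symm.injective (by rw [map_one]; exact hg)
    rcases (hQ.mem_center_omega h5 _).1 ((QuotientGroup.eq_one_iff _).1 h1) with h | h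
    · exact ⟨1, by rw [show g.1 = 1 from h, ap_one, one_smul]⟩
    · exact ⟨-1, by rw [show g.1 = negOne Q from h, ap_negOne, neg_one_smul]⟩

theorem exists_index_sing (hQ : ND Q) (h5 : 5 ≤ finrank F V) {G : Type*} [Group G]
    (e : G ≃* PD (OG Q)) : ∃ H : Subgroup G, H.index * (Nat.card F - 1) + 1 = cnt Q 0 := by
  obtain ⟨u, hu, hu0⟩ := exists_sing Q (by omega)
  obtain ⟨H, hH⟩ := exists_index hQ h5 e hu0 fun c _ => by rw [Q_smul, hu, mul_zero]
  exact ⟨H, by rw [hH, hu, card_sing_ne_zero]⟩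

theorem exists_index_nonsing (hQ : ND Q) (h5 : 5 ≤ finrank F V) {G : Type*} [Group G]
    (e : G ≃* PD (OG Q)) (hc : ∀ c : F, c ≠ 0 → c * c = 1) {t : F} (ht : t ≠ 0) :
    ∃ H : Subgroup G, H.index * (Nat.card F - 1) = cnt Q t := by
  obtain ⟨u, rfl⟩ := hQ.represents (by omega) t
  have hu0 : u ≠ 0 := fun h => ht (by rw [h, map_zero])
  obtain ⟨H, hH⟩ := exists_index hQ h5 e hu0 fun c h => by rw [Q_smul, hc c h, one_mul]
  refine ⟨H, hH.trans (Nat.card_congr (Equiv.subtypeEquivRight fun x =>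
    ⟨fun h => h.1, fun h => ⟨h, fun h' => ht (by rw [← h, h', map_zero])⟩⟩))⟩

end

variable {F : Type*} [Field F] [Finite F]

theorem card_le_nsq : Nat.card F - 1 ≤ nsq F * (if (2 : F) = 0 then 1 else 2) := by
  rw [← Nat.card_units]
  have := card_mul_le_of_rel (X := Fˣ) (Ω := {t : F // t ≠ 0 ∧ IsSquare t})
    (fun c t => (c : F) * c = t.1) (a := 1) (b := if (2 : F) = 0 then 1 else 2) (fun c => by
      have : Nonempty {t : {t : F // t ≠ 0 ∧ IsSquare t} // (c : F) * c = t.1} :=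
        ⟨⟨⟨c * c, mul_ne_zero c.ne_zero c.ne_zero, c, rfl⟩, rfl⟩⟩
      exact Nat.card_pos) (fun t => by
      obtain ⟨t, ht, r, rfl⟩ := t
      have key : ∀ x : {c : Fˣ // (c : F) * c = r * r}, x.1.1 = r ∨ x.1.1 = -r := fun x =>
        mul_self_eq_mul_self_iff.1 x.2
      split_ifs with h2
      · refine Finite.card_le_one_iff_subsingleton.2 ⟨fun a b => Subtype.ext (Units.ext ?_)⟩
        have e : -r = r := by linear_combination -r * h2
        have a1 := key a
        have a2 := key b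
        rw [e, or_self] at a1 a2
        rw [a1, a2]
      · rw [← Nat.card_eq_fintype_card.trans Fintype.card_bool]
        refine Nat.card_le_card_of_injective (fun x => decide (x.1.1 = r))
          fun a b hab => Subtype.ext (Units.ext ?_)
        have e : a.1.1 = r ↔ b.1.1 = r := by simpa using hab
        rcases key a with h1 | h1
        · rw [h1, e.1 h1]
        · rcases key b with h3 | h3
          · rw [h3, e.2 h3]
          · rw [h1, h3])
  rwa [mul_one] at this

theorem sq_le_nsq (h4 : 4 ≤ Nat.card F) :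
    17 * Nat.card F ^ 2 ≤ 16 * ((Nat.card F - 1) * (ringChar F * nsq F)) := by
  have := Fintype.ofFinite F
  have h1 := card_le_nsq (F := F)
  obtain ⟨r, hr⟩ : ∃ r, Nat.card F = r + 4 := ⟨_, (Nat.sub_add_cancel h4).symm⟩
  have hp : (ringChar F).Prime := CharP.char_is_prime F _
  by_cases h2 : (2 : F) = 0
  · rw [if_pos h2, mul_one] at h1
    rw [two_eq_zero_iff_ringChar.1 h2]
    rw [hr] at h1 ⊢
    rw [show r + 4 - 1 = r + 3 from rfl] at h1 ⊢
    nlinarith
  rw [if_neg h2] at h1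
  have hodd := two_ne_zero_iff_odd.1 h2
  rw [← Nat.card_eq_fintype_card] at hodd
  have h3 : 3 ≤ ringChar F := by
    have := hp.two_le
    have : ringChar F ≠ 2 := fun h => h2 (two_eq_zero_iff_ringChar.2 h)
    omega
  by_cases h5 : Nat.card F = 5
  · rw [ringChar_eq_of_card_prime (by norm_num) h5]
    rw [h5] at h1 ⊢
    omega
  obtain ⟨s, rfl⟩ : ∃ s, r = s + 3 := ⟨r - 3, by obtain ⟨k, hk⟩ := hodd; omega⟩
  rw [hr] at h1 ⊢
  rw [show s + 3 + 4 - 1 = s + 6 from rfl] at h1 ⊢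
  have : 3 * nsq F ≤ ringChar F * nsq F := Nat.mul_le_mul_right _ h3
  nlinarith

theorem card_odd_space (m : ℕ) :
    Nat.card (Unit ⊕ (Fin m ⊕ Fin m) → F) = Nat.card F * (Nat.card F ^ m) ^ 2 := by
  rw [Nat.card_fun, Nat.card_sum, Nat.card_sum, Nat.card_fin, Nat.card_unique (α := Unit)]; ring

theorem card_plus_space (m : ℕ) : Nat.card (Fin m ⊕ Fin m → F) = (Nat.card F ^ m) ^ 2 := by
  rw [Nat.card_fun, Nat.card_sum, Nat.card_fin]; ring

theorem card_minus_space (m : ℕ) :
    Nat.card ((Fin m ⊕ Fin m) ⊕ Fin 2 → F) = Nat.card F ^ 2 * (Nat.card F ^ m) ^ 2 := by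
  rw [Nat.card_fun, Nat.card_sum, Nat.card_sum, Nat.card_fin, Nat.card_fin]; ring

theorem cnt_odd (t : F) (m : ℕ) : cnt (qOdd F m) t + Nat.card F ^ m =
    (Nat.card F ^ m) ^ 2 + cnt (qOdd F 0) t * Nat.card F ^ m := by
  obtain ⟨k, hk⟩ : ∃ k, Nat.card F = k + 1 := ⟨_, (Nat.sub_add_cancel Nat.card_pos).symm⟩
  induction m with
  | zero => simp [add_comm]
  | succ m ih =>
    rw [cnt_split (splitOdd F m), card_odd_space]
    rw [hk] at ih ⊢
    simp only [Nat.add_sub_cancel]
    zify at ih ⊢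
    linear_combination (k + 1 : ℤ) * ih

theorem cnt_plus (t : F) (m : ℕ) : cnt (qPlus F (m + 1)) t + Nat.card F ^ m =
    Nat.card F * (Nat.card F ^ m) ^ 2 + cnt (qPlus F 0) t * (Nat.card F * Nat.card F ^ m) := by
  obtain ⟨k, hk⟩ : ∃ k, Nat.card F = k + 1 := ⟨_, (Nat.sub_add_cancel Nat.card_pos).symm⟩
  induction m with
  | zero =>
    rw [cnt_split (splitPlus F 0), card_plus_space, hk]
    simp only [Nat.add_sub_cancel]
    ring
  | succ m ih =>
    rw [cnt_split (splitPlus F (m + 1)), card_plus_space]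
    rw [hk] at ih ⊢
    simp only [Nat.add_sub_cancel]
    zify at ih ⊢
    linear_combination (k + 1 : ℤ) * ih

theorem cnt_minus (a b t : F) (m : ℕ) : cnt (qMinus m a b) t + Nat.card F * Nat.card F ^ m =
    Nat.card F * (Nat.card F ^ m) ^ 2 + cnt (qMinus 0 a b) t * Nat.card F ^ m := by
  obtain ⟨k, hk⟩ : ∃ k, Nat.card F = k + 1 := ⟨_, (Nat.sub_add_cancel Nat.card_pos).symm⟩
  induction m with
  | zero => simp [add_comm]
  | succ m ih =>
    rw [cnt_split (splitMinus m a b), card_minus_space]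
    rw [hk] at ih ⊢
    simp only [Nat.add_sub_cancel]
    zify at ih ⊢
    linear_combination (k + 1 : ℤ) * ih

theorem cnt_zero_of_aniso {V : Type*} [AddCommGroup V] [Module F V] {Q : QuadraticForm F V}
    (h : ∀ x, Q x = 0 → x = 0) : cnt Q 0 = 1 :=
  Nat.card_eq_one_iff_unique.2
    ⟨⟨fun x y => Subtype.ext ((h _ x.2).trans (h _ y.2).symm)⟩, ⟨⟨0, map_zero _⟩⟩⟩

theorem qOdd_zero_aniso (v : Unit ⊕ (Fin 0 ⊕ Fin 0) → F) (hv : qOdd F 0 v = 0) : v = 0 := by
  rw [qOdd_apply] at hv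
  funext i
  rcases i with i | i | i
  · simpa using hv
  · exact i.elim0
  · exact i.elim0

theorem cnt_plus_base {t : F} (ht : t ≠ 0) : cnt (qPlus F 0) t = 0 := by
  have : IsEmpty {x // qPlus F 0 x = t} := ⟨fun x => ht (by
    rw [← x.2, Subsingleton.elim x.1 0, map_zero])⟩
  exact Nat.card_of_isEmpty

theorem cnt_odd_base {t : F} (ht : ¬ IsSquare t) : cnt (qOdd F 0) t = 0 := by
  have : IsEmpty {x // qOdd F 0 x = t} := ⟨fun x => ht ⟨x.1 (.inl ()), x.2.symm.trans (by
    rw [qOdd_apply]; simp [pow_two])⟩⟩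
  exact Nat.card_of_isEmpty

theorem cnt_minus_base {a b : F}
    (hab : ∀ z₁ z₂ : F, z₁ ^ 2 + a * z₁ * z₂ + b * z₂ ^ 2 = 0 → z₁ = 0 ∧ z₂ = 0) (t : F) :
    1 ≤ cnt (qMinus 0 a b) t := by
  obtain ⟨x, hx⟩ := (nd_qMinus hab 0).represents (by simp) t
  have : Nonempty {x // qMinus 0 a b x = t} := ⟨⟨x, hx⟩⟩
  exact Nat.card_pos

theorem wittLe_odd (h2 : (2 : F) ≠ 0) (m : ℕ) : WittLe (qOdd F m) m := by
  induction m with
  | zero => exact wittLe_zero qOdd_zero_aniso
  | succ m ih => exact ih.succ (splitOdd F m) (nd_qOdd h2 m)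

theorem wittLe_plus (m : ℕ) : WittLe (qPlus F m) m := by
  induction m with
  | zero => exact wittLe_zero fun x _ => Subsingleton.elim _ _
  | succ m ih => exact ih.succ (splitPlus F m) (nd_qPlus F m)

theorem wittLe_minus {a b : F}
    (hab : ∀ z₁ z₂ : F, z₁ ^ 2 + a * z₁ * z₂ + b * z₂ ^ 2 = 0 → z₁ = 0 ∧ z₂ = 0) (m : ℕ) :
    WittLe (qMinus m a b) m := by
  induction m with
  | zero => exact wittLe_zero (qMinus_zero_aniso hab)
  | succ m ih => exact ih.succ (splitMinus m a b) (nd_qMinus hab m)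

end Cfsg.Agent.H66
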