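import Cfsg.Agent.H11.Simple
import Cfsg.Agent.H28.OrthDet
import Cfsg.Agent.H66.MinSL

/-!
Linear algebra in a non-degenerate orthogonal space: vectors perpendicular to a few given vectors,
additive subgroups invariant under the Eichler transformations fixing a vector.
-/

set_option autoImplicit false
set_option linter.unusedSectionVars false

namespace Cfsg.Agent.H66

open Module QuadraticMap Cfsg.Agent.H11 Classical

variable {F V : Type*} [Field F] [AddCommGroup V] [Module F V] {Q : QuadraticForm F V}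

theorem polar_span {s : Set V} {y : V} (h : ∀ a ∈ s, polar Q a y = 0) {x : V}
    (hx : x ∈ Submodule.span F s) : polar Q x y = 0 := by
  induction hx using Submodule.span_induction with
  | mem a ha => exact h a ha
  | zero => exact polar_zero_left _ _
  | add a b _ _ ha hb => rw [polar_add_left, ha, hb, add_zero]
  | smul c a _ ha => rw [polar_smul_left', ha, mul_zero]

theorem polar_of_sing {x y : V} (hx : Q x = 0) (hy : Q y = 0) (hxy : Q (x + y) = 0) :
    polar Q x y = 0 := by
  rw [Q_add, hx, hy] at hxy; simpa using hxy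

theorem Q_span {A : AddSubgroup V} (h : ∀ a ∈ A, Q a = 0) {x : V}
    (hx : x ∈ Submodule.span F (A : Set V)) : Q x = 0 := by
  have h1 : ∀ a ∈ A, ∀ b ∈ A, polar Q a b = 0 := fun a ha b hb =>
    polar_of_sing (h a ha) (h b hb) (h _ (A.add_mem ha hb))
  have h2 : ∀ a ∈ Submodule.span F (A : Set V), ∀ b ∈ Submodule.span F (A : Set V),
      polar Q a b = 0 := fun a ha b hb =>
    polar_span (fun a ha => by rw [polar_comm]; exact polar_span (fun b hb => h1 b hb a ha) hb) ha
  induction hx using Submodule.span_induction with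
  | mem a ha => exact h a ha
  | zero => exact map_zero _
  | add a b ha' hb' ha hb => rw [Q_add, ha, hb, h2 a ha' b hb']; simp
  | smul c a _ ha => rw [Q_smul, ha, mul_zero]

variable [FiniteDimensional F V]

theorem exists_polar_one (h : ND Q) {s : Set V} {x : V} (hx : x ∉ Submodule.span F s) (c : F) :
    ∃ y, polar Q x y = c ∧ ∀ a ∈ s, polar Q a y = 0 := by
  obtain ⟨y, h1, h2⟩ := H28.exists_polar_orth h.nondegenerate _ hx
  exact ⟨c • y, by rw [polar_smul_right', h1, mul_one], fun a ha => by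
    rw [polar_smul_right', h2 a (Submodule.subset_span ha), mul_zero]⟩

theorem mem_span_of_perp (h : ND Q) {s : Set V} {x : V}
    (hx : ∀ y, (∀ a ∈ s, polar Q a y = 0) → polar Q x y = 0) : x ∈ Submodule.span F s := by
  by_contra hn
  obtain ⟨y, h1, h2⟩ := exists_polar_one h hn 1
  exact one_ne_zero (h1.symm.trans (hx y h2))

theorem finrank_perp_ge (h : ND Q) (s : Finset V) :
    finrank F V ≤ finrank F (H28.perp Q (Submodule.span F (s : Set V))) + s.card := by
  rw [H28.finrank_perp h.nondegenerate]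
  have h2 := finrank_span_finset_le_card (R := F) s
  unfold Set.finrank at h2
  omega

theorem mem_perp_span {s : Set V} {x : V} :
    x ∈ H28.perp Q (Submodule.span F s) ↔ ∀ a ∈ s, polar Q a x = 0 :=
  ⟨fun h a ha => h a (Submodule.subset_span ha), fun h _ ha => polar_span h ha⟩

theorem exists_nonsing_perp (h : ND Q) (s : Finset V) (hs : 2 * s.card < finrank F V) :
    ∃ x, Q x ≠ 0 ∧ ∀ a ∈ s, polar Q a x = 0 := by
  by_contra hc
  push Not at hc
  set W := H28.perp Q (Submodule.span F (s : Set V)) with hW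
  have h0 : ∀ x ∈ W, Q x = 0 := fun x hx => by
    by_contra hn
    obtain ⟨a, ha, ha'⟩ := hc x hn
    exact ha' (mem_perp_span.1 hx a ha)
  have hle : W ≤ H28.perp Q W := fun x hx y hy =>
    polar_of_sing (h0 y hy) (h0 x hx) (h0 _ (W.add_mem hy hx))
  have h1 := Submodule.finrank_mono hle
  rw [H28.finrank_perp h.nondegenerate W] at h1
  have h2 := finrank_perp_ge h s
  rw [← hW] at h2
  omega

variable [Finite F]

theorem exists_sing_mem' (W : Submodule F V) (h3 : 3 ≤ finrank F W) :
    ∃ v ∈ W, v ≠ 0 ∧ Q v = 0 := by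
  obtain ⟨x, h1, h2⟩ := exists_sing (Q.comp W.subtype) h3
  exact ⟨x, x.2, fun h => h2 (Subtype.ext h), h1⟩

theorem exists_sing_perp (h : ND Q) (s : Finset V) (hs : s.card + 3 ≤ finrank F V) :
    ∃ x, x ≠ 0 ∧ Q x = 0 ∧ ∀ a ∈ s, polar Q a x = 0 := by
  obtain ⟨x, h1, h2, h3⟩ := exists_sing_mem' (Q := Q) (H28.perp Q (Submodule.span F (s : Set V)))
    (by have := finrank_perp_ge h s; omega)
  exact ⟨x, h2, h3, mem_perp_span.1 h1⟩

theorem exists_hyp_perp (h : ND Q) (s : Finset V) (hs : 2 * s.card + 3 ≤ finrank F V) :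
    ∃ e f, Q e = 0 ∧ Q f = 0 ∧ polar Q e f = 1 ∧ (∀ a ∈ s, polar Q a e = 0) ∧
      ∀ a ∈ s, polar Q a f = 0 := by
  obtain ⟨C, hC⟩ := (Submodule.span F (s : Set V)).exists_isCompl
  have h1 := Submodule.finrank_add_eq_of_isCompl hC
  have h2 := finrank_span_finset_le_card (R := F) s
  unfold Set.finrank at h2
  have h3 := finrank_perp_ge h s
  have h4 := Submodule.finrank_sup_add_finrank_inf_eq (H28.perp Q (Submodule.span F (s : Set V))) C
  have h5 := Submodule.finrank_le (H28.perp Q (Submodule.span F (s : Set V)) ⊔ C)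
  obtain ⟨e, he, he0, hQ⟩ := exists_sing_mem' (Q := Q)
    (H28.perp Q (Submodule.span F (s : Set V)) ⊓ C) (by omega)
  have hes : e ∉ Submodule.span F (s : Set V) := fun h' =>
    he0 ((Submodule.disjoint_def.1 hC.disjoint) e h' he.2)
  obtain ⟨y, y1, y2⟩ := exists_polar_one h hes 1
  have he' := mem_perp_span.1 he.1
  refine ⟨e, y - Q y • e, hQ, ?_, ?_, he', fun a ha => ?_⟩
  · qsimp; rw [hQ, polar_comm Q y e, y1]; ring
  · qsimp; rw [hQ, y1]; ring
  · qsimp; rw [y2 a ha, he' a ha]; ring

/-- A vector which is not a multiple of `y` is not perpendicular to some singular vector of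
`y^⊥`. -/
theorem exists_sing_sep (h : ND Q) (h5 : 5 ≤ finrank F V) {y z : V}
    (hz : z ∉ Submodule.span F {y}) : ∃ e, Q e = 0 ∧ polar Q y e = 0 ∧ polar Q z e ≠ 0 := by
  by_contra hc
  push Not at hc
  obtain ⟨e, f, he, hf, hef, h1, h2⟩ := exists_hyp_perp h {y} (by simpa using h5)
  have ye := h1 y (by simp)
  have yf := h2 y (by simp)
  refine hz (mem_span_of_perp h fun t ht => ?_)
  have yt := ht y rfl
  have ze := hc e he ye
  have zf := hc f hf yf
  have hfe : polar Q f e = 1 := by rw [polar_comm, hef]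
  set t' := t - polar Q t f • e - polar Q t e • f with ht'
  have e1 : polar Q t' e = 0 := by rw [ht']; qsimp; rw [he, hfe]; ring
  have e2 : polar Q t' f = 0 := by rw [ht']; qsimp; rw [hf, hef]; ring
  have e3 : polar Q y t' = 0 := by rw [ht']; qsimp; rw [yt, ye, yf]; ring
  have := hc (t' + f - Q t' • e) (by qsimp; rw [he, hf, e1, e2, hfe]; ring)
    (by qsimp; rw [e3, ye, yf]; ring)
  rw [ht'] at this
  qsimp at this
  rw [ze, zf] at this
  linear_combination this

/-- An additive subgroup invariant under the Eichler transformations fixing `y` is contained in the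
line of `y` or contains `y^⊥`. -/
theorem perp_le_of_inv (h : ND Q) (h5 : 5 ≤ finrank F V) {A : AddSubgroup V} {y : V}
    (hA : ∀ (e t : V) (he : Q e = 0) (het : polar Q e t = 0), polar Q y e = 0 → polar Q y t = 0 →
      ∀ z ∈ A, ap (eich he het) z ∈ A)
    {z : V} (hzA : z ∈ A) (hz : z ∉ Submodule.span F {y}) {x : V} (hx : polar Q y x = 0) :
    x ∈ A := by
  have key : ∀ e z, Q e = 0 → polar Q y e = 0 → z ∈ A → polar Q z e ≠ 0 →
      ∀ t, polar Q e t = 0 → polar Q y t = 0 → t ∈ A := by
    intro e z he ye hz hze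
    obtain ⟨b, hb⟩ : ∃ b, polar Q z e * b = 1 := ⟨_, mul_inv_cancel₀ hze⟩
    have f1 : ∀ t, polar Q e t = 0 → polar Q y t = 0 →
        t - (b * polar Q z t + b * Q t) • e ∈ A := by
      intro t et yt
      have := A.sub_mem (hA e (b • t) he (by qsimp; rw [et, mul_zero]) ye
        (by qsimp; rw [yt, mul_zero]) z hz) hz
      rw [ap_eich] at this
      convert this using 1
      qsimp
      match_scalars
      · linear_combination -hb
      · linear_combination b * Q t * hb
      · ring
    obtain ⟨t₁, t₂, -, -, t12, p1, p2⟩ : ∃ t₁ t₂, True ∧ True ∧ polar Q t₁ t₂ = 1 ∧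
        (∀ a ∈ ({e, y} : Finset V), polar Q a t₁ = 0) ∧
          ∀ a ∈ ({e, y} : Finset V), polar Q a t₂ = 0 := by
      obtain ⟨t₁, m1, m2⟩ := exists_not_mem_of_finrank_lt (F := F) {e, y}
        (H28.perp Q (Submodule.span F (({e, y} : Finset V) : Set V))) (by
          have := finrank_perp_ge h {e, y}
          have := Finset.card_le_two (a := e) (b := y)
          omega)
      obtain ⟨t₂, n1, n2⟩ := exists_polar_one h m2 1
      exact ⟨t₁, t₂, trivial, trivial, n1, mem_perp_span.1 m1, n2⟩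
    have f2 : ∀ c : F, c • e ∈ A := by
      intro c
      have a1 := p1 e (by simp)
      have a2 := p1 y (by simp)
      have a3 := p2 e (by simp)
      have a4 := p2 y (by simp)
      have := A.sub_mem (A.add_mem (f1 ((c * polar Q z e) • t₁) (by qsimp; rw [a1, mul_zero])
        (by qsimp; rw [a2, mul_zero])) (f1 t₂ a3 a4))
        (f1 ((c * polar Q z e) • t₁ + t₂) (by qsimp; rw [a1, a3]; ring)
          (by qsimp; rw [a2, a4]; ring))
      convert this using 1
      qsimp
      rw [t12]
      match_scalars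
      · linear_combination -c * hb
      · ring
      · ring
    intro t et yt
    simpa using A.add_mem (f1 t et yt) (f2 (b * polar Q z t + b * Q t))
  obtain ⟨e, he, ye, ze⟩ := exists_sing_sep h h5 hz
  have k1 := key e z he ye hzA ze
  by_cases hey : e ∈ Submodule.span F {y}
  · obtain ⟨c, rfl⟩ := Submodule.mem_span_singleton.1 hey
    exact k1 x (by qsimp; rw [hx, mul_zero]) hx
  obtain ⟨s, s1, s2⟩ := exists_polar_one h hey 1
  have ys := s2 y rfl
  have hee : polar Q e e = 0 := by qsimp; rw [he, mul_zero]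
  have ef : polar Q e (s - Q s • e) = 1 := by qsimp; rw [he, s1]; ring
  have hf : Q (s - Q s • e) = 0 := by qsimp; rw [he, polar_comm Q s e, s1]; ring
  have yf : polar Q y (s - Q s • e) = 0 := by qsimp; rw [ys, ye]; ring
  set f := s - Q s • e
  have k2 := key f e hf yf (k1 e hee ye) (by rw [ef]; exact one_ne_zero)
  have a1 := k1 (x - polar Q e x • f) (by qsimp; rw [ef]; ring) (by qsimp; rw [hx, yf]; ring)
  have a2 := k2 (polar Q e x • f) (by qsimp; rw [hf]; ring) (by qsimp; rw [yf]; ring)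
  simpa using A.add_mem a1 a2

omit [FiniteDimensional F V] [Finite F] in
/-- The Eichler group of `u` is transitive on the singular points not perpendicular to `u`. -/
theorem exists_eich_opp {u x x' : V} (hu : Q u = 0) (hx : Q x = 0) (hx' : Q x' = 0)
    (h1 : polar Q u x ≠ 0) (h2 : polar Q u x' ≠ 0) :
    ∃ (c d : F) (h : polar Q u (c • x' - d • x) = 0), c ≠ 0 ∧ d ≠ 0 ∧
      ap (eich hu h) (d • x) = c • x' := by
  have e1 : polar Q u ((polar Q u x)⁻¹ • x) = 1 := by qsimp; exact inv_mul_cancel₀ h1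
  have e2 : polar Q u ((polar Q u x')⁻¹ • x' - (polar Q u x)⁻¹ • x) = 0 := by
    qsimp; rw [inv_mul_cancel₀ h1, inv_mul_cancel₀ h2, sub_self]
  exact ⟨_, _, e2, inv_ne_zero h2, inv_ne_zero h1,
    ap_eich_partner hu (by qsimp; rw [hx, mul_zero]) (by qsimp; rw [hx', mul_zero]) e1 e2⟩

omit [Finite F] in
theorem EG_trans_point (h : ND Q) (h3 : 3 ≤ finrank F V) {z z' : V} (hz : Q z = 0) (hz0 : z ≠ 0)
    (hz' : Q z' = 0) (hz0' : z' ≠ 0) : ∃ g ∈ EG Q, ∃ c : F, c ≠ 0 ∧ ap g z = c • z' := by
  have key : ∀ e, Q e = 0 → polar Q e z ≠ 0 → polar Q e z' ≠ 0 →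
      ∃ g ∈ EG Q, ∃ c : F, c ≠ 0 ∧ ap g z = c • z' := by
    intro e he h1 h2
    obtain ⟨c, d, h3, hc, hd, h4⟩ := exists_eich_opp he hz hz' h1 h2
    refine ⟨_, eich_mem_EG he h3, d⁻¹ * c, mul_ne_zero (inv_ne_zero hd) hc, ?_⟩
    rw [ap_smul] at h4
    generalize ap (eich he h3) z = y at h4 ⊢
    rw [mul_smul, ← h4, smul_smul, inv_mul_cancel₀ hd, one_smul]
  by_cases hp : polar Q z z' = 0
  · obtain ⟨e, he, h1, h2⟩ := h.exists_sing_both_ne hz hz0 hz0' hp
    exact key e he (by rwa [polar_comm]) (by rwa [polar_comm])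
  · obtain ⟨b, hb⟩ : ∃ b, polar Q z z' * b = 1 := ⟨_, mul_inv_cancel₀ hp⟩
    let S := hypSplit (Q := Q) (u := z) (w := b • z') hz (by qsimp; rw [hz', mul_zero])
      (by qsimp; linear_combination hb)
    have hd := S.finrank_eq
    obtain ⟨s, hs, -⟩ := exists_nonsing_perp (S.nd h) ∅ (by simp; omega)
    have hb0 : b ≠ 0 := by rintro rfl; simp at hb
    obtain ⟨r, hr⟩ : ∃ r, r = (Q.comp (perp2 Q z (b • z')).subtype) s := ⟨_, rfl⟩
    rw [← hr] at hs
    refine key ((-r) • S.u + (1 : F) • S.w + S.j s) (by rw [S.Q_mk, hr]; ring) ?_ ?_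
    · show polar Q _ S.u ≠ 0
      qsimp; rw [S.hu, S.hwu, S.ju]; simp
    · have : polar Q ((-r) • S.u + (1 : F) • S.w + S.j s) S.w ≠ 0 := by
        qsimp; rw [S.hw, S.huw, S.jw]; simpa using hs
      intro h0
      refine this ?_
      show polar Q _ (b • z') = 0
      rw [polar_smul_right', h0, mul_zero]

end Cfsg.Agent.H66
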