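import Cfsg.Agent.H66.OrthT4

/-!
Lower bound for the degree of a transitive action of the group generated by the Eichler
transformations, under numerical hypotheses on the form.
-/

set_option autoImplicit false
set_option linter.unusedSectionVars false

namespace Cfsg.Agent.H66

open Module QuadraticMap Cfsg.Agent.H11 Classical

variable {F V : Type*} [Field F] [AddCommGroup V] [Module F V] {Q : QuadraticForm F V}
variable {V₁ : Type*} [AddCommGroup V₁] [Module F V₁] {Q₁ : QuadraticForm F V₁}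
variable [Finite F] [FiniteDimensional F V] [FiniteDimensional F V₁]
variable {Ω : Type*} [MulAction (EG Q) Ω] [Finite Ω]

theorem card_sing_ne_zero : Nat.card {x : V // Q x = 0 ∧ x ≠ 0} + 1 = cnt Q 0 := by
  have : Finite V := Module.finite_of_finite F
  have := Fintype.ofFinite V
  rw [cnt, ← card_filter_eq, ← card_filter_eq]
  rw [← Finset.card_erase_add_one (s := Finset.univ.filter fun x => Q x = 0) (a := 0) (by simp)]
  congr 2
  ext x
  simp [and_comm]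

theorem bound_T0 (hQ : ND Q) (h5 : 5 ≤ finrank F V) {ω₀ : Ω} {v₀ : V} (hv : Q v₀ = 0)
    (hv0 : v₀ ≠ 0) (h : T0 Q ω₀ v₀)
    (hs : ∀ (ω : Ω) u u', Q u = 0 → u ≠ 0 → Q u' = 0 → T0 Q ω u → T0 Q ω u' →
      u' ∈ Submodule.span F {u}) : cnt Q 0 ≤ Nat.card Ω * (Nat.card F - 1) + 1 := by
  have : Finite V := Module.finite_of_finite F
  have := card_mul_le_of_rel (X := {x : V // Q x = 0 ∧ x ≠ 0}) (Ω := Ω)
    (fun x ω => T0 Q ω x.1) (a := 1) (b := Nat.card F - 1) (fun x => by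
      obtain ⟨g, hg, e⟩ := hQ.EG_trans_sing (by omega) hv hv0 x.2.1 x.2.2
      have : Nonempty {ω // T0 Q ω x.1} := ⟨⟨_, e ▸ h.map hv ⟨g, hg⟩⟩⟩
      exact Nat.card_pos) (fun ω => by
      by_cases hne : Nonempty {x : {x : V // Q x = 0 ∧ x ≠ 0} // T0 Q ω x.1}
      · obtain ⟨u⟩ := hne
        have := fun x : {x : {x : V // Q x = 0 ∧ x ≠ 0} // T0 Q ω x.1} =>
          Submodule.mem_span_singleton.1 (hs ω u.1 x.1 u.1.2.1 u.1.2.2 x.1.2.1 u.2 x.2)
        choose c hc using this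
        rw [← Nat.card_units]
        refine Nat.card_le_card_of_injective (fun x => Units.mk0 (c x) fun h => x.1.2.2 (by
          rw [← hc x, h, zero_smul])) fun a b hab => Subtype.ext (Subtype.ext ?_)
        have e : c a = c b := congrArg Units.val hab
        rw [← hc a, ← hc b, e]
      · rw [not_nonempty_iff] at hne
        rw [Nat.card_of_isEmpty]
        exact Nat.zero_le _)
  rw [← card_sing_ne_zero]
  omega

theorem bound_T1 (hQ : ND Q) (h7 : 7 ≤ finrank F V)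
    (h0 : ∀ (ω : Ω) v, Q v = 0 → v ≠ 0 → ¬ T0 Q ω v) {ω₀ : Ω} {y₀ : V} (h : Good Q ω₀ y₀) :
    cnt Q (Q y₀) ≤ Nat.card Ω * (if (2 : F) = 0 then 1 else 2) := by
  have : Finite V := Module.finite_of_finite F
  have ne : ∀ y, Q y = Q y₀ → y ≠ 0 := fun y hy h' => h.1 (by rw [← hy, h', map_zero])
  have := card_mul_le_of_rel (X := {x : V // Q x = Q y₀}) (Ω := Ω)
    (fun x ω => Good Q ω x.1) (a := 1) (b := if (2 : F) = 0 then 1 else 2) (fun x => by
      obtain ⟨g, hg, e⟩ := hQ.EG_trans (by omega) (ne _ rfl) (ne _ x.2) x.2.symm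
      have : Nonempty {ω // Good Q ω x.1} := ⟨⟨_, e ▸ h.map ⟨g, hg⟩⟩⟩
      exact Nat.card_pos) (fun ω => by
      by_cases hne : Nonempty {x : {x : V // Q x = Q y₀} // Good Q ω x.1}
      · obtain ⟨u⟩ := hne
        have key : ∀ x : {x : {x : V // Q x = Q y₀} // Good Q ω x.1},
            x.1.1 = u.1.1 ∨ x.1.1 = -u.1.1 := by
          intro x
          obtain ⟨c, hc⟩ := Submodule.mem_span_singleton.1 (u.2.uniq hQ h7 (h0 ω) x.2)
          have h1 := x.1.2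
          rw [← hc, Q_smul, u.1.2] at h1
          have h2 : c * c = 1 := mul_right_cancel₀ h.1 (by rw [h1, one_mul])
          rcases mul_self_eq_one_iff.1 h2 with h3 | h3
          · left; rw [← hc, h3, one_smul]
          · right; rw [← hc, h3, neg_one_smul]
        split_ifs with h2
        · refine Finite.card_le_one_iff_subsingleton.2 ⟨fun a b => Subtype.ext (Subtype.ext ?_)⟩
          have e : -u.1.1 = u.1.1 := by
            rw [neg_eq_iff_add_eq_zero, ← two_smul F, h2, zero_smul]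
          have a1 := key a
          have a2 := key b
          rw [e, or_self] at a1 a2
          rw [a1, a2]
        · rw [← Nat.card_eq_fintype_card.trans Fintype.card_bool]
          refine Nat.card_le_card_of_injective (fun x => decide (x.1.1 = u.1.1))
            fun a b hab => Subtype.ext (Subtype.ext ?_)
          have e : a.1.1 = u.1.1 ↔ b.1.1 = u.1.1 := by simpa using hab
          rcases key a with h1 | h1
          · rw [h1, e.1 h1]
          · rcases key b with h3 | h3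
            · rw [h3, e.2 h3]
            · rw [h1, h3]
      · rw [not_nonempty_iff] at hne
        rw [Nat.card_of_isEmpty]
        exact Nat.zero_le _)
  rwa [mul_one] at this

variable (S : HypSplit Q Q₁) (h₁ : ND Q₁)

theorem polar_of_fx {ω : Ω} {x : V} (h : Fx Q ω S.u x) {y : V₁}
    (hy : ∀ c : F, c • y ∈ (orthRad S h₁).A ((orthRad S h₁).orb ω)) : polar Q x (S.j y) = 0 :=
  eq_zero_of_psi fun c => by
    have := psi_of_fx S h₁ h (hy c)
    rwa [map_smul, polar_smul_right'] at this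

theorem T4_of_top {ω : Ω} (h : ∀ y, y ∈ (orthRad S h₁).A ((orthRad S h₁).orb ω)) :
    T4 Q ω S.u := by
  intro x hx
  have h1 : S.p x = 0 := h₁ _ fun y => by
    show polar Q₁ (S.p x) y = 0
    rw [S.polar_p]
    exact polar_of_fx S h₁ hx fun c => h _
  have h2 := S.decomp x
  rw [h1, map_zero, add_zero, polar_comm Q x S.u, hx.1, zero_smul, add_zero] at h2
  exact Submodule.mem_span_singleton.2 ⟨_, h2.symm⟩

theorem eq_zero_of_T0 {ω : Ω} (h : T0 Q ω S.u) {y : V₁}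
    (hy : y ∈ (orthRad S h₁).A ((orthRad S h₁).orb ω)) : y = 0 :=
  h₁ _ fun x => by
    show polar Q₁ y x = 0
    refine eq_zero_of_psi fun c => ?_
    have := psi_of_fx S h₁ (h _ (S.uj (c • x))) hy
    rwa [S.polar_j, polar_smul_left', polar_comm] at this

variable [Finite V₁]

theorem T0_of_bot {ω : Ω} (h : ∀ y ∈ (orthRad S h₁).A ((orthRad S h₁).orb ω), y = 0) :
    T0 Q ω S.u := fun x hx =>
  fx_of_A S h₁ hx fun y hy => by rw [h y hy, map_zero, polar_zero_right]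

theorem T01_of_line {ω : Ω} {y : V₁}
    (h : ∀ z ∈ (orthRad S h₁).A ((orthRad S h₁).orb ω), z ∈ Submodule.span F {y}) :
    T0 Q ω S.u ∨ T1 Q ω S.u := by
  by_cases hy : y = 0
  · exact Or.inl (T0_of_bot S h₁ fun z hz => by simpa [hy] using h z hz)
  refine Or.inr ⟨S.j y, fun hm => hy ?_, S.uj y, fun x hx hxy => fx_of_A S h₁ hx fun z hz => ?_⟩
  · obtain ⟨c, hc⟩ := Submodule.mem_span_singleton.1 hm
    have := congrArg S.p hc
    rw [map_smul, S.p_u, smul_zero, S.pj] at this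
    exact this.symm
  · obtain ⟨c, rfl⟩ := Submodule.mem_span_singleton.1 (h z hz)
    rw [map_smul, polar_smul_right', polar_comm, hxy, mul_zero]

theorem T3_of_ts {k : ℕ} (hW : ∀ U : Submodule F V₁, (∀ x ∈ U, Q₁ x = 0) →
      Nat.card U ≤ Nat.card F ^ k) {ω : Ω} (h1 : TS S h₁ ((orthRad S h₁).orb ω))
    (h2 : ∀ (c : F), ∀ x ∈ (orthRad S h₁).A ((orthRad S h₁).orb ω),
      c • x ∈ (orthRad S h₁).A ((orthRad S h₁).orb ω))
    (h3 : Nat.card ((orthRad S h₁).A ((orthRad S h₁).orb ω)) = Nat.card F ^ k) :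
    T3 Q (Nat.card F ^ (k + 1)) ω S.u := by
  have : Finite V := Module.finite_of_finite F
  let A : Submodule F V₁ :=
    { (orthRad S h₁).A ((orthRad S h₁).orb ω) with smul_mem' := fun c x hx => h2 c x hx }
  have hA : ∀ x, x ∈ A ↔ x ∈ (orthRad S h₁).A ((orthRad S h₁).orb ω) := fun x => Iff.rfl
  let U : Submodule F V := LinearMap.ker (polarBilin Q S.u) ⊓ A.comap S.p
  have hU : ∀ x, x ∈ U ↔ polar Q S.u x = 0 ∧ S.p x ∈ A := fun x => Iff.rfl
  have uu : polar Q S.u S.u = 0 := by qsimp; rw [S.hu, mul_zero]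
  have uU : S.u ∈ U := (hU _).2 ⟨uu, by rw [S.p_u]; exact A.zero_mem⟩
  have jU : ∀ a ∈ A, S.j a ∈ U := fun a ha => (hU _).2 ⟨S.uj a, by rwa [S.pj]⟩
  have Qp : ∀ x, polar Q S.u x = 0 → Q x = Q₁ (S.p x) := fun x hx => by
    rw [S.Q_eq x, polar_comm Q x S.u, hx, mul_zero, zero_add]
  refine ⟨U, uU, fun x hx => ?_, fun x hx h => ?_, ?_, fun x => ⟨fun h a ha => ?_, fun h => ?_⟩⟩
  · rw [Qp x hx.1]; exact h1 _ hx.2
  · have x1 := h _ uU
    refine (hU x).2 ⟨x1, ?_⟩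
    have h4 := hW (A ⊔ Submodule.span F {S.p x}) fun z hz => by
      obtain ⟨a, ha, b, hb, rfl⟩ := Submodule.mem_sup.1 hz
      obtain ⟨c, rfl⟩ := Submodule.mem_span_singleton.1 hb
      qsimp
      rw [h1 a ha, ← Qp x x1, hx, polar_comm, S.polar_p, polar_comm, h _ (jU a ha)]
      ring
    have h5 : A = A ⊔ Submodule.span F {S.p x} := SetLike.coe_injective
      (Set.Finite.eq_of_subset_of_card_le (Set.toFinite _) (le_sup_left (a := A))
        (h4.trans h3.ge))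
    rw [h5]
    exact Submodule.mem_sup_right (Submodule.mem_span_singleton_self _)
  · rw [pow_succ, ← h3, ← Nat.card_prod]
    refine Nat.card_le_card_of_injective (fun t => (⟨S.j t.1 + t.2 • S.u,
      U.add_mem (jU _ t.1.2) (U.smul_mem _ uU)⟩ : U)) fun a b hab => ?_
    have e : S.j a.1 + a.2 • S.u = S.j b.1 + b.2 • S.u := congrArg Subtype.val hab
    have e1 := congrArg (fun t => polar Q t S.w) e
    qsimp at e1
    rw [S.jw, S.jw, S.huw, zero_add, zero_add, mul_one, mul_one] at e1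
    rw [e1, add_left_inj] at e
    exact Prod.ext (Subtype.ext (S.j_injective e)) e1
  · rw [S.decomp a]
    qsimp
    rw [h.1, polar_comm Q a S.u, ((hU a).1 ha).1, polar_comm Q (S.j _),
      polar_of_fx S h₁ h fun c => h2 c _ ha.2]
    ring
  · exact fx_of_A S h₁ (h _ uU) fun y hy => by rw [polar_comm]; exact h _ (jU y hy)

include h₁ in
theorem all_of_u (h4 : 4 ≤ finrank F V) (P : Ω → V → Prop)
    (hP : ∀ ω v (g : EG Q), Q v = 0 → P ω v → P (g • ω) (ap g.1 v)) (h : ∀ ω, P ω S.u) :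
    ∀ ω v, Q v = 0 → v ≠ 0 → P ω v := by
  intro ω v hv hv0
  obtain ⟨g, hg, e⟩ := (S.nd_of h₁).EG_trans_sing h4 S.hu (ne_zero_of_polar_eq_one S.huw) hv hv0
  have := hP _ _ ⟨g, hg⟩ S.hu (h ((⟨g, hg⟩ : EG Q)⁻¹ • ω))
  rwa [smul_inv_smul, e] at this

include S h₁ in
theorem bound_T4 [Nonempty Ω] (h5 : 5 ≤ finrank F V₁)
    (h4 : ∀ (ω : Ω) v, Q v = 0 → v ≠ 0 → T4 Q ω v) : 2 * Nat.card V₁ ≤ Nat.card Ω := by
  let R := orthRad S h₁
  have hu0 := ne_zero_of_polar_eq_one S.huw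
  have top : ∀ ω : Ω, R.A (R.orb ω) = ⊤ := fun ω => by
    rw [eq_top_iff]
    intro y _
    refine R.mem_A_orb.2 fun x hx => ?_
    obtain ⟨c, hc⟩ := Submodule.mem_span_singleton.1 (h4 ω _ S.hu hu0 _ ⟨S.uj x, hx⟩)
    have := congrArg S.p hc
    rw [map_smul, S.p_u, smul_zero, S.pj] at this
    rw [orthRad_k, ← this, polar_zero_left, AddChar.map_zero_eq_one]
  obtain ⟨ω⟩ := ‹Nonempty Ω›
  by_contra hlt
  refine not_regular S h₁ h5 (h4 ω) fun g => R.orb_eq_iff.1 ?_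
  by_contra hne
  have := sum_A_le_card S h₁ (Ω := Ω) {R.orb ω, R.orb (g • ω)}
  rw [Finset.sum_pair hne, top, top, AddSubgroup.card_top] at this
  omega

include h₁ in
/-- The case where no annihilator is totally singular of dimension at least two. -/
theorem main_generic [Nonempty Ω] (h5 : 5 ≤ finrank F V₁) (hω : ∀ ω : Ω, ∃ g : EG Q, g • ω ≠ ω)
    {M : ℕ} (ty : ∀ ω : Ω, T0 Q ω S.u ∨ T1 Q ω S.u ∨ T4 Q ω S.u)
    (h0 : M * (Nat.card F - 1) + 1 ≤ cnt Q 0)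
    (h1 : ∀ t, t ≠ 0 → M * (if (2 : F) = 0 then 1 else 2) ≤ cnt Q t)
    (h4 : M ≤ 2 * Nat.card V₁) : M ≤ Nat.card Ω := by
  have : Finite V := Module.finite_of_finite F
  have hd := S.finrank_eq
  have hQ := S.nd_of h₁
  have hq : 2 ≤ Nat.card F := Finite.one_lt_card
  replace ty := all_of_u S h₁ (by omega) (fun (ω : Ω) v => T0 Q ω v ∨ T1 Q ω v ∨ T4 Q ω v)
    (fun ω v g hv h => h.imp (·.map hv g) (·.imp (·.map hv g) (·.map hv g))) ty
  by_cases c0 : ∃ (ω : Ω) (v : V), Q v = 0 ∧ v ≠ 0 ∧ T0 Q ω v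
  · obtain ⟨ω, v, hv, hv0, h⟩ := c0
    have := bound_T0 hQ (by omega) hv hv0 h fun ω u u' hu hu0 hu' a1 a2 => by
      by_contra hn
      have := (T0.big hQ (by omega) (hω ω) (N := Nat.card V + 1) (fun v hv hv0 =>
        (ty ω v hv hv0).imp_right (·.imp_right Or.inl)) hu hu0 hu' a1 a2 hn).2
      have := Finite.card_subtype_le fun x : V => Q x = 0 ∧ T0 Q ω x
      omega
    exact Nat.le_of_mul_le_mul_right (c := Nat.card F - 1) (by omega) (by omega)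
  push Not at c0
  by_cases c1 : ∃ (ω : Ω) (v : V), Q v = 0 ∧ v ≠ 0 ∧ T1 Q ω v
  · obtain ⟨ω, v, hv, hv0, h⟩ := c1
    obtain ⟨y, hy⟩ := exists_good hQ (c0 ω) (fun v hv hv0 =>
      (ty ω v hv hv0).resolve_left (c0 ω v hv hv0)) (by omega) hv hv0 h
    exact Nat.le_of_mul_le_mul_right ((h1 _ hy.1).trans (bound_T1 hQ (by omega) c0 hy))
      (by split_ifs <;> omega)
  push Not at c1
  exact h4.trans (bound_T4 S h₁ h5 fun ω v hv hv0 =>
    ((ty ω v hv hv0).resolve_left (c0 ω v hv hv0)).resolve_left (c1 ω v hv hv0))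

include h₁ in
theorem not_T3_four [Nonempty Ω] (h5 : 5 ≤ finrank F V₁) (hq : 4 ≤ Nat.card F) {N : ℕ}
    (h3 : ∀ (ω : Ω) v, Q v = 0 → v ≠ 0 → T3 Q N ω v)
    (hO : ∀ O : (orthRad S h₁).Orb Ω, (∀ (c : F), ∀ x ∈ (orthRad S h₁).A O,
      c • x ∈ (orthRad S h₁).A O) ∧ ∀ O', (∀ x ∈ (orthRad S h₁).A O, x ∈ (orthRad S h₁).A O') →
      O = O') : False := by
  let R := orthRad S h₁
  have hd := S.finrank_eq
  obtain ⟨c, hc⟩ : ∃ c : F, c ∉ ({0, 1, -1} : Finset F) := by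
    have := Fintype.ofFinite F
    by_contra hn
    push Not at hn
    have h1 := Finset.card_le_card (s := Finset.univ) fun c _ => hn c
    have h2 : ({0, 1, -1} : Finset F).card ≤ 3 := Finset.card_le_three
    rw [Finset.card_univ, ← Nat.card_eq_fintype_card] at h1
    omega
  simp only [Finset.mem_insert, Finset.mem_singleton, not_or] at hc
  have hm0 : c * c ≠ 0 := mul_ne_zero hc.1 hc.1
  have hm1 : c * c ≠ 1 := fun h => (mul_self_eq_one_iff.1 h).elim hc.2.1 hc.2.2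
  obtain ⟨h, h1, h2, h4⟩ := exists_torus S h₁ (by omega) hc.1
  obtain ⟨σ, σ1, σ2⟩ := (orthRad_compat S h₁ h hm0 h1).exists_perm (Ω := Ω)
  obtain ⟨ω⟩ := ‹Nonempty Ω›
  have e : R.orb ω = R.orb (h • ω) := by
    rw [← σ1]
    refine (hO _).2 _ fun x hx => ?_
    have := (σ2 _ _).2 ((hO _).1 (c * c) x hx)
    rwa [h4, S.pj, smul_smul, inv_mul_cancel₀ hm0, one_smul] at this
  obtain ⟨x, hx⟩ := R.orb_eq_iff.1 e
  refine not_all_T3 S h₁ h5 (h3 (R.E ((1 - c * c)⁻¹ • x) • ω)) ?_ hm0 hm1 h1 h2 h4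
  have e1 := mul_inv_eq_iff_eq_mul.1 (Ei_conj h S.hu (S.uj ((1 - c * c)⁻¹ • x)))
  rw [h1, h4, Ei_smul S.hu (S.uj _), ← map_smul] at e1
  have e2 : h * R.E ((1 - c * c)⁻¹ • x) = R.E ((c * c) • (1 - c * c)⁻¹ • x) * h := e1
  rw [← mul_smul, e2, mul_smul, ← hx, ← mul_smul, ← R.E_add]
  congr 2
  have := mul_inv_cancel₀ (sub_ne_zero.2 hm1.symm)
  match_scalars
  linear_combination -this

include h₁ in
theorem bound_T0_big (htr : ∀ ω ω' : Ω, ∃ g : EG Q, g • ω = ω') (h4 : 4 ≤ finrank F V) {N : ℕ}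
    {ω₀ : Ω} (h : N ≤ Nat.card {x : V // Q x = 0 ∧ T0 Q ω₀ x}) :
    Nat.card Ω * (N - 1) ≤ Nat.card {ω : Ω // T0 Q ω S.u} * (cnt Q 0 - 1) := by
  have : Finite V := Module.finite_of_finite F
  have := card_mul_le_of_rel (X := Ω) (Ω := {x : V // Q x = 0 ∧ x ≠ 0})
    (fun ω x => T0 Q ω x.1) (a := N - 1) (b := Nat.card {ω : Ω // T0 Q ω S.u}) (fun ω => by
      obtain ⟨g, rfl⟩ := htr ω₀ ω
      have := Nat.card_le_card_of_injective
        (β := Option {x : {x : V // Q x = 0 ∧ x ≠ 0} // T0 Q (g • ω₀) x.1})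
        (fun x : {x : V // Q x = 0 ∧ T0 Q ω₀ x} => if hx : x.1 = 0 then none else
          some ⟨⟨ap g.1 x.1, by simpa using x.2.1, by rwa [Ne, ap_eq_zero]⟩,
            x.2.2.map x.2.1 g⟩) fun a b hab => by
        by_cases ha : a.1 = 0 <;> by_cases hb : b.1 = 0
        · exact Subtype.ext (ha.trans hb.symm)
        · simp [ha, hb] at hab
        · simp [ha, hb] at hab
        · simp only [ha, hb, dif_neg, not_false_eq_true, Option.some.injEq, Subtype.mk.injEq] at hab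
          exact Subtype.ext (ap_injective _ hab)
      rw [Finite.card_option] at this
      omega) (fun x => by
      obtain ⟨g, hg, e⟩ := (S.nd_of h₁).EG_trans_sing h4 x.2.1 x.2.2 S.hu
        (ne_zero_of_polar_eq_one S.huw)
      exact Nat.card_le_card_of_injective (fun ω => ⟨(⟨g, hg⟩ : EG Q) • ω.1,
        e ▸ ω.2.map x.2.1 ⟨g, hg⟩⟩) fun a b hab =>
          Subtype.ext (MulAction.injective _ (congrArg Subtype.val hab)))
  rw [← card_sing_ne_zero, Nat.add_sub_cancel, mul_comm _ (Nat.card {x : V // Q x = 0 ∧ x ≠ 0})]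
  exact this

/-- The numerical conditions used in the two exceptional dimensions. -/
def SpHyp (Q : QuadraticForm F V) (Q₁ : QuadraticForm F V₁) (k a₁ M : ℕ) : Prop :=
  2 ≤ k ∧ Nat.card F ^ 2 * ((Nat.card F + 1) * (Nat.card F ^ k - Nat.card F) + Nat.card F) +
      (Nat.card F - 1) * Nat.card V₁ = Nat.card F ^ 2 * cnt Q₁ 0 ∧
    M ≤ (Nat.card F + 2) * cnt Q₁ 0 ∧ ∃ K,
    K * (Nat.card F ^ k - 1) + (Nat.card F + 1) ≤ (Nat.card F + 1) * cnt Q₁ 0 ∧
    (M ≤ K * Nat.card F ^ k ∨ (4 ≤ Nat.card F ∧ M ≤ K * Nat.card F ^ k + a₁ ∧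
      ∀ f m, m * (Nat.card F ^ (k + 1) - 1) ≤ f * (cnt Q 0 - 1) → f + K * Nat.card F ^ k ≤ m →
        M ≤ m))

theorem main_special (h5 : 5 ≤ finrank F V₁) (htr : ∀ ω ω' : Ω, ∃ g : EG Q, g • ω = ω')
    (hω : ∀ ω : Ω, ∃ g : EG Q, g • ω ≠ ω) {k a₁ M : ℕ} (ha : ∀ t, t ≠ 0 → a₁ ≤ cnt Q₁ t)
    (hW : ∀ U : Submodule F V₁, (∀ x ∈ U, Q₁ x = 0) → Nat.card U ≤ Nat.card F ^ k)
    (hS : SpHyp Q Q₁ k a₁ M) (h0 : M * (Nat.card F - 1) + 1 ≤ cnt Q 0)
    {O₀ : (orthRad S h₁).Orb Ω} (hO : TS S h₁ O₀)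
    (hO' : ∀ y, ∃ z ∈ (orthRad S h₁).A O₀, z ∉ Submodule.span F {y}) : M ≤ Nat.card Ω := by
  have : Finite V := Module.finite_of_finite F
  have := Fintype.ofFinite V₁
  have hd := S.finrank_eq
  have hQ := S.nd_of h₁
  have hq : 2 ≤ Nat.card F := Finite.one_lt_card
  obtain ⟨hk, hZ, hM, K, hK, hS⟩ := hS
  by_contra hlt
  push Not at hlt
  let R := orthRad S h₁
  have sp := fun y (hy : Q₁ y = 0) (hy0 : y ≠ 0) =>
    ts_special h5 hk hW hZ (hlt.trans_le hM) hO hO' hy hy0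
  let T : Finset (R.Orb Ω) := Finset.univ.filter fun O => ∃ y ∈ R.A O, y ≠ 0 ∧ Q₁ y = 0
  have memT : ∀ O, O ∈ T ↔ ∃ y ∈ R.A O, y ≠ 0 ∧ Q₁ y = 0 := fun O => by simp [T]
  have hT : K * Nat.card F ^ k ≤ ∑ O ∈ T, Nat.card (R.A O) := by
    have h1 := card_add_le_sum_A S h₁ T 0 (Nat.card F + 1) fun y hy0 hy => by
      rw [← (sp y hy hy0).1]
      refine Finset.card_le_card fun O h => ?_
      have := (R.mem_C.1 h).2
      exact R.mem_C.2 ⟨(memT O).2 ⟨y, this, hy0, hy⟩, this⟩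
    have h2 : ∑ O ∈ T, Nat.card (R.A O) = T.card * Nat.card F ^ k := by
      rw [← smul_eq_mul, ← Finset.sum_const]
      refine Finset.sum_congr rfl fun O h => ?_
      obtain ⟨y, y1, y2, y3⟩ := (memT O).1 h
      exact ((sp y y3 y2).2.1 O y1).2.2.1
    rw [if_pos rfl] at h1
    rw [h2] at h1 ⊢
    have h3 : 1 < Nat.card F ^ k := Nat.one_lt_pow (by omega) hq
    refine Nat.mul_le_mul_right _ (Nat.le_of_mul_le_mul_right (c := Nat.card F ^ k - 1) ?_
      (by omega))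
    rw [Nat.mul_sub_one T.card]
    omega
  have split : ∑ O ∈ T, Nat.card (R.A O) + ∑ O ∈ Tᶜ, Nat.card (R.A O) = Nat.card Ω := by
    rw [Finset.sum_add_sum_compl, card_eq_sum_A' S h₁]
  obtain hS | ⟨h4, hM1, hF⟩ := hS
  · omega
  have bot : ∀ O, O ∉ T → ∀ y ∈ R.A O, y = 0 := by
    intro O hO y hy
    by_contra hy0
    have hQy : Q₁ y ≠ 0 := fun h => hO ((memT O).2 ⟨y, hy, hy0, h⟩)
    have h1 := mul_sum_le_sum_A S h₁ Tᶜ {Q₁ y} 1 fun y' h => by
      have h' := Finset.mem_singleton.1 h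
      obtain ⟨g, σ, e, hσ⟩ := exists_perm_of_Q_eq S h₁ (Ω := Ω) (by omega) hy0
        (fun h0 => hQy (by rw [← h', h0, map_zero])) h'.symm
      refine Finset.card_pos.2 ⟨σ O, R.mem_C.2 ⟨Finset.mem_compl.2 fun hm => hO ?_,
        e ▸ (hσ O y).2 hy⟩⟩
      obtain ⟨z, z1, z2, z3⟩ := (memT _).1 hm
      exact (memT O).2 ⟨ap g⁻¹ z, (hσ O _).1 (by rwa [ap_ap_inv]), by rwa [Ne, ap_eq_zero],
        by rwa [Q_ap]⟩
    rw [Finset.sum_singleton, one_mul] at h1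
    have := ha _ hQy
    have : cnt Q₁ (Q₁ y) ≤ ∑ O ∈ Tᶜ, Nat.card (R.A O) := h1
    omega
  have ty := all_of_u S h₁ (by omega)
    (fun (ω : Ω) v => T0 Q ω v ∨ T3 Q (Nat.card F ^ (k + 1)) ω v)
    (fun ω v g hv h => h.imp (·.map hv g) (·.map hv g)) fun ω => by
      by_cases h : R.orb ω ∈ T
      · obtain ⟨y, y1, y2, y3⟩ := (memT _).1 h
        obtain ⟨a1, a2, a3, -⟩ := (sp y y3 y2).2.1 _ y1
        exact Or.inr (T3_of_ts S h₁ hW a1 a2 a3)
      · exact Or.inl (T0_of_bot S h₁ (bot _ h))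
  by_cases c0 : ∃ (ω : Ω) (v : V), Q v = 0 ∧ v ≠ 0 ∧ T0 Q ω v
  · obtain ⟨ω, v, hv, hv0, h⟩ := c0
    by_cases hs : ∀ (ω : Ω) u u', Q u = 0 → u ≠ 0 → Q u' = 0 → T0 Q ω u → T0 Q ω u' →
      u' ∈ Submodule.span F {u}
    · have := bound_T0 hQ (by omega) hv hv0 h hs
      exact hlt.not_ge (Nat.le_of_mul_le_mul_right (c := Nat.card F - 1) (by omega) (by omega))
    push Not at hs
    obtain ⟨ω, u, u', hu, hu0, hu', a1, a2, hn⟩ := hs
    have h1 := (T0.big hQ (by omega) (hω ω) (fun v hv hv0 =>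
      (ty ω v hv hv0).imp_right fun h => Or.inr (Or.inr h)) hu hu0 hu' a1 a2 hn).2
    refine hlt.not_ge (hF _ _ (bound_T0_big S h₁ htr (by omega) h1) ?_)
    have h2 : Nat.card {ω : Ω // T0 Q ω S.u} ≤ Tᶜ.card := by
      rw [← Nat.card_eq_finsetCard]
      refine Nat.card_le_card_of_injective (fun ω => (⟨R.orb ω.1, Finset.mem_compl.2 fun hm => by
        obtain ⟨y, y1, y2, -⟩ := (memT _).1 hm
        exact y2 (eq_zero_of_T0 S h₁ ω.2 y1)⟩ : {O // O ∈ Tᶜ})) fun a b hab => Subtype.ext ?_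
      obtain ⟨x, hx⟩ := R.orb_eq_iff.1 (congrArg Subtype.val hab)
      rw [← hx]
      exact (a.2 _ (S.uj x)).2.symm
    have h3 : Tᶜ.card ≤ ∑ O ∈ Tᶜ, Nat.card (R.A O) := by
      rw [Finset.card_eq_sum_ones]
      exact Finset.sum_le_sum fun O _ => Nat.card_pos
    omega
  push Not at c0
  have : Nonempty Ω := let ⟨ω, _⟩ := R.orb_surj O₀; ⟨ω⟩
  refine not_T3_four S h₁ h5 h4 (fun (ω : Ω) v hv hv0 =>
    (ty ω v hv hv0).resolve_left (c0 ω v hv hv0)) fun O => ?_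
  have hm : O ∈ T := by
    by_contra hm
    obtain ⟨ω, rfl⟩ := R.orb_surj O
    exact c0 ω _ S.hu (ne_zero_of_polar_eq_one S.huw) (T0_of_bot S h₁ (bot _ hm))
  obtain ⟨y, y1, y2, y3⟩ := (memT _).1 hm
  obtain ⟨-, a2, -, z, z1, z2⟩ := (sp y y3 y2).2.1 _ y1
  exact ⟨a2, fun O' h => (sp y y3 y2).2.2 O O' y1 (h y y1) z z1 (h z z1) z2⟩

include S h₁ in
/-- The lower bound for the degree of a nontrivial transitive action. -/
theorem orth_main [Nonempty Ω] (h5 : 5 ≤ finrank F V₁)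
    (htr : ∀ ω ω' : Ω, ∃ g : EG Q, g • ω = ω') (hω : ∀ ω : Ω, ∃ g : EG Q, g • ω ≠ ω)
    {k a₁ M : ℕ} (ha : ∀ t, t ≠ 0 → a₁ ≤ cnt Q₁ t) (hN : NsHyp Q₁ a₁ M)
    (hW : ∀ U : Submodule F V₁, (∀ x ∈ U, Q₁ x = 0) → Nat.card U ≤ Nat.card F ^ k)
    (hS : (∃ Z, Nat.card F ^ 2 * (Z + Nat.card F) + (Nat.card F - 1) * Nat.card V₁ =
        Nat.card F ^ 2 * cnt Q₁ 0 ∧
        ∀ c, Z ≤ c * (Nat.card F ^ k - Nat.card F) → M ≤ c * cnt Q₁ 0) ∨ SpHyp Q Q₁ k a₁ M)
    (h0 : M * (Nat.card F - 1) + 1 ≤ cnt Q 0)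
    (h1 : ∀ t, t ≠ 0 → M * (if (2 : F) = 0 then 1 else 2) ≤ cnt Q t)
    (h4 : M ≤ 2 * Nat.card V₁) : M ≤ Nat.card Ω := by
  have := Fintype.ofFinite V₁
  let R := orthRad S h₁
  by_cases hsp : ∃ O : R.Orb Ω, TS S h₁ O ∧ ∀ y, ∃ z ∈ R.A O, z ∉ Submodule.span F {y}
  · obtain ⟨O, hO, hO'⟩ := hsp
    rcases hS with ⟨Z, hZ, hc⟩ | hS
    · obtain ⟨c, c1, c2⟩ := ts_bound h5 hW hZ hO hO'
      exact (hc c c1).trans c2
    · exact main_special S h₁ h5 htr hω ha hW hS h0 hO hO'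
  by_contra hlt
  refine hlt (main_generic S h₁ h5 hω (fun ω => ?_) h0 h1 h4)
  by_cases hl : ∀ y, ∃ z ∈ R.A (R.orb ω), z ∉ Submodule.span F {y}
  · have : ¬ TS S h₁ (R.orb ω) := fun h => hsp ⟨_, h, hl⟩
    rw [TS] at this
    push Not at this
    obtain ⟨y, hy, hQ⟩ := this
    exact Or.inr (Or.inr (T4_of_top S h₁
      (A_eq_top_of_nonsing S h₁ h5 ha hN (not_le.1 hlt) hl hy hQ)))
  · push Not at hl
    obtain ⟨y, hy⟩ := hl
    exact (T01_of_line S h₁ hy).imp_right Or.inl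

include S h₁ in
theorem orth_index (h5 : 5 ≤ finrank F V₁)
    {k a₁ M : ℕ} (ha : ∀ t, t ≠ 0 → a₁ ≤ cnt Q₁ t) (hN : NsHyp Q₁ a₁ M)
    (hW : ∀ U : Submodule F V₁, (∀ x ∈ U, Q₁ x = 0) → Nat.card U ≤ Nat.card F ^ k)
    (hS : (∃ Z, Nat.card F ^ 2 * (Z + Nat.card F) + (Nat.card F - 1) * Nat.card V₁ =
        Nat.card F ^ 2 * cnt Q₁ 0 ∧
        ∀ c, Z ≤ c * (Nat.card F ^ k - Nat.card F) → M ≤ c * cnt Q₁ 0) ∨ SpHyp Q Q₁ k a₁ M)
    (h0 : M * (Nat.card F - 1) + 1 ≤ cnt Q 0)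
    (h1 : ∀ t, t ≠ 0 → M * (if (2 : F) = 0 then 1 else 2) ≤ cnt Q t)
    (h4 : M ≤ 2 * Nat.card V₁) {H : Subgroup (EG Q)} (hH : H ≠ ⊤) : M ≤ H.index := by
  have : Finite V := Module.finite_of_finite F
  have : Finite (V ≃ₗ[F] V) := Finite.of_injective _ (DFunLike.coe_injective (F := V ≃ₗ[F] V))
  refine orth_main S h₁ (Ω := EG Q ⧸ H) h5 (fun a b => MulAction.exists_smul_eq _ a b)
    (fun ω => ?_) ha hN hW hS h0 h1 h4
  by_contra hc
  push Not at hc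
  refine hH (Subgroup.index_eq_one.1 (Nat.card_eq_one_iff_unique.2 ⟨⟨fun a b => ?_⟩, ⟨ω⟩⟩))
  obtain ⟨g, rfl⟩ := MulAction.exists_smul_eq (EG Q) ω a
  obtain ⟨g', rfl⟩ := MulAction.exists_smul_eq (EG Q) ω b
  rw [hc, hc]

end Cfsg.Agent.H66
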