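import Cfsg.Agent.H66.OrthCnt

/-!
The minimal index of a proper subgroup of the orthogonal groups of the standard forms.
-/

set_option autoImplicit false
set_option linter.unusedSectionVars false

namespace Cfsg.Agent.H66

open Module QuadraticMap Cfsg.Agent.H11 Classical

theorem ns_arith {r P M a : ℕ} (hP : 17 * (r + 1) ^ 2 ≤ 16 * (r * P)) (hr : 0 < r)
    (h : 16 * (M * r) ≤ 17 * (r + 1) ^ 2 * a) : M ≤ P * a := by
  refine Nat.le_of_mul_le_mul_left (c := 16 * r) ?_ (by omega)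
  have := Nat.mul_le_mul_right a hP
  nlinarith

theorem c_arith {q e c d : ℕ} (hq : 1 ≤ q) (he : 1 ≤ e)
    (h : q * (d * e) ≤ c * (q * (e + 1) - q)) : d ≤ c := by
  rw [mul_add, mul_one, Nat.add_sub_cancel, mul_left_comm c] at h
  exact Nat.le_of_mul_le_mul_right (Nat.le_of_mul_le_mul_left h hq) he

theorem sp_arith {q d K f m M : ℕ} (hq : 1 ≤ q) (hd : 1 ≤ d) {e : ℕ}
    (h1 : m * d ≤ f * (d * (q * e + 1))) (h2 : f + K * e ≤ m) (he : 1 ≤ e)
    (h3 : ∀ f, K ≤ f * q → M ≤ f + K * e) : M ≤ m := by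
  rw [mul_left_comm, mul_comm m] at h1
  have h4 := Nat.le_of_mul_le_mul_left h1 hd
  refine (h3 f (Nat.le_of_mul_le_mul_right (c := e) ?_ he)).trans h2
  nlinarith

variable {F : Type*} [Field F] [Finite F]

theorem odd_min (h2 : (2 : F) ≠ 0) (j : ℕ) {M : ℕ}
    (hM : (5 ≤ Nat.card F ∧ M * (Nat.card F - 1) + 1 ≤ (Nat.card F ^ (j + 3)) ^ 2) ∨
      (Nat.card F = 3 ∧ 2 * M + 3 ^ (j + 3) ≤ (3 ^ (j + 3)) ^ 2))
    {H : Subgroup (EG (qOdd F (j + 3)))} (hH : H ≠ ⊤) : M ≤ H.index := by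
  have z : ∀ m, cnt (qOdd F m) 0 = (Nat.card F ^ m) ^ 2 := fun m => by
    have := cnt_odd (F := F) 0 m
    rw [cnt_zero_of_aniso (Q := qOdd F 0) qOdd_zero_aniso] at this
    omega
  have a : ∀ m t, (Nat.card F ^ m) ^ 2 ≤ cnt (qOdd F m) t + Nat.card F ^ m := fun m t => by
    rw [cnt_odd]; omega
  have hnsq := sq_le_nsq (F := F)
  have hX1 : Nat.card F ^ (j + 2) ≤ (Nat.card F ^ (j + 2)) ^ 2 := Nat.le_self_pow (by omega) _
  obtain ⟨a₁, ha₁⟩ := Nat.exists_eq_add_of_le' hX1
  have hM' : (5 ≤ Nat.card F ∧ M * (Nat.card F - 1) + 1 ≤ (Nat.card F ^ (j + 3)) ^ 2) ∨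
      (Nat.card F = 3 ∧ 2 * M + Nat.card F ^ (j + 3) ≤ (Nat.card F ^ (j + 3)) ^ 2) :=
    hM.imp_right fun h => ⟨h.1, by rw [h.1]; exact h.2⟩
  have h0 : M * (Nat.card F - 1) + 1 ≤ (Nat.card F ^ (j + 3)) ^ 2 := by
    rcases hM with h | ⟨h, h'⟩
    · exact h.2
    · rw [h]
      have : 0 < 3 ^ (j + 3) := by positivity
      omega
  obtain ⟨r, hr⟩ : ∃ r, Nat.card F = r + 2 + 1 :=
    ⟨Nat.card F - 3, by rcases hM with h | h <;> omega⟩
  clear hM
  refine orth_index (splitOdd F (j + 2)) (nd_qOdd h2 _) (by simp; omega) (k := j + 2) (a₁ := a₁)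
    (fun t _ => by have := a (j + 2) t; omega) ?_ (wittLe_odd h2 _) ?_ (by rwa [z])
    (fun t _ => ?_) ?_ hH
  · rw [NsHyp, z, ← mul_assoc]
    have hX : Nat.card F ^ 2 ≤ Nat.card F ^ (j + 2) := Nat.pow_le_pow_right (by omega) (by omega)
    rw [pow_succ _ (j + 2)] at hM'
    generalize Nat.card F ^ (j + 2) = X at *
    generalize Nat.card F = q at *
    subst hr
    simp only [Nat.add_sub_cancel] at *
    rcases hM' with h | ⟨h, h'⟩
    · refine Or.inl (ns_arith (hnsq (by omega)) (by omega) ?_)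
      have h3 : 25 ≤ X := by nlinarith
      have h4 : 16 * X ^ 2 ≤ 17 * a₁ := by nlinarith
      have h5 := Nat.mul_le_mul_left ((r + 2 + 1) ^ 2) h4
      nlinarith
    · obtain rfl : r = 0 := by omega
      refine Or.inr (Or.inl ⟨rfl, ?_, ?_⟩) <;> nlinarith
  · rw [SpHyp, z, z, card_odd_space]
    rcases j with _ | j
    · right
      generalize Nat.card F = q at *
      subst hr
      simp only [Nat.add_sub_cancel, zero_add] at *
      have e1 : (r + 2 + 1) ^ 2 - (r + 2 + 1) = (r + 3) * (r + 2) := Nat.sub_eq_of_eq_add (by ring)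
      have e2 : (r + 2 + 1) ^ 2 - 1 = (r + 4) * (r + 2) := Nat.sub_eq_of_eq_add (by ring)
      have h5 : M ≤ r + 4 + (r + 4) * ((r + 3) ^ 2 + 1) * (r + 3) ^ 2 :=
        Nat.le_of_mul_le_mul_right (c := r + 2) (by nlinarith) (by omega)
      refine ⟨le_rfl, by rw [e1]; ring, by nlinarith, (r + 4) * ((r + 3) ^ 2 + 1),
        by rw [e2]; nlinarith, ?_⟩
      rcases hM' with h | ⟨h, h'⟩
      · refine Or.inr ⟨by omega, by nlinarith, fun f m h1 h2 => ?_⟩
        have e3 : (r + 2 + 1) ^ (2 + 1) - 1 = (r + 2) * ((r + 3) ^ 2 + r + 4) :=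
          Nat.sub_eq_of_eq_add (by ring)
        have e4 : ((r + 2 + 1) ^ (2 + 1)) ^ 2 - 1 = (r + 2) * ((r + 3) ^ 2 + r + 4) *
            ((r + 3) * (r + 3) ^ 2 + 1) := Nat.sub_eq_of_eq_add (by ring)
        rw [e3, e4] at h1
        refine sp_arith (by omega) (by nlinarith) h1 h2 (by nlinarith) fun f hf => h5.trans ?_
        have : r + 4 ≤ f := Nat.le_of_mul_le_mul_right (c := r + 3) (by nlinarith) (by omega)
        omega
      · obtain rfl : r = 0 := by omega
        left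
        omega
    · left
      have hX : Nat.card F ^ 2 ≤ Nat.card F ^ (j + 2) := Nat.pow_le_pow_right (by omega) (by omega)
      have e1 : Nat.card F ^ (j + 1 + 2) = Nat.card F * Nat.card F ^ (j + 2) := by ring
      have e2 : Nat.card F ^ (j + 1 + 3) = Nat.card F ^ 2 * Nat.card F ^ (j + 2) := by ring
      rw [e1]
      rw [e2] at h0
      generalize Nat.card F ^ (j + 2) = X at *
      obtain ⟨e, rfl⟩ : ∃ e, X = e + 1 := ⟨X - 1, by
        have : 0 < Nat.card F ^ 2 := by rw [hr]; positivity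
        omega⟩
      generalize Nat.card F = q at *
      subst hr
      simp only [Nat.add_sub_cancel] at *
      refine ⟨(r + 2 + 1) * ((e + 2) * e), by ring, fun c hc => ?_⟩
      have h3 := c_arith (by omega) (by nlinarith) hc
      have h4 : (r + 2 + 1) ^ 2 ≤ c := by omega
      have h5 := Nat.mul_le_mul_right (((r + 2 + 1) * (e + 1)) ^ 2) h4
      nlinarith
  · rw [if_neg h2]
    have := a (j + 3) t
    have hX : Nat.card F ^ 1 ≤ Nat.card F ^ (j + 3) := Nat.pow_le_pow_right (by omega) (by omega)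
    generalize Nat.card F ^ (j + 3) = X at *
    generalize Nat.card F = q at *
    subst hr
    simp only [Nat.add_sub_cancel] at *
    rcases hM' with h | ⟨h, h'⟩
    · show M * 2 ≤ cnt (qOdd F (j + 3)) t
      nlinarith
    · show M * 2 ≤ cnt (qOdd F (j + 3)) t
      omega
  · rw [card_odd_space]
    rw [pow_succ _ (j + 2)] at h0
    generalize Nat.card F ^ (j + 2) = X at *
    generalize Nat.card F = q at *
    subst hr
    simp only [Nat.add_sub_cancel] at *
    exact Nat.le_of_mul_le_mul_right (c := r + 2) (by nlinarith) (by omega)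

end Cfsg.Agent.H66
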