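import Cfsg.Agent.H66.OrthLin

/-!
The Eichler group of a singular vector acting on a finite `Ω(Q)`-set.
-/

set_option autoImplicit false
set_option linter.unusedSectionVars false

namespace Cfsg.Agent.H66

open Module QuadraticMap Cfsg.Agent.H11 Classical

variable {F V : Type*} [Field F] [AddCommGroup V] [Module F V] {Q : QuadraticForm F V}

/-- The Eichler transformation as an element of `EG Q` (the identity if it is not defined). -/
noncomputable def Ei (Q : QuadraticForm F V) (v x : V) : EG Q :=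
  if h : Q v = 0 ∧ polar Q v x = 0 then ⟨eich h.1 h.2, eich_mem_EG h.1 h.2⟩ else 1

theorem Ei_coe {v x : V} (hv : Q v = 0) (h : polar Q v x = 0) : (Ei Q v x).1 = eich hv h := by
  rw [Ei, dif_pos ⟨hv, h⟩]

theorem ap_Ei {v x : V} (hv : Q v = 0) (h : polar Q v x = 0) (y : V) :
    ap (Ei Q v x).1 y = y + polar Q y v • x - polar Q y x • v - (Q x * polar Q y v) • v := by
  rw [Ei_coe hv h, ap_eich]

theorem ap_Ei_of_perp {v x y : V} (hv : Q v = 0) (h : polar Q v x = 0) (hy : polar Q v y = 0) :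
    ap (Ei Q v x).1 y = y - polar Q y x • v := by
  rw [ap_Ei hv h, polar_comm Q y v, hy]; simp

theorem ap_Ei_fix {v x y : V} (hv : Q v = 0) (h : polar Q v x = 0) (hy : polar Q v y = 0)
    (hy' : polar Q y x = 0) : ap (Ei Q v x).1 y = y := by
  rw [ap_Ei_of_perp hv h hy, hy']; simp

theorem Ei_add {v x y : V} (hv : Q v = 0) (hx : polar Q v x = 0) (hy : polar Q v y = 0) :
    Ei Q v (x + y) = Ei Q v x * Ei Q v y := by
  have h : polar Q v (x + y) = 0 := by qsimp; rw [hx, hy, add_zero]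
  apply Subtype.ext
  rw [Subgroup.coe_mul, Ei_coe hv h, Ei_coe hv hx, Ei_coe hv hy, eich_mul]

theorem Ei_self {v : V} (hv : Q v = 0) (c : F) : Ei Q v (c • v) = 1 := by
  have h : polar Q v (c • v) = 0 := by qsimp; rw [hv]; ring
  apply Subtype.ext
  rw [Ei_coe hv h, eich_self_smul]; rfl

theorem Ei_zero {v : V} (hv : Q v = 0) : Ei Q v 0 = 1 := by
  simpa using Ei_self hv 0

theorem Ei_neg {v x : V} (hv : Q v = 0) (hx : polar Q v x = 0) : Ei Q v (-x) = (Ei Q v x)⁻¹ := by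
  rw [eq_inv_iff_mul_eq_one, ← Ei_add hv (by qsimp; rw [hx, neg_zero]) hx, neg_add_cancel,
    Ei_zero hv]

theorem Ei_add_self {v x : V} (hv : Q v = 0) (hx : polar Q v x = 0) (c : F) :
    Ei Q v (x + c • v) = Ei Q v x := by
  rw [Ei_add hv hx (by qsimp; rw [hv]; ring), Ei_self hv, mul_one]

theorem Ei_smul {v x : V} (hv : Q v = 0) (hx : polar Q v x = 0) (c : F) :
    Ei Q (c • v) x = Ei Q v (c • x) := by
  apply Subtype.ext
  rw [Ei_coe (by qsimp; rw [hv, mul_zero]) (by qsimp; rw [hx, mul_zero]),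
    Ei_coe hv (by qsimp; rw [hx, mul_zero]), eich_smul]

theorem Ei_swap {v x : V} (hv : Q v = 0) (hx : Q x = 0) (h : polar Q v x = 0) :
    Ei Q x v = (Ei Q v x)⁻¹ := by
  rw [← Ei_neg hv h]
  refine Subtype.ext (OG_ext fun y => ?_)
  rw [ap_Ei hx (by rwa [polar_comm]), ap_Ei hv (by qsimp; rw [h, neg_zero])]
  qsimp
  rw [hv, hx]
  module

theorem Ei_conj (g : EG Q) {v x : V} (hv : Q v = 0) (h : polar Q v x = 0) :
    g * Ei Q v x * g⁻¹ = Ei Q (ap g.1 v) (ap g.1 x) := by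
  apply Subtype.ext
  rw [Ei_coe (by simpa using hv) (by simpa using h), Subgroup.coe_mul, Subgroup.coe_mul,
    Ei_coe hv h, Subgroup.coe_inv, conj_eich]

theorem Ei_pow {v x : V} (hv : Q v = 0) (h : polar Q v x = 0) (n : ℕ) :
    Ei Q v x ^ n = Ei Q v ((n : F) • x) := by
  induction n with
  | zero => simp [Ei_zero hv]
  | succ n ih =>
    rw [pow_succ, ih, ← Ei_add hv (by qsimp; rw [h, mul_zero]) h, Nat.cast_succ, add_smul, one_smul]

theorem Ei_pow_char {v x : V} (hv : Q v = 0) (h : polar Q v x = 0) :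
    Ei Q v x ^ ringChar F = 1 := by
  rw [Ei_pow hv h, ringChar.Nat.cast_ringChar, zero_smul, Ei_zero hv]

section Action

variable {Ω : Type*} [MulAction (EG Q) Ω]

/-- The Eichler transformation of `v` and `x` is defined and fixes `ω`. -/
def Fx (Q : QuadraticForm F V) {Ω : Type*} [MulAction (EG Q) Ω] (ω : Ω) (v x : V) : Prop :=
  polar Q v x = 0 ∧ Ei Q v x • ω = ω

variable {ω : Ω} {v x y : V}

theorem Fx.map (hv : Q v = 0) (h : Fx Q ω v x) (g : EG Q) :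
    Fx Q (g • ω) (ap g.1 v) (ap g.1 x) :=
  ⟨by simpa using h.1, by
    rw [← Ei_conj g hv h.1, ← mul_smul, inv_mul_cancel_right, mul_smul, h.2]⟩

theorem Fx.map_fix (hv : Q v = 0) (h : Fx Q ω v x) {g : EG Q} (hg : g • ω = ω) :
    Fx Q ω (ap g.1 v) (ap g.1 x) := by
  have := h.map hv g
  rwa [hg] at this

theorem Fx.add (hv : Q v = 0) (h : Fx Q ω v x) (h' : Fx Q ω v y) : Fx Q ω v (x + y) :=
  ⟨by qsimp; rw [h.1, h'.1, add_zero], by rw [Ei_add hv h.1 h'.1, mul_smul, h'.2, h.2]⟩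

theorem Fx.neg (hv : Q v = 0) (h : Fx Q ω v x) : Fx Q ω v (-x) :=
  ⟨by qsimp; rw [h.1, neg_zero], by rw [Ei_neg hv h.1, inv_smul_eq_iff, h.2]⟩

theorem Fx.sub (hv : Q v = 0) (h : Fx Q ω v x) (h' : Fx Q ω v y) : Fx Q ω v (x - y) := by
  rw [sub_eq_add_neg]; exact h.add hv (h'.neg hv)

theorem fx_self (hv : Q v = 0) (c : F) : Fx Q ω v (c • v) :=
  ⟨by qsimp; rw [hv]; ring, by rw [Ei_self hv, one_smul]⟩

theorem Fx.swap (hv : Q v = 0) (hx : Q x = 0) (h : Fx Q ω v x) : Fx Q ω x v :=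
  ⟨by rw [polar_comm, h.1], by rw [Ei_swap hv hx h.1, inv_smul_eq_iff, h.2]⟩

theorem Fx.smul_left (hv : Q v = 0) (hx : polar Q v x = 0) {c : F} (h : Fx Q ω v (c • x)) :
    Fx Q ω (c • v) x :=
  ⟨by qsimp; rw [hx, mul_zero], by rw [Ei_smul hv hx, h.2]⟩

theorem Fx.smul_right (hv : Q v = 0) (hx : polar Q v x = 0) {c : F} (h : Fx Q ω (c • v) x) :
    Fx Q ω v (c • x) :=
  ⟨by qsimp; rw [hx, mul_zero], by rw [← Ei_smul hv hx, h.2]⟩

end Action

variable {V₁ : Type*} [AddCommGroup V₁] [Module F V₁] {Q₁ : QuadraticForm F V₁}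

theorem ext_mem_EG (S : HypSplit Q Q₁) {g : OG Q₁} (hg : g ∈ EG Q₁) : S.ext g ∈ EG Q := by
  refine EG_le (K := (EG Q).comap S.ext) (fun u v hu huv => ?_) hg
  show S.ext _ ∈ EG Q
  rw [S.ext_eich hu huv (by rw [S.Qj, hu]) (by rw [S.polar_j, huv])]
  exact eich_mem_EG _ _

theorem Ei_jp (S : HypSplit Q Q₁) {x : V} (hx : polar Q S.u x = 0) :
    Ei Q S.u (S.j (S.p x)) = Ei Q S.u x := by
  apply Subtype.ext
  rw [Ei_coe S.hu hx, Ei_coe S.hu (S.uj _), S.eich_eq hx]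

variable [Finite F]

/-- The Eichler group of `S.u`. -/
noncomputable def orthRad (S : HypSplit Q Q₁) (h₁ : ND Q₁) : AbRad (EG Q) V₁ V₁ where
  E x := Ei Q S.u (S.j x)
  E_add x y := by rw [map_add, Ei_add S.hu (S.uj _) (S.uj _)]
  P := Pairing.ofBilin (polarBilin Q₁) h₁

variable (S : HypSplit Q Q₁) (h₁ : ND Q₁)

theorem orthRad_k (x y : V₁) : (orthRad S h₁).P.k x y = psi F (polar Q₁ x y) := rfl

theorem orthRad_compat [Finite V₁] (g : EG Q) {c : F} (hc : c ≠ 0) (hg : ap g.1 S.u = c • S.u) :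
    (orthRad S h₁).Compat g fun y => c⁻¹ • S.p (ap g.1 (S.j y)) := by
  have h0 : ∀ x, polar Q S.u (ap g.1 (S.j x)) = 0 := fun x => by
    have := polar_ap g.1 S.u (S.j x)
    rw [hg, polar_smul_left', S.uj] at this
    exact (mul_eq_zero.1 this).resolve_left hc
  have hp : ∀ x y, polar Q₁ (c • S.p (ap g.1 (S.j x))) (c⁻¹ • S.p (ap g.1 (S.j y))) =
      polar Q₁ x y := fun x y => by
    rw [polar_smul_left', polar_smul_right', mul_inv_cancel_left₀ hc, S.polar_p, S.jp]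
    qsimp
    rw [polar_ap, S.polar_j, polar_comm Q _ S.u, h0, polar_comm Q (ap g.1 (S.j y)) S.u, h0]
    ring
  refine ⟨fun x => c • S.p (ap g.1 (S.j x)), ?_, fun x => ?_, fun x y => ?_⟩
  · refine Finite.injective_iff_surjective.1 fun x x' h => h₁.eq_of_polar fun y => ?_
    rw [← hp x y, ← hp x' y]
    exact congrArg (fun t => polar Q₁ t _) h
  · show g * Ei Q S.u (S.j x) = Ei Q S.u (S.j (c • S.p (ap g.1 (S.j x)))) * g
    rw [← mul_inv_eq_iff_eq_mul, Ei_conj g S.hu (S.uj x), hg, Ei_smul S.hu (h0 x), ← map_smul S.p,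
      Ei_jp S (by rw [polar_smul_right', h0, mul_zero])]
  · rw [orthRad_k, orthRad_k, hp]

theorem orthRad_compat_ext [Finite V₁] {g : OG Q₁} (hg : g ∈ EG Q₁) :
    (orthRad S h₁).Compat ⟨S.ext g, ext_mem_EG S hg⟩ (ap g) := by
  have := orthRad_compat S h₁ ⟨S.ext g, ext_mem_EG S hg⟩ one_ne_zero
    (by rw [one_smul]; exact S.ap_ext_u g)
  convert this using 2 with y
  show _ = (1 : F)⁻¹ • S.p (ap (S.ext g) (S.j y))
  rw [S.ap_ext_j, S.pj, inv_one, one_smul]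

variable {Ω : Type*} [MulAction (EG Q) Ω]

theorem fx_of_A [Finite V₁] {ω : Ω} {x : V} (hx : polar Q S.u x = 0)
    (h : ∀ y ∈ (orthRad S h₁).A ((orthRad S h₁).orb ω), polar Q x (S.j y) = 0) : Fx Q ω S.u x := by
  refine ⟨hx, ?_⟩
  rw [← Ei_jp S hx]
  refine (orthRad S h₁).fix_of_A (x := S.p x) fun y hy => ?_
  rw [orthRad_k, S.polar_p, h y hy, AddChar.map_zero_eq_one]

theorem psi_of_fx {ω : Ω} {x : V} (h : Fx Q ω S.u x) {y : V₁}
    (hy : y ∈ (orthRad S h₁).A ((orthRad S h₁).orb ω)) : psi F (polar Q x (S.j y)) = 1 := by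
  have := hy (S.p x) (by
    show Ei Q S.u (S.j (S.p x)) • ω = ω
    rw [Ei_jp S h.1, h.2])
  rwa [orthRad_k, S.polar_p] at this

variable [Finite V₁] [Finite Ω]

/-- The number of orbits whose annihilator contains `y`. -/
noncomputable abbrev cc (Ω : Type*) [MulAction (EG Q) Ω] [Finite Ω] (y : V₁) : ℕ :=
  ((orthRad S h₁).C (Ω := Ω) Finset.univ y).card

theorem card_eq_sum_A' :
    Nat.card Ω = ∑ O : (orthRad S h₁).Orb Ω, Nat.card ((orthRad S h₁).A O) :=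
  Nat.eq_of_mul_eq_mul_right Nat.card_pos ((orthRad S h₁).card_eq_sum_A (Ω := Ω))

theorem cc_le_cc_zero (y : V₁) : cc S h₁ Ω y ≤ cc S h₁ Ω 0 := by
  rw [cc, cc, AbRad.C_zero]
  exact Finset.card_le_card (Finset.subset_univ _)

theorem exists_perm_of_Q_eq [FiniteDimensional F V₁] (h4 : 4 ≤ finrank F V₁) {y y' : V₁}
    (hy : y ≠ 0) (hy' : y' ≠ 0) (h : Q₁ y = Q₁ y') :
    ∃ (g : OG Q₁) (σ : Equiv.Perm ((orthRad S h₁).Orb Ω)), ap g y = y' ∧
      ∀ O z, ap g z ∈ (orthRad S h₁).A (σ O) ↔ z ∈ (orthRad S h₁).A O := by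
  obtain ⟨g, hg, e⟩ := h₁.EG_trans h4 hy hy' h
  obtain ⟨σ, -, hσ⟩ := (orthRad_compat_ext S h₁ hg).exists_perm (Ω := Ω)
  exact ⟨g, σ, e, hσ⟩

theorem cc_eq_of_Q_eq [FiniteDimensional F V₁] (h4 : 4 ≤ finrank F V₁) {y y' : V₁} (hy : y ≠ 0)
    (hy' : y' ≠ 0) (h : Q₁ y = Q₁ y') : cc S h₁ Ω y = cc S h₁ Ω y' := by
  obtain ⟨g, hg, rfl⟩ := h₁.EG_trans h4 hy hy' h
  exact ((orthRad_compat_ext S h₁ hg).card_C y).symm

theorem cc_eq_of_Q_eq_sq [FiniteDimensional F V₁] (h4 : 4 ≤ finrank F V₁) {y y' : V₁}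
    (hy : Q₁ y ≠ 0) {c : F} (hc : c ≠ 0) (h : Q₁ y' = c * c * Q₁ y) :
    cc S h₁ Ω y = cc S h₁ Ω y' := by
  have : FiniteDimensional F V := S.equivProd.finiteDimensional
  have hd := S.finrank_eq
  obtain ⟨g, hg, e1, e2⟩ := (S.nd_of h₁).EG_trans_hyp (by omega) S.hu S.hw S.huw
    (u' := c⁻¹ • S.u) (w' := c • S.w) (by qsimp; rw [S.hu, mul_zero])
    (by qsimp; rw [S.hw, mul_zero]) (by qsimp; rw [S.huw]; field_simp)
  have h2 := (orthRad_compat S h₁ ⟨g, hg⟩ (inv_ne_zero hc) e1).card_C (Ω := Ω) y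
  have h3 : Q₁ (c⁻¹⁻¹ • S.p (ap g (S.j y))) = c * c * Q₁ y := by
    have a1 : polar Q (ap g (S.j y)) S.u = 0 := by
      have := polar_ap g (S.j y) S.u
      rw [e1, polar_smul_right', S.ju] at this
      exact (mul_eq_zero.1 this).resolve_left (inv_ne_zero hc)
    have := S.Q_eq (ap g (S.j y))
    rw [a1, mul_zero, zero_add, Q_ap, S.Qj] at this
    rw [inv_inv, Q_smul, ← this]
  have hne : c * c * Q₁ y ≠ 0 := mul_ne_zero (mul_ne_zero hc hc) hy
  refine h2.symm.trans (cc_eq_of_Q_eq S h₁ h4 ?_ ?_ (h3.trans h.symm))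
  · intro h0; rw [h0, map_zero] at h3; exact hne h3.symm
  · intro h0; rw [h0, map_zero] at h; exact hne h.symm

/-- The number of vectors with a given value of the form. -/
noncomputable def cnt (Q : QuadraticForm F V) (t : F) : ℕ := Nat.card {x : V // Q x = t}

theorem sum_cnt [Fintype F] [Fintype V₁] (f : F → ℕ) :
    ∑ y : V₁, f (Q₁ y) = ∑ t : F, cnt Q₁ t * f t := by
  rw [← Finset.sum_fiberwise (g := fun y => Q₁ y)]
  refine Finset.sum_congr rfl fun t _ => ?_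
  rw [Finset.sum_congr rfl (g := fun _ => f t) fun y hy => by rw [(Finset.mem_filter.1 hy).2],
    Finset.sum_const, smul_eq_mul, cnt, Nat.card_eq_fintype_card, Fintype.card_subtype]

theorem sum_le_sum_A [Fintype F] (T : Finset ((orthRad S h₁).Orb Ω)) (f : F → ℕ)
    (hf : ∀ y, f (Q₁ y) ≤ ((orthRad S h₁).C T y).card) :
    ∑ t : F, cnt Q₁ t * f t ≤ ∑ O ∈ T, Nat.card ((orthRad S h₁).A O) := by
  have := Fintype.ofFinite V₁
  rw [AbRad.sum_A_eq, ← sum_cnt]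
  exact Finset.sum_le_sum fun y _ => hf y

theorem sum_le_card [Fintype F] (f : F → ℕ) (hf : ∀ y, f (Q₁ y) ≤ cc S h₁ Ω y) :
    ∑ t : F, cnt Q₁ t * f t ≤ Nat.card Ω := by
  rw [card_eq_sum_A' S h₁]
  exact sum_le_sum_A S h₁ _ f hf

theorem perp_le_A [FiniteDimensional F V₁] (h5 : 5 ≤ finrank F V₁) {y z : V₁}
    (hc : cc S h₁ Ω y < ringChar F) {O : (orthRad S h₁).Orb Ω} (hy : y ∈ (orthRad S h₁).A O)
    (hz : z ∈ (orthRad S h₁).A O) (hzy : z ∉ Submodule.span F {y}) {x : V₁}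
    (hx : polar Q₁ y x = 0) : x ∈ (orthRad S h₁).A O := by
  refine perp_le_of_inv h₁ h5 (fun e t he het ye yt z hz => ?_) hz hzy hx
  refine (orthRad_compat_ext S h₁ (eich_mem_EG he het)).fix_of_card
    (ap_eich_of_perp he het ye yt) (p := ringChar F)
    (Or.inr ⟨CharP.char_is_prime F _, ?_, hc⟩) hy hz
  have := Ei_pow_char (Q := Q) (v := S.j e) (x := S.j t) (by rw [S.Qj, he]) (by rw [S.polar_j, het])
  rw [← this]
  congr 1
  apply Subtype.ext
  rw [Ei_coe (by rw [S.Qj, he]) (by rw [S.polar_j, het])]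
  exact S.ext_eich he het _ _

theorem A_eq_top [FiniteDimensional F V₁] (h5 : 5 ≤ finrank F V₁) {y z : V₁} (hy0 : y ≠ 0)
    (hc : cc S h₁ Ω y < ringChar F) {O : (orthRad S h₁).Orb Ω} (hy : y ∈ (orthRad S h₁).A O)
    (hz : z ∈ (orthRad S h₁).A O) (hzy : z ∉ Submodule.span F {y}) (x : V₁) :
    x ∈ (orthRad S h₁).A O := by
  obtain ⟨e, f, he, hf, hef, h1, h2⟩ := exists_hyp_perp h₁ {y} (by simpa using h5)
  have ye := h1 y (by simp)
  have yf := h2 y (by simp)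
  set y' := Q₁ y • e + f with hy'
  have a1 : polar Q₁ y' e = 1 := by rw [hy']; qsimp; rw [he, polar_comm Q₁ f e, hef]; ring
  have a2 : Q₁ y' = Q₁ y := by rw [hy']; qsimp; rw [he, hf, hef]; ring
  have a3 : polar Q₁ y y' = 0 := by rw [hy']; qsimp; rw [ye, yf]; ring
  have a4 : y' ≠ 0 := by intro h; rw [h, polar_zero_left] at a1; exact zero_ne_one a1
  have a5 : ∀ c : F, y' ≠ c • y := by
    intro c h; rw [h, polar_smul_left', ye, mul_zero] at a1; exact zero_ne_one a1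
  have a6 : y ∉ Submodule.span F {y'} := by
    intro h
    obtain ⟨c, hc⟩ := Submodule.mem_span_singleton.1 h
    rw [← hc, polar_smul_left', a1, mul_one] at ye
    exact hy0 (by rw [← hc, ye, zero_smul])
  obtain ⟨s, s1, s2⟩ := h₁.exists_eq_eq hy0 a5 (polar Q₁ y x) 0
  have m1 := perp_le_A S h₁ h5 hc hy hz hzy (x := x - s) (by qsimp; rw [s1, sub_self])
  have m2 := perp_le_A S h₁ h5 (by rwa [cc_eq_of_Q_eq S h₁ (by omega) a4 hy0 a2])
    (perp_le_A S h₁ h5 hc hy hz hzy a3) hy a6 s2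
  simpa using ((orthRad S h₁).A O).add_mem m1 m2

end Cfsg.Agent.H66
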