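import Cfsg.Agent.H66.OrthA
import Cfsg.Agent.H11.Count

/-!
Totally singular annihilators which do not lie in a line.
-/

set_option autoImplicit false
set_option linter.unusedSectionVars false

namespace Cfsg.Agent.H66

open Module QuadraticMap Cfsg.Agent.H11 Classical

theorem cover_eq {ι α : Type*} (s : Finset ι) (D : ι → Finset α) (Z : Finset α) {n d : ℕ}
    (hs : s.card ≤ n) (hD : ∀ i ∈ s, (D i).card ≤ d) (hZ : Z ⊆ s.biUnion D) (hc : Z.card = n * d)
    (hd : 0 < d) : s.card = n ∧ (∀ i ∈ s, (D i).card = d) ∧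
      ∀ i ∈ s, ∀ j ∈ s, ∀ a, a ∈ D i → a ∈ D j → i = j := by
  have key : ∀ D' : ι → Finset α, (∀ i ∈ s, (D' i).card ≤ d) → Z ⊆ s.biUnion D' →
      ∀ i ∈ s, (D' i).card = d := by
    intro D' hD' hZ' i hi
    by_contra hne
    have h1 := (Finset.card_le_card hZ').trans Finset.card_biUnion_le
    have h2 : ∑ i ∈ s, (D' i).card < ∑ _i ∈ s, d :=
      Finset.sum_lt_sum hD' ⟨i, hi, lt_of_le_of_ne (hD' i hi) hne⟩
    rw [Finset.sum_const, smul_eq_mul] at h2
    have := Nat.mul_le_mul_right d hs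
    omega
  refine ⟨le_antisymm hs ?_, key D hD hZ, fun i hi j hj a ha hb => ?_⟩
  · have h1 := (Finset.card_le_card hZ).trans Finset.card_biUnion_le
    have h2 := Finset.sum_le_card_nsmul s _ d hD
    rw [smul_eq_mul] at h2
    exact Nat.le_of_mul_le_mul_right (by omega) hd
  · by_contra hne
    have := key (Function.update D j ((D j).erase a)) (fun l hl => by
      by_cases h : l = j
      · rw [h, Function.update_self]; exact Finset.card_erase_le.trans (hD j hj)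
      · rw [Function.update_of_ne h]; exact hD l hl) (fun z hz => by
      obtain ⟨l, hl, hz'⟩ := Finset.mem_biUnion.1 (hZ hz)
      by_cases h : l = j
      · by_cases h' : z = a
        · exact Finset.mem_biUnion.2 ⟨i, hi, by rwa [Function.update_of_ne hne, h']⟩
        · exact Finset.mem_biUnion.2 ⟨j, hj, by
            rw [Function.update_self]; exact Finset.mem_erase.2 ⟨h', h ▸ hz'⟩⟩
      · exact Finset.mem_biUnion.2 ⟨l, hl, by rwa [Function.update_of_ne h]⟩) j hj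
    rw [Function.update_self, Finset.card_erase_of_mem hb, key D hD hZ j hj] at this
    omega

variable {F V : Type*} [Field F] [AddCommGroup V] [Module F V] {Q : QuadraticForm F V}
variable {V₁ : Type*} [AddCommGroup V₁] [Module F V₁] {Q₁ : QuadraticForm F V₁}
variable [Finite F]

theorem card_span_singleton {y : V} (hy : y ≠ 0) :
    Nat.card (Submodule.span F {y}) = Nat.card F := by
  rw [Module.natCard_eq_pow_finrank (K := F), finrank_span_singleton hy, pow_one]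

theorem card_split (S : HypSplit Q Q₁) : Nat.card V = Nat.card F ^ 2 * Nat.card V₁ := by
  rw [← Nat.card_congr S.equivProd.toEquiv, Nat.card_prod, Nat.card_prod]; ring

theorem card_filter_eq {α : Type*} [Fintype α] (p : α → Prop) [DecidablePred p] :
    (Finset.univ.filter p).card = Nat.card {x // p x} := by
  rw [Nat.card_eq_fintype_card, Fintype.card_subtype]

theorem card_filter_sub_le [Fintype V] {U : Submodule F V} {y : V} (hy : y ∈ U) (hy0 : y ≠ 0)
    (p : V → Prop) [DecidablePred p] (hp : ∀ z, p z → z ∈ U ∧ z ∉ Submodule.span F {y}) :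
    (Finset.univ.filter p).card + Nat.card F ≤ Nat.card U := by
  rw [← card_span_singleton hy0, ← card_filter_eq (· ∈ Submodule.span F {y}),
    ← card_filter_eq (· ∈ U), ← Finset.card_union_of_disjoint]
  · refine Finset.card_le_card fun z hz => ?_
    simp only [Finset.mem_union, Finset.mem_filter, Finset.mem_univ, true_and] at hz ⊢
    rcases hz with h | h
    · exact (hp z h).1
    · exact (Submodule.span_singleton_le_iff_mem y U).2 hy h
  · rw [Finset.disjoint_filter]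
    exact fun z _ h => (hp z h).2

/-- The singular vectors perpendicular to `y` which are not multiples of `y`. -/
noncomputable def Zs (Q : QuadraticForm F V) [Fintype V] (y : V) : Finset V :=
  Finset.univ.filter fun z => Q z = 0 ∧ polar Q y z = 0 ∧ z ∉ Submodule.span F {y}

theorem card_Zs [Fintype V] (h : ND Q) {y : V} (hy : Q y = 0) (hy0 : y ≠ 0) :
    Nat.card F ^ 2 * ((Zs Q y).card + Nat.card F) + (Nat.card F - 1) * Nat.card V =
      Nat.card F ^ 2 * cnt Q 0 := by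
  obtain ⟨w, hw, hyw⟩ := h.exists_partner hy hy0
  let S := hypSplit hy hw hyw
  have h1 := S.card_zeros
  have h2 := card_split S
  have h3 : (Zs Q y).card + Nat.card F =
      Nat.card F * Nat.card {v // (Q.comp (perp2 Q y w).subtype) v = 0} := by
    rw [← Nat.card_prod, ← card_span_singleton hy0, ← card_filter_eq (· ∈ Submodule.span F {y}), Zs,
      ← Finset.card_union_of_disjoint (by
        rw [Finset.disjoint_filter]; exact fun z _ h => h.2.2), ← Finset.filter_or, card_filter_eq]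
    symm
    refine Nat.card_congr (Equiv.ofBijective
      (fun t => ⟨t.1 • S.u + (0 : F) • S.w + S.j t.2.1, ?_⟩) ⟨fun a b hab => ?_, fun z => ?_⟩)
    · by_cases hm : t.1 • S.u + (0 : F) • S.w + S.j t.2.1 ∈ Submodule.span F {y}
      · exact Or.inr hm
      · refine Or.inl ⟨by rw [S.Q_mk, t.2.2]; ring, ?_, hm⟩
        show polar Q S.u _ = 0
        qsimp; rw [S.hu, S.uj]; ring
    · have := S.equivProd.injective (a₁ := (a.1, 0, a.2.1)) (a₂ := (b.1, 0, b.2.1))
        (congrArg Subtype.val hab)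
      simp only [Prod.mk.injEq, true_and] at this
      exact Prod.ext this.1 (Subtype.ext this.2)
    · have hz : Q z.1 = 0 ∧ polar Q z.1 S.u = 0 := by
        rcases z.2 with h | h
        · exact ⟨h.1, by rw [polar_comm]; exact h.2.1⟩
        · obtain ⟨c, hc⟩ := Submodule.mem_span_singleton.1 h
          rw [← hc]
          show Q (c • y) = 0 ∧ polar Q (c • y) y = 0
          qsimp; simp [hy]
      have e := S.Q_eq z.1
      rw [hz.1, hz.2, mul_zero, zero_add] at e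
      refine ⟨(polar Q z.1 S.w, ⟨S.p z.1, e.symm⟩), Subtype.ext ?_⟩
      have := S.decomp z.1
      rw [hz.2] at this
      exact this.symm
  rw [h3, cnt, h1, h2]
  ring

variable (S : HypSplit Q Q₁) (h₁ : ND Q₁)
variable {Ω : Type*} [MulAction (EG Q) Ω] [Fintype V₁] [Finite Ω] [FiniteDimensional F V₁]

/-- The annihilator of the orbit is totally singular. -/
def TS (O : (orthRad S h₁).Orb Ω) : Prop := ∀ x ∈ (orthRad S h₁).A O, Q₁ x = 0

variable {S h₁}

theorem TS.perm {g : OG Q₁} {σ : Equiv.Perm ((orthRad S h₁).Orb Ω)}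
    (hσ : ∀ O z, ap g z ∈ (orthRad S h₁).A (σ O) ↔ z ∈ (orthRad S h₁).A O)
    {O : (orthRad S h₁).Orb Ω} (h : TS S h₁ O) : TS S h₁ (σ O) := fun x hx => by
  have := h (ap g⁻¹ x) ((hσ O _).1 (by rwa [ap_ap_inv]))
  rwa [Q_ap] at this

theorem ts_cover (h5 : 5 ≤ finrank F V₁) {O : (orthRad S h₁).Orb Ω} (hO : TS S h₁ O)
    (hO' : ∀ y, ∃ z ∈ (orthRad S h₁).A O, z ∉ Submodule.span F {y}) {y z : V₁} (hy : Q₁ y = 0)
    (hy0 : y ≠ 0) (hz : z ∈ Zs Q₁ y) : ∃ O' : (orthRad S h₁).Orb Ω, TS S h₁ O' ∧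
      y ∈ (orthRad S h₁).A O' ∧ z ∈ Submodule.span F ((orthRad S h₁).A O' : Set V₁) := by
  obtain ⟨y₀, m0, n0⟩ := hO' 0
  have n0' : y₀ ≠ 0 := by rintro rfl; exact n0 (Submodule.zero_mem _)
  obtain ⟨z₀, m1, n1⟩ := hO' y₀
  obtain ⟨g, σ, rfl, hσ⟩ := exists_perm_of_Q_eq S h₁ (Ω := Ω) (by omega) n0' hy0
    ((hO _ m0).trans hy.symm)
  have t1 := hO.perm hσ
  have m2 := (hσ O _).2 m0
  have m3 := (hσ O _).2 m1
  have n2 : ap g z₀ ∉ Submodule.span F {ap g y₀} := fun h => n1 (by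
    obtain ⟨c, hc⟩ := Submodule.mem_span_singleton.1 h
    exact Submodule.mem_span_singleton.2 ⟨c, ap_injective g (by rw [ap_smul, hc])⟩)
  generalize ap g y₀ = y at *
  generalize ap g z₀ = z₁ at *
  generalize σ O = O₁ at *
  obtain ⟨w, hw, hyw⟩ := h₁.exists_partner hy hy0
  let S₁ := hypSplit hy hw hyw
  have hd := S₁.finrank_eq
  have aux : ∀ z, Q₁ z = 0 → polar Q₁ y z = 0 → z ∉ Submodule.span F {y} →
      (Q₁.comp (perp2 Q₁ y w).subtype) (S₁.p z) = 0 ∧ S₁.p z ≠ 0 ∧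
        z = polar Q₁ z S₁.w • y + S₁.j (S₁.p z) := by
    intro z a1 a2 a3
    have a4 : polar Q₁ z S₁.u = 0 := by rw [polar_comm]; exact a2
    have e := S₁.Q_eq z
    have e' := S₁.decomp z
    rw [a4, zero_smul, add_zero] at e'
    rw [a1, a4, mul_zero, zero_add] at e
    refine ⟨e.symm, fun h => a3 (Submodule.mem_span_singleton.2 ⟨polar Q₁ z S₁.w, ?_⟩), e'⟩
    rw [h, map_zero, add_zero] at e'
    exact e'.symm
  obtain ⟨-, b1, b2, b3⟩ := Finset.mem_filter.1 hz
  obtain ⟨a1, a2, a3⟩ := aux z b1 b2 b3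
  obtain ⟨c1, c2, c3⟩ := aux z₁ (t1 _ m3)
    (polar_of_sing hy (t1 _ m3) (t1 _ (AddSubgroup.add_mem _ m2 m3))) n2
  obtain ⟨k, hk, c, hc, e⟩ := EG_trans_point (S₁.nd h₁) (by omega) c1 c2 a1 a2
  obtain ⟨τ, -, hτ⟩ := (orthRad_compat_ext S h₁ (ext_mem_EG S₁ hk)).exists_perm (Ω := Ω)
  have m4 := (hτ O₁ _).2 m2
  have m5 := (hτ O₁ _).2 m3
  have e1 : ap (S₁.ext k) y = y := S₁.ap_ext_u k
  rw [e1] at m4
  rw [c3, ap_add, ap_smul, e1, S₁.ap_ext_j, e, map_smul] at m5
  refine ⟨τ O₁, t1.perm hτ, m4, ?_⟩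
  have s1 := Submodule.subset_span (R := F) (s := ((orthRad S h₁).A (τ O₁) : Set V₁)) m4
  have s2 := Submodule.subset_span (R := F) (s := ((orthRad S h₁).A (τ O₁) : Set V₁)) m5
  have s3 := Submodule.sub_mem _ s2 (Submodule.smul_mem _ (polar Q₁ z₁ S₁.w) s1)
  rw [add_sub_cancel_left] at s3
  rw [a3]
  exact Submodule.add_mem _ (Submodule.smul_mem _ _ s1) ((Submodule.smul_mem_iff _ hc).1 s3)

/-- The part of `Zs y` covered by the span of a totally singular annihilator. -/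
noncomputable def Dz (y : V₁) (O : (orthRad S h₁).Orb Ω) : Finset V₁ :=
  Finset.univ.filter fun z => TS S h₁ O ∧ z ∈ Zs Q₁ y ∧
    z ∈ Submodule.span F ((orthRad S h₁).A O : Set V₁)

theorem card_Dz_le {k : ℕ} (hW : ∀ U : Submodule F V₁, (∀ x ∈ U, Q₁ x = 0) →
      Nat.card U ≤ Nat.card F ^ k) {y : V₁} (hy0 : y ≠ 0) {O : (orthRad S h₁).Orb Ω}
    (hy : y ∈ (orthRad S h₁).A O) : (Dz y O).card ≤ Nat.card F ^ k - Nat.card F := by
  by_cases hO : TS S h₁ O
  · have h1 := hW _ fun x hx => Q_span hO hx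
    have h2 := card_filter_sub_le (Submodule.subset_span (R := F) hy) hy0
      (fun z => TS S h₁ O ∧ z ∈ Zs Q₁ y ∧ z ∈ Submodule.span F ((orthRad S h₁).A O : Set V₁))
      fun z hz => ⟨hz.2.2, (Finset.mem_filter.1 hz.2.1).2.2.2⟩
    exact Nat.le_sub_of_add_le (h2.trans h1)
  · simp [Dz, hO]

theorem Zs_subset (h5 : 5 ≤ finrank F V₁) {O : (orthRad S h₁).Orb Ω} (hO : TS S h₁ O)
    (hO' : ∀ y, ∃ z ∈ (orthRad S h₁).A O, z ∉ Submodule.span F {y}) {y : V₁} (hy : Q₁ y = 0)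
    (hy0 : y ≠ 0) : Zs Q₁ y ⊆ ((orthRad S h₁).C (Ω := Ω) Finset.univ y).biUnion (Dz y) := by
  intro z hz
  obtain ⟨O', h1, h2, h3⟩ := ts_cover h5 hO hO' hy hy0 hz
  exact Finset.mem_biUnion.2 ⟨O', (orthRad S h₁).mem_C.2 ⟨Finset.mem_univ _, h2⟩,
    Finset.mem_filter.2 ⟨Finset.mem_univ _, h1, hz, h3⟩⟩

theorem card_Zs_eq (h₁ : ND Q₁) {Z : ℕ} (hZ : Nat.card F ^ 2 * (Z + Nat.card F) +
      (Nat.card F - 1) * Nat.card V₁ = Nat.card F ^ 2 * cnt Q₁ 0) {y : V₁} (hy : Q₁ y = 0)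
    (hy0 : y ≠ 0) : (Zs Q₁ y).card = Z := by
  have h := card_Zs h₁ hy hy0
  rw [← hZ] at h
  have := Nat.eq_of_mul_eq_mul_left (pow_pos Nat.card_pos 2) (Nat.add_right_cancel h)
  omega

/-- The generic case: a totally singular annihilator outside a line has too many conjugates. -/
theorem ts_bound (h5 : 5 ≤ finrank F V₁) {k Z : ℕ} (hW : ∀ U : Submodule F V₁,
      (∀ x ∈ U, Q₁ x = 0) → Nat.card U ≤ Nat.card F ^ k)
    (hZ : Nat.card F ^ 2 * (Z + Nat.card F) + (Nat.card F - 1) * Nat.card V₁ =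
      Nat.card F ^ 2 * cnt Q₁ 0) {O : (orthRad S h₁).Orb Ω} (hO : TS S h₁ O)
    (hO' : ∀ y, ∃ z ∈ (orthRad S h₁).A O, z ∉ Submodule.span F {y}) :
    ∃ c, Z ≤ c * (Nat.card F ^ k - Nat.card F) ∧ c * cnt Q₁ 0 ≤ Nat.card Ω := by
  obtain ⟨y, m0, n0⟩ := hO' 0
  have hy0 : y ≠ 0 := by rintro rfl; exact n0 (Submodule.zero_mem _)
  have hy := hO y m0
  refine ⟨cc S h₁ Ω y, ?_, ?_⟩
  · rw [← card_Zs_eq h₁ hZ hy hy0]
    refine ((Finset.card_le_card (Zs_subset h5 hO hO' hy hy0)).trans Finset.card_biUnion_le).trans ?_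
    exact Finset.sum_le_card_nsmul _ _ _ fun O' h =>
      card_Dz_le hW hy0 ((orthRad S h₁).mem_C.1 h).2
  · simpa using mul_sum_le_card S h₁ (Ω := Ω) {0} (cc S h₁ Ω y) fun y' h =>
      le_cc_of_Q_eq S h₁ (by omega) hy0 le_rfl ((Finset.mem_singleton.1 h).trans hy.symm)

/-- The extremal case: the annihilators containing a singular vector are maximal totally singular
subspaces, and two of them with a common singular vector and a further common point coincide. -/
theorem ts_special (h5 : 5 ≤ finrank F V₁) {k : ℕ} (hk : 2 ≤ k) (hW : ∀ U : Submodule F V₁,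
      (∀ x ∈ U, Q₁ x = 0) → Nat.card U ≤ Nat.card F ^ k)
    (hZ : Nat.card F ^ 2 * ((Nat.card F + 1) * (Nat.card F ^ k - Nat.card F) + Nat.card F) +
      (Nat.card F - 1) * Nat.card V₁ = Nat.card F ^ 2 * cnt Q₁ 0)
    (hM : Nat.card Ω < (Nat.card F + 2) * cnt Q₁ 0) {O₀ : (orthRad S h₁).Orb Ω} (hO : TS S h₁ O₀)
    (hO' : ∀ y, ∃ z ∈ (orthRad S h₁).A O₀, z ∉ Submodule.span F {y}) {y : V₁} (hy : Q₁ y = 0)
    (hy0 : y ≠ 0) : cc S h₁ Ω y = Nat.card F + 1 ∧
      (∀ O : (orthRad S h₁).Orb Ω, y ∈ (orthRad S h₁).A O → TS S h₁ O ∧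
        (∀ (c : F), ∀ x ∈ (orthRad S h₁).A O, c • x ∈ (orthRad S h₁).A O) ∧
        Nat.card ((orthRad S h₁).A O) = Nat.card F ^ k ∧
        ∃ z ∈ (orthRad S h₁).A O, z ∉ Submodule.span F {y}) ∧
      ∀ O O' : (orthRad S h₁).Orb Ω, y ∈ (orthRad S h₁).A O → y ∈ (orthRad S h₁).A O' →
        ∀ z ∈ (orthRad S h₁).A O, z ∈ (orthRad S h₁).A O' → z ∉ Submodule.span F {y} → O = O' := by
  let R := orthRad S h₁
  have hq : 2 ≤ Nat.card F := Finite.one_lt_card
  have hd : 0 < Nat.card F ^ k - Nat.card F := by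
    have := Nat.pow_lt_pow_right (a := Nat.card F) (m := 1) (n := k) hq hk
    rw [pow_one] at this
    omega
  have main : ∀ y, Q₁ y = 0 → y ≠ 0 → cc S h₁ Ω y = Nat.card F + 1 ∧
      (∀ O : R.Orb Ω, y ∈ R.A O → (Dz y O).card = Nat.card F ^ k - Nat.card F) ∧
      ∀ O O' : R.Orb Ω, y ∈ R.A O → y ∈ R.A O' → ∀ a, a ∈ Dz y O → a ∈ Dz y O' → O = O' := by
    intro y hy hy0
    have hc : cc S h₁ Ω y ≤ Nat.card F + 1 := by
      by_contra hc
      have := mul_sum_le_card S h₁ (Ω := Ω) {0} (Nat.card F + 2) fun y' h =>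
        le_cc_of_Q_eq S h₁ (by omega) hy0 (by omega) ((Finset.mem_singleton.1 h).trans hy.symm)
      rw [Finset.sum_singleton] at this
      omega
    obtain ⟨a1, a2, a3⟩ := cover_eq _ (Dz y) _ hc
      (fun O' h => card_Dz_le hW hy0 (R.mem_C.1 h).2) (Zs_subset h5 hO hO' hy hy0)
      (card_Zs_eq h₁ hZ hy hy0) hd
    exact ⟨a1, fun O h => a2 O (R.mem_C.2 ⟨Finset.mem_univ _, h⟩), fun O O' h h' =>
      a3 O (R.mem_C.2 ⟨Finset.mem_univ _, h⟩) O' (R.mem_C.2 ⟨Finset.mem_univ _, h'⟩)⟩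
  have ne : ∀ y, Q₁ y = 0 → y ≠ 0 → ∀ O : R.Orb Ω, y ∈ R.A O →
      TS S h₁ O ∧ ∃ z ∈ R.A O, z ∉ Submodule.span F {y} := by
    intro y hy hy0 O h
    obtain ⟨a, ha⟩ := Finset.card_pos.1 ((main y hy hy0).2.1 O h ▸ hd)
    obtain ⟨-, a1, a2, a3⟩ := Finset.mem_filter.1 ha
    refine ⟨a1, ?_⟩
    by_contra hc
    push Not at hc
    exact (Finset.mem_filter.1 a2).2.2.2 (Submodule.span_le.2 hc a3)
  have memD : ∀ y (O : R.Orb Ω), TS S h₁ O → y ∈ R.A O →
      ∀ z ∈ Submodule.span F (R.A O : Set V₁), z ∉ Submodule.span F {y} → z ∈ Dz y O := by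
    intro y O hO hy z hz hzy
    have hy' := Submodule.subset_span (R := F) (s := (R.A O : Set V₁)) hy
    exact Finset.mem_filter.2 ⟨Finset.mem_univ _, hO, Finset.mem_filter.2 ⟨Finset.mem_univ _,
      Q_span hO hz, polar_of_sing (hO y hy) (Q_span hO hz) (Q_span hO (Submodule.add_mem _ hy' hz)),
      hzy⟩, hz⟩
  have scal : ∀ (O : R.Orb Ω), TS S h₁ O → ∀ (c : F), ∀ x ∈ R.A O, c • x ∈ R.A O := by
    intro O hO c x hx
    by_cases hx0 : x = 0
    · rw [hx0, smul_zero]; exact (R.A O).zero_mem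
    have hQx := hO x hx
    obtain ⟨-, z, hz, hzx⟩ := ne x hQx hx0 O hx
    obtain ⟨t, t1, t2⟩ := h₁.exists_eq_eq hx0
      (fun c h => hzx (Submodule.mem_span_singleton.2 ⟨c, h.symm⟩)) 0 c
    obtain ⟨σ, -, hσ⟩ := (orthRad_compat_ext S h₁ (eich_mem_EG hQx t1)).exists_perm (Ω := Ω)
    have m1 := (hσ O x).2 hx
    have m2 := (hσ O z).2 hz
    have zx : polar Q₁ z x = 0 :=
      polar_of_sing (hO z hz) hQx (hO _ (AddSubgroup.add_mem _ hz hx))
    rw [ap_eich_left] at m1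
    rw [ap_eich, zx, t2, zero_smul, add_zero, mul_zero, zero_smul, sub_zero] at m2
    have n1 : z - c • x ∉ Submodule.span F {x} := fun h => hzx (by
      simpa using Submodule.add_mem _ h
        (Submodule.smul_mem _ c (Submodule.mem_span_singleton_self x)))
    have := (main x hQx hx0).2.2 O (σ O) hx m1 (z - c • x)
      (memD x O hO hx _ (Submodule.sub_mem _ (Submodule.subset_span hz)
        (Submodule.smul_mem _ c (Submodule.subset_span hx))) n1)
      (memD x _ (hO.perm hσ) m1 _ (Submodule.subset_span m2) n1)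
    rw [← this] at m2
    simpa using (R.A O).sub_mem hz m2
  refine ⟨(main y hy hy0).1, fun O h => ?_, fun O O' h h' z hz hz' hzy => ?_⟩
  · obtain ⟨t1, t2⟩ := ne y hy hy0 O h
    refine ⟨t1, scal O t1, ?_, t2⟩
    have hsp : ∀ x, x ∈ Submodule.span F (R.A O : Set V₁) ↔ x ∈ R.A O := fun x =>
      ⟨fun hx => Submodule.span_induction (fun _ h => h) (R.A O).zero_mem
        (fun _ _ _ _ => (R.A O).add_mem) (fun c x _ => scal O t1 c x) hx,
        fun hx => Submodule.subset_span hx⟩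
    have e : Nat.card (R.A O) = Nat.card (Submodule.span F (R.A O : Set V₁)) :=
      Nat.card_congr (Equiv.subtypeEquivRight fun x => (hsp x).symm)
    have h1 := hW _ fun x hx => Q_span t1 hx
    have h2 := card_filter_sub_le (Submodule.subset_span (R := F) h) hy0
      (fun z => TS S h₁ O ∧ z ∈ Zs Q₁ y ∧ z ∈ Submodule.span F (R.A O : Set V₁))
      fun z hz => ⟨hz.2.2, (Finset.mem_filter.1 hz.2.1).2.2.2⟩
    have h3 : (Dz y O).card + Nat.card F ≤ Nat.card (Submodule.span F (R.A O : Set V₁)) := h2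
    rw [(main y hy hy0).2.1 O h] at h3
    have h4 : Nat.card (Submodule.span F (R.A O : Set V₁)) ≤ Nat.card F ^ k := h1
    show Nat.card (R.A O) = _
    omega
  · exact (main y hy hy0).2.2 O O' h h' z
      (memD y O (ne y hy hy0 O h).1 h z (Submodule.subset_span hz) hzy)
      (memD y O' (ne y hy hy0 O' h').1 h' z (Submodule.subset_span hz') hzy)

end Cfsg.Agent.H66
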