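import Cfsg.Agent.H66.OrthS

/-!
The types of the intersection of a point stabiliser with an Eichler group; stabilisers containing
a full Eichler group, or a hyperplane of an Eichler group.
-/

set_option autoImplicit false
set_option linter.unusedSectionVars false

namespace Cfsg.Agent.H66

open Module QuadraticMap Cfsg.Agent.H11 Classical

variable {F V : Type*} [Field F] [AddCommGroup V] [Module F V] {Q : QuadraticForm F V}
variable {Ω : Type*} [MulAction (EG Q) Ω]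

/-- The whole Eichler group of `v` fixes `ω`. -/
def T0 (Q : QuadraticForm F V) {Ω : Type*} [MulAction (EG Q) Ω] (ω : Ω) (v : V) : Prop :=
  ∀ x, polar Q v x = 0 → Fx Q ω v x

/-- The Eichler transformations of `v` fixing `y` fix `ω`. -/
def PP (Q : QuadraticForm F V) {Ω : Type*} [MulAction (EG Q) Ω] (ω : Ω) (v y : V) : Prop :=
  polar Q v y = 0 ∧ ∀ x, polar Q v x = 0 → polar Q y x = 0 → Fx Q ω v x

def T1 (Q : QuadraticForm F V) {Ω : Type*} [MulAction (EG Q) Ω] (ω : Ω) (v : V) : Prop :=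
  ∃ y, y ∉ Submodule.span F {v} ∧ PP Q ω v y

/-- The Eichler group of `v` acts regularly on the orbit of `ω`. -/
def T4 (Q : QuadraticForm F V) {Ω : Type*} [MulAction (EG Q) Ω] (ω : Ω) (v : V) : Prop :=
  ∀ x, Fx Q ω v x → x ∈ Submodule.span F {v}

/-- The stabiliser is given by a maximal totally singular subspace with at least `N` elements. -/
def T3 (Q : QuadraticForm F V) {Ω : Type*} [MulAction (EG Q) Ω] (N : ℕ) (ω : Ω) (v : V) : Prop :=
  ∃ U : Submodule F V, v ∈ U ∧ (∀ x ∈ U, Q x = 0) ∧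
    (∀ x, Q x = 0 → (∀ a ∈ U, polar Q a x = 0) → x ∈ U) ∧ N ≤ Nat.card U ∧
    ∀ x, Fx Q ω v x ↔ ∀ a ∈ U, polar Q a x = 0

variable {ω : Ω} {v x y : V}

theorem mem_span_ap {g : OG Q} : ap g x ∈ Submodule.span F {ap g v} ↔ x ∈ Submodule.span F {v} := by
  simp only [Submodule.mem_span_singleton]
  refine exists_congr fun c => ?_
  rw [← ap_smul, (ap_injective g).eq_iff]

theorem fx_map_iff (hv : Q v = 0) (g : EG Q) :
    Fx Q (g • ω) (ap g.1 v) x ↔ Fx Q ω v (ap g.1⁻¹ x) := by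
  constructor
  · intro h
    have := h.map (by simpa using hv) g⁻¹
    rwa [inv_smul_smul, Subgroup.coe_inv, ap_inv_ap] at this
  · intro h
    have := h.map hv g
    rwa [ap_ap_inv] at this

theorem T0.map (hv : Q v = 0) (h : T0 Q ω v) (g : EG Q) : T0 Q (g • ω) (ap g.1 v) := fun x hx =>
  (fx_map_iff hv g).2 (h _ (by rwa [← polar_ap_left]))

theorem PP.map (hv : Q v = 0) (h : PP Q ω v y) (g : EG Q) :
    PP Q (g • ω) (ap g.1 v) (ap g.1 y) :=
  ⟨by simpa using h.1, fun x h1 h2 =>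
    (fx_map_iff hv g).2 (h.2 _ (by rwa [← polar_ap_left]) (by rwa [← polar_ap_left]))⟩

theorem T1.map (hv : Q v = 0) (h : T1 Q ω v) (g : EG Q) : T1 Q (g • ω) (ap g.1 v) := by
  obtain ⟨y, h1, h2⟩ := h
  exact ⟨_, fun h => h1 (mem_span_ap.1 h), h2.map hv g⟩

theorem T4.map (hv : Q v = 0) (h : T4 Q ω v) (g : EG Q) : T4 Q (g • ω) (ap g.1 v) := fun x hx => by
  rw [← ap_ap_inv g.1 x, mem_span_ap]
  exact h _ ((fx_map_iff hv g).1 hx)

theorem T3.map {N : ℕ} (hv : Q v = 0) (h : T3 Q N ω v) (g : EG Q) :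
    T3 Q N (g • ω) (ap g.1 v) := by
  obtain ⟨U, h1, h2, h3, h4, h5⟩ := h
  have hm : ∀ x, x ∈ U.map (g.1.1 : V →ₗ[F] V) ↔ ap g.1⁻¹ x ∈ U := fun x =>
    Submodule.mem_map_equiv U
  have hp : ∀ x, (∀ a ∈ U.map (g.1.1 : V →ₗ[F] V), polar Q a x = 0) ↔
      ∀ a ∈ U, polar Q a (ap g.1⁻¹ x) = 0 := fun x =>
    ⟨fun h a ha => by rw [← polar_ap_left]; exact h _ ((hm _).2 (by rwa [ap_inv_ap])),
      fun h a ha => by rw [← ap_ap_inv g.1 a, polar_ap_left]; exact h _ ((hm a).1 ha)⟩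
  refine ⟨U.map (g.1.1 : V →ₗ[F] V), (hm _).2 (by rwa [ap_inv_ap]), fun x hx => ?_,
    fun x hx h => (hm x).2 (h3 _ (by rwa [Q_ap]) ((hp x).1 h)), ?_, fun x => ?_⟩
  · simpa using h2 _ ((hm x).1 hx)
  · rwa [← Nat.card_congr (g.1.1.submoduleMap U).toEquiv]
  · rw [fx_map_iff hv, h5, hp]

theorem T0.smul (hv : Q v = 0) (h : T0 Q ω v) (c : F) : T0 Q ω (c • v) := by
  by_cases hc : c = 0
  · intro x _
    rw [hc, zero_smul]
    refine ⟨polar_zero_left _ _, ?_⟩
    have : Ei Q 0 x = 1 := Subtype.ext (by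
      rw [Ei_coe (map_zero _) (polar_zero_left _ _), eich_of_zero]; rfl)
    rw [this, one_smul]
  intro x hx
  have hx' : polar Q v x = 0 := by simpa [polar_smul_left', hc] using hx
  exact (h (c • x) (by qsimp; rw [hx', mul_zero])).smul_left hv hx'

theorem PP.smul (hv : Q v = 0) (h : PP Q ω v y) {c : F} (hc : c ≠ 0) : PP Q ω (c • v) y := by
  refine ⟨by qsimp; rw [h.1, mul_zero], fun x hx hy => ?_⟩
  have hx' : polar Q v x = 0 := by simpa [polar_smul_left', hc] using hx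
  exact (h.2 (c • x) (by qsimp; rw [hx', mul_zero]) (by qsimp; rw [hy, mul_zero])).smul_left hv hx'

theorem PP.of_mem (h : PP Q ω v y) {y' : V} (h1 : polar Q v y' = 0)
    (h2 : y ∈ Submodule.span F {v, y'}) : PP Q ω v y' := by
  refine ⟨h1, fun x hx hy => h.2 x hx (polar_span ?_ h2)⟩
  rintro a (rfl | rfl) <;> assumption

theorem T0.opp {x' : V} (hv : Q v = 0) (hx : Q x = 0) (hx' : Q x' = 0) (h : T0 Q ω v)
    (h' : T0 Q ω x) (h1 : polar Q v x ≠ 0) (h2 : polar Q v x' ≠ 0) : T0 Q ω x' := by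
  obtain ⟨c, d, h3, hc, -, e⟩ := exists_eich_opp hv hx hx' h1 h2
  have hd : Q (d • x) = 0 := by qsimp; rw [hx, mul_zero]
  have := ((h'.smul hx d).map hd (Ei Q v (c • x' - d • x))).smul (by simpa using hd) c⁻¹
  rwa [(h _ h3).2, Ei_coe hv h3, e, smul_smul, inv_mul_cancel₀ hc, one_smul] at this

theorem T0.perp (hQ : ND Q) (hω : ∃ g : EG Q, g • ω ≠ ω) (hv : Q v = 0) (hx : Q x = 0)
    (h : T0 Q ω v) (h' : T0 Q ω x) : polar Q v x = 0 := by
  by_contra h1
  have hv0 : v ≠ 0 := by rintro rfl; exact h1 (polar_zero_left _ _)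
  have all : ∀ z, Q z = 0 → T0 Q ω z := by
    intro z hz
    by_cases hz0 : z = 0
    · simpa [hz0] using h.smul hv 0
    by_cases h2 : polar Q v z = 0
    · obtain ⟨t, ht, t1, t2⟩ := hQ.exists_sing_both_ne hv hv0 hz0 h2
      exact T0.opp ht hv hz (T0.opp hv hx ht h h' h1 t1) h (by rwa [polar_comm])
        (by rwa [polar_comm])
    · exact T0.opp hv hx hz h h' h1 h2
  obtain ⟨g, hg⟩ := hω
  have : EG Q ≤ (MulAction.stabilizer (EG Q) ω).map (EG Q).subtype :=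
    EG_le fun u t hu hut => ⟨Ei Q u t, (all u hu t hut).2, Ei_coe hu hut⟩
  obtain ⟨k, hk, e⟩ := this g.2
  exact hg (Subtype.ext e ▸ hk)

theorem T0.add (hQ : ND Q) (hω : ∃ g : EG Q, g • ω ≠ ω) (hv : Q v = 0) (hx : Q x = 0)
    (h : T0 Q ω v) (h' : T0 Q ω x) : T0 Q ω (v + x) := by
  by_cases hv0 : v = 0
  · simpa [hv0] using h'
  by_cases hm : ∃ c : F, x = c • v
  · obtain ⟨c, rfl⟩ := hm
    simpa [add_smul] using h.smul hv (1 + c)
  push Not at hm
  obtain ⟨t, t1, t2⟩ := hQ.exists_eq_eq hv0 hm 0 (-1)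
  have := h'.map hx (Ei Q v t)
  rwa [(h t t1).2, ap_Ei_of_perp hv t1 (T0.perp hQ hω hv hx h h'), t2, neg_one_smul,
    sub_neg_eq_add, add_comm] at this

variable [Finite F] [FiniteDimensional F V]

/-- If two independent Eichler groups fix `ω`, then the set of such centres is large. -/
theorem T0.big (hQ : ND Q) (h5 : 5 ≤ finrank F V) (hω : ∃ g : EG Q, g • ω ≠ ω) {N : ℕ}
    (ty : ∀ v, Q v = 0 → v ≠ 0 → T0 Q ω v ∨ T1 Q ω v ∨ T4 Q ω v ∨ T3 Q N ω v)
    {u u' : V} (hu : Q u = 0) (hu0 : u ≠ 0) (hu' : Q u' = 0) (h : T0 Q ω u) (h' : T0 Q ω u')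
    (hn : u' ∉ Submodule.span F {u}) :
    (∃ v, Q v = 0 ∧ v ≠ 0 ∧ T3 Q N ω v) ∧ N ≤ Nat.card {x : V // Q x = 0 ∧ T0 Q ω x} := by
  have : Finite V := Module.finite_of_finite F
  obtain ⟨v, hv, uv⟩ := hQ.exists_partner hu hu0
  have vu : polar Q v u = 1 := by rw [polar_comm, uv]
  have hv0 : v ≠ 0 := ne_zero_of_polar_eq_one vu
  have uu' := T0.perp hQ hω hu hu' h h'
  have add : ∀ a b, Q a = 0 ∧ T0 Q ω a → Q b = 0 ∧ T0 Q ω b → Q (a + b) = 0 ∧ T0 Q ω (a + b) :=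
    fun a b ha hb => ⟨by rw [Q_add, ha.1, hb.1, T0.perp hQ hω ha.1 hb.1 ha.2 hb.2]; ring,
      T0.add hQ hω ha.1 hb.1 ha.2 hb.2⟩
  have smul : ∀ (c : F) a, Q a = 0 ∧ T0 Q ω a → Q (c • a) = 0 ∧ T0 Q ω (c • a) :=
    fun c a ha => ⟨by qsimp; rw [ha.1, mul_zero], ha.2.smul ha.1 c⟩
  have dec : ∀ x, Fx Q ω v x → ∃ (s : V) (c : F), (Q s = 0 ∧ T0 Q ω s) ∧ polar Q s v = 0 ∧
      x = s + c • v := by
    intro x hx
    have h1 := h.map hu (Ei Q v x)
    rw [hx.2] at h1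
    have h2 := add _ _ ⟨by simpa using hu, h1⟩ (smul (-1) u ⟨hu, h⟩)
    rw [ap_Ei hv hx.1, uv] at h2
    refine ⟨_, polar Q u x + Q x, h2, ?_, by module⟩
    qsimp; rw [hv, uv, polar_comm Q x v, hx.1]; ring
  have sing : ∀ x, Fx Q ω v x → Q x = 0 := by
    intro x hx
    obtain ⟨s, c, h1, h2, rfl⟩ := dec x hx
    qsimp; rw [h1.1, h2, hv]; ring
  rcases ty v hv hv0 with t | ⟨y, -, t⟩ | t | t
  · obtain ⟨x, h1, h2⟩ := exists_nonsing_perp hQ {v} (by simp; omega)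
    exact (h1 (sing x (t x (h2 v (by simp))))).elim
  · obtain ⟨x, h1, h2⟩ := exists_nonsing_perp hQ {v, y}
      (by have := Finset.card_le_two (a := v) (b := y); omega)
    exact (h1 (sing x (t.2 x (h2 v (by simp)) (h2 y (by simp))))).elim
  · have h1 := add _ _ ⟨hu', h'⟩ (smul (-polar Q u' v) u ⟨hu, h⟩)
    have h2 := (h1.2 v (by qsimp; rw [uv]; ring)).swap h1.1 hv
    obtain ⟨c, hc⟩ := Submodule.mem_span_singleton.1 (t _ h2)
    have h3 := congrArg (polar Q u) hc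
    qsimp at h3
    rw [uv, uu', hu] at h3
    have h4 : c = 0 := by linear_combination h3
    rw [h4, zero_smul] at hc
    refine (hn (Submodule.mem_span_singleton.2 ⟨polar Q u' v, ?_⟩)).elim
    rw [neg_smul, eq_comm, add_neg_eq_zero] at hc
    exact hc.symm
  · refine ⟨⟨v, hv, hv0, t⟩, ?_⟩
    obtain ⟨U, h1, h2, h3, h4, h5⟩ := t
    have := fun x : U => dec x ((h5 x).2 fun a ha =>
      polar_of_sing (h2 a ha) (h2 x x.2) (h2 _ (U.add_mem ha x.2)))
    choose s c h6 h7 h8 using this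
    refine h4.trans (Nat.card_le_card_of_injective
      (fun x : U => (⟨s x + c x • u, add _ _ (h6 x) (smul _ u ⟨hu, h⟩)⟩ :
        {x : V // Q x = 0 ∧ T0 Q ω x})) fun a b hab => ?_)
    have e : s a + c a • u = s b + c b • u := congrArg Subtype.val hab
    have e1 := congrArg (fun t => polar Q t v) e
    qsimp at e1
    rw [h7, h7, uv, zero_add, zero_add, mul_one, mul_one] at e1
    rw [e1, add_left_inj] at e
    exact Subtype.ext (by rw [h8 a, h8 b, e, e1])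

theorem PP.uniq (hQ : ND Q) (hv : Q v = 0) (h0 : ¬ T0 Q ω v) {y' : V} (h : PP Q ω v y)
    (h' : PP Q ω v y') : y' ∈ Submodule.span F {v, y} ∨ y ∈ Submodule.span F {v} := by
  by_contra hc
  push Not at hc
  refine h0 fun x hx => ?_
  obtain ⟨t, t1, t2⟩ := exists_polar_one hQ hc.1 (polar Q y' x)
  have a1 := h.2 t (t2 v (by simp)) (t2 y (by simp))
  have a2 := h'.2 (x - t) (by qsimp; rw [hx, t2 v (by simp), sub_zero])
    (by qsimp; rw [t1, sub_self])
  simpa using a1.add hv a2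

/-- All Eichler transformations fixing the non-singular vector `y` fix `ω`. -/
def Good (Q : QuadraticForm F V) {Ω : Type*} [MulAction (EG Q) Ω] (ω : Ω) (y : V) : Prop :=
  Q y ≠ 0 ∧ ∀ v, Q v = 0 → v ≠ 0 → polar Q v y = 0 → PP Q ω v y

omit [Finite F] [FiniteDimensional F V] in
theorem Good.map (h : Good Q ω y) (g : EG Q) : Good Q (g • ω) (ap g.1 y) := by
  refine ⟨by simpa using h.1, fun v hv hv0 hvy => ?_⟩
  have := (h.2 (ap g.1⁻¹ v) (by simpa using hv) (by simpa [ap_eq_zero] using hv0)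
    (by rwa [← polar_ap_right])).map (by simpa using hv) g
  rwa [ap_ap_inv] at this

omit [Finite F] [FiniteDimensional F V] in
theorem not_mem_span_of_Q (hv : Q v = 0) (hy : Q y ≠ 0) : y ∉ Submodule.span F {v} := by
  intro h
  obtain ⟨c, rfl⟩ := Submodule.mem_span_singleton.1 h
  exact hy (by qsimp; rw [hv, mul_zero])

theorem Good.uniq (hQ : ND Q) (h7 : 7 ≤ finrank F V) (h0 : ∀ v, Q v = 0 → v ≠ 0 → ¬ T0 Q ω v)
    {y' : V} (h : Good Q ω y) (h' : Good Q ω y') : y' ∈ Submodule.span F {y} := by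
  obtain ⟨e, f, he, hf, hef, h1, h2⟩ := exists_hyp_perp hQ {y, y'}
    (by have := Finset.card_le_two (a := y) (b := y'); omega)
  have he0 := ne_zero_of_polar_eq_one hef
  rcases PP.uniq hQ he (h0 e he he0) (h.2 e he he0 (by rw [polar_comm]; exact h1 y (by simp)))
    (h'.2 e he he0 (by rw [polar_comm]; exact h1 y' (by simp))) with h3 | h3
  · obtain ⟨a, b, rfl⟩ := Submodule.mem_span_pair.1 h3
    have h4 := h2 (a • e + b • y) (by simp)
    qsimp at h4
    rw [hef, h2 y (by simp)] at h4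
    have h5 : a = 0 := by linear_combination h4
    exact Submodule.mem_span_singleton.2 ⟨b, by rw [h5, zero_smul, zero_add]⟩
  · exact (not_mem_span_of_Q he h.1 h3).elim

end Cfsg.Agent.H66
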