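import Cfsg.Agent.H66.OrthT0

/-!
A point stabiliser containing a hyperplane of an Eichler group, but no full Eichler group,
contains all Eichler transformations fixing some non-singular vector.
-/

set_option autoImplicit false
set_option linter.unusedSectionVars false

namespace Cfsg.Agent.H66

open Module QuadraticMap Cfsg.Agent.H11 Classical

variable {F V : Type*} [Field F] [AddCommGroup V] [Module F V] {Q : QuadraticForm F V}
variable {Ω : Type*} [MulAction (EG Q) Ω] {ω : Ω}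

theorem not_mem_span_swap {v w : V} (hv : v ≠ 0) (h : w ∉ Submodule.span F {v}) :
    v ∉ Submodule.span F {w} := by
  intro h'
  obtain ⟨c, rfl⟩ := Submodule.mem_span_singleton.1 h'
  have hc : c ≠ 0 := by rintro rfl; exact hv (zero_smul _ _)
  exact h (Submodule.mem_span_singleton.2 ⟨c⁻¹, by rw [smul_smul, inv_mul_cancel₀ hc, one_smul]⟩)

theorem ne_zero_of_not_mem {U : Submodule F V} {v : V} (h : v ∉ U) : v ≠ 0 := by
  rintro rfl; exact h U.zero_mem

theorem PP.move {v y a b d : V} {c c' : F} (ha : Q a = 0) (hb : Q b = 0) (hd : Q d = 0)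
    (bv : polar Q v b = 0) (dv : polar Q v d = 0) (yb : polar Q y b = 0) (yd : polar Q y d = 0)
    (av : polar Q v a = 0) (ya : polar Q y a = 0)
    (h : PP Q ω a (y + c • v)) (h' : PP Q ω b (y + c' • v)) (h1 : polar Q a b ≠ 0)
    (h2 : polar Q a d ≠ 0) : PP Q ω d (y + c' • v) := by
  obtain ⟨s, t, h3, hs, ht, e⟩ := exists_eich_opp ha hb hd h1 h2
  have hF := h.2 _ h3 (by qsimp; rw [bv, dv, yb, yd]; ring)
  have := ((h'.smul hb ht).map (by qsimp; rw [hb, mul_zero]) (Ei Q a (s • d - t • b)))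
  rw [hF.2, ap_Ei_fix (y := y + c' • v) ha h3
    (by qsimp; rw [polar_comm Q a y, polar_comm Q a v, av, ya]; ring)
    (by qsimp; rw [bv, dv, yb, yd]; ring), Ei_coe ha h3, e] at this
  have h4 := this.smul (by qsimp; rw [hd, mul_zero]) (inv_ne_zero hs)
  rwa [smul_smul, inv_mul_cancel₀ hs, one_smul] at h4

variable [Finite F] [FiniteDimensional F V]

section

variable (hQ : ND Q) (h0 : ∀ v, Q v = 0 → v ≠ 0 → ¬ T0 Q ω v)
  (h1 : ∀ v, Q v = 0 → v ≠ 0 → T1 Q ω v ∨ T4 Q ω v)
include hQ h0 h1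

theorem PP.step {v y w : V} (hv : Q v = 0) (hv0 : v ≠ 0) (h : PP Q ω v y) (hw : Q w = 0)
    (vw : polar Q v w = 0) (yw : polar Q y w = 0) (hwv : w ∉ Submodule.span F {v}) :
    ∃ y', y' ∉ Submodule.span F {w} ∧ PP Q ω w y' ∧ y' ∈ Submodule.span F {v, y, w} := by
  have hw0 := ne_zero_of_not_mem hwv
  have hvw := not_mem_span_swap hv0 hwv
  have a1 : ∀ c : F, Fx Q ω w (c • v) := fun c =>
    ((h.2 (c • w) (by qsimp; rw [vw, mul_zero]) (by qsimp; rw [yw, mul_zero])).smul_left hv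
      vw).swap (by qsimp; rw [hv, mul_zero]) hw
  obtain ⟨y', n1, p1⟩ := (h1 w hw hw0).resolve_right fun h4 => hvw (h4 v (by simpa using a1 1))
  refine ⟨y', n1, p1, ?_⟩
  have a2 : polar Q v y' = 0 := by
    by_contra hn
    refine h0 w hw hw0 fun x hx => ?_
    have := (p1.2 (x - (polar Q y' x / polar Q v y') • v)
      (by qsimp; rw [hx, polar_comm Q w v, vw]; ring)
      (by qsimp; rw [polar_comm Q y' v]; field_simp; ring)).add hw
      (a1 (polar Q y' x / polar Q v y'))
    simpa using this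
  by_cases hm : v ∈ Submodule.span F {w, y'}
  · obtain ⟨a, b, e⟩ := Submodule.mem_span_pair.1 hm
    have hb : b ≠ 0 := by
      rintro rfl
      exact hvw (Submodule.mem_span_singleton.2 ⟨a, by simpa using e⟩)
    refine Submodule.mem_span_triple.2 ⟨b⁻¹, 0, -(b⁻¹ * a), ?_⟩
    rw [← e]
    match_scalars <;> field_simp <;> ring
  refine mem_span_of_perp hQ fun x hx => ?_
  have x1 := hx v (by simp)
  have x2 := hx y (by simp)
  have x3 := hx w (by simp)
  have p2 := p1.map hw (Ei Q v x)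
  rw [(h.2 x x1 x2).2, ap_Ei_fix hv x1 vw x3, ap_Ei_of_perp hv x1 a2] at p2
  have := (PP.uniq hQ hw (h0 w hw hw0) p1 p2).resolve_right n1
  have h2 := Submodule.sub_mem _ (Submodule.subset_span (by simp) :
    y' ∈ Submodule.span F {w, y'}) this
  rw [sub_sub_cancel] at h2
  by_contra hn
  exact hm ((Submodule.smul_mem_iff _ hn).1 h2)

theorem PP.line {v y w : V} (hv : Q v = 0) (hv0 : v ≠ 0) (h : PP Q ω v y) (hw : Q w = 0)
    (hwl : w ∈ Submodule.span F {v, y}) (hwv : w ∉ Submodule.span F {v}) : PP Q ω w v := by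
  obtain ⟨a, b, rfl⟩ := Submodule.mem_span_pair.1 hwl
  have hb : b ≠ 0 := by
    rintro rfl
    exact hwv (Submodule.mem_span_singleton.2 ⟨a, by simp⟩)
  have hy : Q y = 0 := by
    have := hw
    qsimp at this
    rw [hv, h.1] at this
    simpa [hb] using this
  have vw : polar Q v (a • v + b • y) = 0 := by qsimp; rw [hv, h.1]; ring
  obtain ⟨y', -, p1, m1⟩ := PP.step hQ h0 h1 hv hv0 h hw vw
    (by qsimp; rw [hy, polar_comm Q y v, h.1]; ring) hwv
  refine p1.of_mem (by rwa [polar_comm]) ?_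
  obtain ⟨c, d, e, rfl⟩ := Submodule.mem_span_triple.1 m1
  refine Submodule.mem_span_pair.2 ⟨e + d * b⁻¹, c - d * b⁻¹ * a, ?_⟩
  match_scalars <;> field_simp <;> ring

theorem PP.step3 {v y w : V} (hv : Q v = 0) (hv0 : v ≠ 0) (hy : y ∉ Submodule.span F {v})
    (h : PP Q ω v y) (hw : Q w = 0) (vw : polar Q v w = 0) (yw : polar Q y w = 0)
    (hwv : w ∉ Submodule.span F {v, y}) : Q y ≠ 0 ∧ ∃ c : F, PP Q ω w (y + c • v) := by
  have hwv' := not_mem_span_of_pair hwv
  have hw0 := ne_zero_of_not_mem hwv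
  have hvw := not_mem_span_swap hv0 hwv'
  obtain ⟨y', n1, p1, m1⟩ := PP.step hQ h0 h1 hv hv0 h hw vw yw hwv'
  obtain ⟨a, b, c, rfl⟩ := Submodule.mem_span_triple.1 m1
  have hb : b ≠ 0 := by
    rintro rfl
    have p2 : PP Q ω w v := p1.of_mem (by rwa [polar_comm])
      (Submodule.mem_span_pair.2 ⟨c, a, by module⟩)
    have p3 := PP.line hQ h0 h1 hw hw0 p2 hv (Submodule.subset_span (by simp)) hvw
    exact (PP.uniq hQ hv (h0 v hv hv0) h p3).elim hwv hy
  have p2 : PP Q ω w (y + (b⁻¹ * a) • v) := p1.of_mem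
    (by qsimp; rw [polar_comm Q w y, polar_comm Q w v, vw, yw]; ring)
    (Submodule.mem_span_pair.2 ⟨c, b, by match_scalars <;> field_simp⟩)
  refine ⟨fun hQy => ?_, _, p2⟩
  set t := y + (b⁻¹ * a) • v with ht
  have t1 : Q t = 0 := by rw [ht]; qsimp; rw [hQy, hv, polar_comm Q y v, h.1]; ring
  have t2 : t ∈ Submodule.span F {v, y} := Submodule.mem_span_pair.2 ⟨b⁻¹ * a, 1, by
    rw [ht]; module⟩
  have t3 : t ∉ Submodule.span F {v} := fun h => hy (by
    simpa [ht] using Submodule.sub_mem _ h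
      (Submodule.smul_mem _ (b⁻¹ * a) (Submodule.mem_span_singleton_self v)))
  have t0 := ne_zero_of_not_mem t3
  have t4 : t ∉ Submodule.span F {w} := not_mem_span_swap t0 fun h =>
    hwv ((Submodule.span_singleton_le_iff_mem _ _).2 t2 h)
  have p3 := PP.line hQ h0 h1 hv hv0 h t1 t2 t3
  have p4 := PP.line hQ h0 h1 hw hw0 p2 t1 (Submodule.subset_span (by simp)) t4
  rcases PP.uniq hQ t1 (h0 t t1 t0) p3 p4 with h5 | h5
  · exact hwv (Submodule.span_le.2 (Set.pair_subset t2 (Submodule.subset_span (by simp))) h5)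
  · exact not_mem_span_swap hv0 t3 h5

omit h1 in
theorem PP.uniq_coeff {v y w : V} {c c' : F} (hv : Q v = 0) (hv0 : v ≠ 0) (hy : Q y ≠ 0)
    (vy : polar Q v y = 0) (hw : Q w = 0) (hwv : w ∉ Submodule.span F {v, y})
    (h : PP Q ω w (y + c • v)) (h' : PP Q ω w (y + c' • v)) : c = c' := by
  rcases PP.uniq hQ hw (h0 w hw (ne_zero_of_not_mem hwv)) h h' with h2 | h2
  · obtain ⟨a, b, e⟩ := Submodule.mem_span_pair.1 h2
    have ha : a = 0 := by
      by_contra ha
      refine hwv ((Submodule.smul_mem_iff _ ha).1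
        (Submodule.mem_span_pair.2 ⟨c' - b * c, 1 - b, ?_⟩))
      rw [← eq_sub_iff_add_eq] at e
      rw [e]
      module
    rw [ha, zero_smul, zero_add] at e
    have hb : b = 1 := by
      by_contra hb
      refine not_mem_span_of_Q hv hy ((Submodule.smul_mem_iff _ (sub_ne_zero.2 hb)).1
        (Submodule.mem_span_singleton.2 ⟨c' - b * c, ?_⟩))
      rw [sub_smul b, one_smul, eq_sub_iff_add_eq, sub_smul, add_comm, ← add_sub_assoc, ← e]
      module
    rw [hb, one_smul, add_right_inj] at e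
    exact smul_left_injective F hv0 e
  · exact (not_mem_span_of_Q hw (by qsimp; rw [hv, polar_comm Q y v, vy]; simpa using hy) h2).elim

omit hQ h0 h1 in
theorem not_mem_pair_of_sing {v y w : V} (hv : Q v = 0) (hy : Q y ≠ 0) (vy : polar Q v y = 0)
    (hw : Q w = 0) (hwv : w ∉ Submodule.span F {v}) : w ∉ Submodule.span F {v, y} := by
  intro h
  obtain ⟨a, b, rfl⟩ := Submodule.mem_span_pair.1 h
  qsimp at hw
  rw [hv, vy] at hw
  have hb : b = 0 := by simpa [hy] using hw
  exact hwv (Submodule.mem_span_singleton.2 ⟨a, by simp [hb]⟩)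

theorem PP.nbr (h7 : 7 ≤ finrank F V) {v y : V} (hv : Q v = 0) (hv0 : v ≠ 0)
    (hy : y ∉ Submodule.span F {v}) (h : PP Q ω v y) : Q y ≠ 0 ∧ ∃ c : F, ∀ w, Q w = 0 →
      polar Q v w = 0 → polar Q y w = 0 → w ∉ Submodule.span F {v} → PP Q ω w (y + c • v) := by
  obtain ⟨e, f, he, hf, ef, p1, p2⟩ := exists_hyp_perp hQ {v, y}
    (by have := Finset.card_le_two (a := v) (b := y); omega)
  have ve := p1 v (by simp)
  have ye := p1 y (by simp)
  have vf := p2 v (by simp)
  have yf := p2 y (by simp)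
  have fe : polar Q f e = 1 := by rw [polar_comm, ef]
  have nm : ∀ {a b : V}, polar Q a b ≠ 0 → polar Q v b = 0 → polar Q y b = 0 →
      a ∉ Submodule.span F {v, y} := fun hab hb hb' h =>
    hab (polar_span (by rintro a (rfl | rfl) <;> assumption) h)
  obtain ⟨hQy, c, pe⟩ := PP.step3 hQ h0 h1 hv hv0 hy h he ve ye (nm (by simp [ef]) vf yf)
  obtain ⟨-, c', pf⟩ := PP.step3 hQ h0 h1 hv hv0 hy h hf vf yf (nm (by simp [fe]) ve ye)
  have hc : c' = c := by
    let S := hypSplit he hf ef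
    have hd := S.finrank_eq
    obtain ⟨s, s1, s2⟩ := exists_nonsing_perp (S.nd hQ) {S.p v, S.p y}
      (by have := Finset.card_le_two (a := S.p v) (b := S.p y); omega)
    have s3 := s2 (S.p v) (by simp)
    have s4 := s2 (S.p y) (by simp)
    rw [S.polar_p] at s3 s4
    rw [← S.Qj] at s1
    have s5 : polar Q e (S.j s) = 0 := S.uj s
    have s6 : polar Q f (S.j s) = 0 := S.wj s
    generalize S.j s = t at *
    have g1 : Q (f + t - Q t • e) = 0 := by
      qsimp; rw [he, hf, fe, s6, polar_comm Q t e, s5]; ring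
    have g2 : polar Q v (f + t - Q t • e) = 0 := by qsimp; rw [vf, s3, ve]; ring
    have g3 : polar Q y (f + t - Q t • e) = 0 := by qsimp; rw [yf, s4, ye]; ring
    have g4 : polar Q e (f + t - Q t • e) ≠ 0 := by qsimp; rw [he, ef, s5]; simp
    have g5 : polar Q f (f + t - Q t • e) ≠ 0 := by qsimp; rw [hf, fe, s6]; simpa using s1
    exact PP.uniq_coeff hQ h0 hv hv0 hQy h.1 g1 (nm (by rwa [polar_comm]) ve ye)
      (PP.move he hf g1 vf g2 yf g3 ve ye pe pf (by simp [ef]) g4)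
      (PP.move hf he g1 ve g2 ye g3 vf yf pf pe (by simp [fe]) g5)
  subst hc
  refine ⟨hQy, c', fun w hw vw yw hwv => ?_⟩
  by_cases a1 : polar Q e w = 0
  swap
  · exact PP.move he hf hw vf vw yf yw ve ye pe pf (by simp [ef]) a1
  by_cases a2 : polar Q f w = 0
  swap
  · exact PP.move hf he hw ve vw ye yw vf yf pf pe (by simp [fe]) a2
  obtain ⟨s, s1, s2⟩ := exists_polar_one hQ (not_mem_pair_of_sing hv hQy h.1 hw hwv) 1
  have s3 := s2 v (by simp)
  have s4 := s2 y (by simp)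
  set t := s + (1 - polar Q e s) • f with ht
  have t1 : polar Q e t = 1 := by rw [ht]; qsimp; rw [ef]; ring
  have t2 : polar Q w t = 1 := by rw [ht]; qsimp; rw [s1, polar_comm Q w f, a2]; ring
  have t3 : polar Q v t = 0 := by rw [ht]; qsimp; rw [s3, vf]; ring
  have t4 : polar Q y t = 0 := by rw [ht]; qsimp; rw [s4, yf]; ring
  have g1 : Q (t - Q t • e) = 0 := by qsimp; rw [he, polar_comm Q t e, t1]; ring
  have g2 : polar Q v (t - Q t • e) = 0 := by qsimp; rw [t3, ve]; ring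
  have g3 : polar Q y (t - Q t • e) = 0 := by qsimp; rw [t4, ye]; ring
  have g4 : polar Q e (t - Q t • e) ≠ 0 := by qsimp; rw [he, t1]; simp
  have g5 : polar Q w (t - Q t • e) ≠ 0 := by qsimp; rw [t2, polar_comm Q w e, a1]; simp
  exact PP.move g1 he hw ve vw ye yw g2 g3
    (PP.move he hf g1 vf g2 yf g3 ve ye pe pf (by simp [ef]) g4) pe (by rwa [polar_comm])
    (by rwa [polar_comm])

theorem exists_good (h7 : 7 ≤ finrank F V) {v : V} (hv : Q v = 0) (hv0 : v ≠ 0)
    (h : T1 Q ω v) : ∃ y, Good Q ω y := by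
  obtain ⟨y, hy, h⟩ := h
  obtain ⟨hQy, c, hc⟩ := PP.nbr hQ h0 h1 h7 hv hv0 hy h
  set z := y + c • v with hz
  have z1 : Q z ≠ 0 := by rw [hz]; qsimp; rw [hv, polar_comm Q y v, h.1]; simpa using hQy
  have z2 : polar Q v z = 0 := by rw [hz]; qsimp; rw [hv, h.1]; ring
  have pv : PP Q ω v z := h.of_mem z2 (Submodule.mem_span_pair.2 ⟨-c, 1, by rw [hz]; module⟩)
  have near : ∀ x, Q x = 0 → x ≠ 0 → polar Q v x = 0 → polar Q x z = 0 → PP Q ω x z := by
    intro x hx hx0 vx xz
    by_cases hm : x ∈ Submodule.span F {v}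
    · obtain ⟨d, rfl⟩ := Submodule.mem_span_singleton.1 hm
      exact pv.smul hv (by rintro rfl; exact hx0 (zero_smul _ _))
    · refine hc x hx vx ?_ hm
      rw [hz] at xz
      qsimp at xz
      rw [polar_comm Q x v, vx, polar_comm] at xz
      simpa using xz
  refine ⟨z, z1, fun x hx hx0 xz => ?_⟩
  by_cases vx : polar Q v x = 0
  · exact near x hx hx0 vx xz
  obtain ⟨w, hw0, hw, p⟩ := exists_sing_perp hQ {v, x, z}
    (by have := Finset.card_le_three (a := v) (b := x) (c := z); omega)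
  have w1 := p v (by simp)
  have w2 := p x (by simp)
  have w3 := p z (by simp)
  have pw := near w hw hw0 w1 (by rwa [polar_comm])
  have nm : ∀ {a b : V}, polar Q a b ≠ 0 → polar Q b w = 0 → a ∉ Submodule.span F {w} :=
    fun hab hb h => hab (polar_span (by rintro a rfl; rwa [polar_comm]) h)
  obtain ⟨-, d, hd⟩ := PP.nbr hQ h0 h1 h7 hw hw0 (not_mem_span_of_Q hw z1) pw
  have hd0 : d = 0 := PP.uniq_coeff hQ h0 hw hw0 z1 pw.1 hv
    (not_mem_pair_of_sing hw z1 pw.1 hv (nm vx w2))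
    (hd v hv (by rwa [polar_comm]) (by rwa [polar_comm]) (nm vx w2)) (by simpa using pv)
  simpa [hd0] using hd x hx (by rwa [polar_comm]) (by rwa [polar_comm])
    (nm (by rwa [polar_comm]) w1)

end

end Cfsg.Agent.H66
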