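import Cfsg.Agent.H66.OrthT1

/-!
An Eichler group cannot act regularly; the stabilisers cannot all be given by maximal totally
singular subspaces when the field has at least four elements.
-/

set_option autoImplicit false
set_option linter.unusedSectionVars false

namespace Cfsg.Agent.H66

open Module QuadraticMap Cfsg.Agent.H11 Classical

variable {F V : Type*} [Field F] [AddCommGroup V] [Module F V] {Q : QuadraticForm F V}
variable [Finite F] [FiniteDimensional F V]

/-- A cocycle of `Ω(Q)` in the natural module is a coboundary on some Eichler transformation. -/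
theorem no_cocycle (hQ : ND Q) (h5 : 5 ≤ finrank F V) (a : EG Q → V)
    (ha : ∀ g g', a (g * g') = ap g'.1⁻¹ (a g) + a g')
    (hn : ∀ x t r, Q x = 0 → x ≠ 0 → polar Q x t = 0 → t ∉ Submodule.span F {x} →
      a (Ei Q x t) ≠ r - ap (Ei Q x t).1⁻¹ r) : False := by
  have a1 : a 1 = 0 := by simpa using ha 1 1
  have inv : ∀ {x t : V}, Q x = 0 → polar Q x t = 0 → ∀ y, ap (Ei Q x t).1⁻¹ y =
      y - polar Q y x • t + polar Q y t • x - (Q t * polar Q y x) • x := by
    intro x t hx xt y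
    rw [← Subgroup.coe_inv, ← Ei_neg hx xt, ap_Ei hx (by qsimp; rw [xt, neg_zero])]
    qsimp
    module
  obtain ⟨x, hx, hx0⟩ := exists_sing Q (by omega)
  have xx : polar Q x x = 0 := by qsimp; rw [hx, mul_zero]
  have b0 : ∀ t, polar Q x t = 0 → polar Q (a (Ei Q x t)) x = 0 := by
    intro t xt
    obtain ⟨t', m1, m2⟩ := exists_not_mem_of_finrank_lt (F := F) {x, t}
      (H28.perp Q (Submodule.span F (({x} : Finset V) : Set V))) (by
        have := finrank_perp_ge hQ {x}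
        have := Finset.card_le_two (a := x) (b := t)
        simp at *
        omega)
    have xt' : polar Q x t' = 0 := mem_perp_span.1 m1 x (by simp)
    obtain ⟨l, l1, l2⟩ := exists_polar_one hQ m2 1
    have h1 := ha (Ei Q x t) (Ei Q x t')
    rw [← Ei_add hx xt xt', add_comm, Ei_add hx xt' xt, ha, inv hx xt, inv hx xt'] at h1
    have := congrArg (fun y => polar Q y l) h1
    qsimp at this
    rw [l1, l2 x (by simp), l2 t (by simp)] at this
    linear_combination this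
  have comm : ∀ t, polar Q x t = 0 → ∀ g : EG Q, ap g.1 x = x → ap g.1 t = t → ∃ c : F,
      ap g.1⁻¹ (a (Ei Q x t)) = a (Ei Q x t) - polar Q (a g) x • t + c • x := by
    intro t xt g gx gt
    have h1 := Ei_conj g hx xt
    rw [gx, gt, mul_inv_eq_iff_eq_mul] at h1
    have h2 := ha g (Ei Q x t)
    rw [h1, ha, inv hx xt] at h2
    refine ⟨polar Q (a g) t - Q t * polar Q (a g) x, ?_⟩
    rw [← eq_sub_iff_add_eq] at h2
    rw [h2]
    module
  have fin : ∀ t, polar Q x t = 0 → Q t ≠ 0 → ¬ ∀ y, polar Q x y = 0 → polar Q t y = 0 →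
      polar Q (a (Ei Q x t)) y = 0 := by
    intro t xt ht h
    have m := not_mem_span_of_Q hx ht
    obtain ⟨c, d, e⟩ := Submodule.mem_span_pair.1 (mem_span_of_perp (s := {x, t}) hQ fun y hy =>
      h y (hy x (by simp)) (hy t (by simp)))
    obtain ⟨r, r1, r2⟩ := hQ.exists_eq_eq hx0
      (fun c h => m (Submodule.mem_span_singleton.2 ⟨c, h.symm⟩)) d (Q t * d - c)
    refine hn x t r hx hx0 xt m ?_
    rw [inv hx xt, polar_comm Q r x, polar_comm Q r t, r1, r2, ← e]
    module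
  by_cases h2 : (2 : F) = 0
  · obtain ⟨t, ht, xt⟩ := exists_nonsing_perp hQ {x} (by simp; omega)
    replace xt := xt x (by simp)
    have tt : polar Q t t = 0 := by qsimp; rw [h2, zero_mul]
    have bt : polar Q (a (Ei Q x t)) t = 0 := by
      have h1 := ha (Ei Q x t) (Ei Q x t)
      rw [← Ei_add hx xt xt, ← two_smul F t, h2, zero_smul, Ei_zero hx, a1, inv hx xt,
        b0 t xt] at h1
      have h3 : polar Q (a (Ei Q x t)) t • x = -((2 : F) • a (Ei Q x t)) := by
        rw [eq_neg_iff_add_eq_zero, h1]; module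
      rw [h2, zero_smul, neg_zero] at h3
      exact (smul_eq_zero.1 h3).resolve_right hx0
    refine fin t xt ht fun y xy ty => ?_
    obtain ⟨c, hc⟩ := exists_sq_of_two_eq_zero h2 (Q y / Q t)
    have he : Q (y + c • t) = 0 := by
      qsimp; rw [hc, polar_comm Q y t, ty]; field_simp; linear_combination Q y * h2
    have xe : polar Q x (y + c • t) = 0 := by qsimp; rw [xy, xt]; ring
    have te : polar Q t (y + c • t) = 0 := by rw [polar_add_right, polar_smul_right', ty, tt]; ring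
    suffices polar Q (a (Ei Q x t)) (y + c • t) = 0 by
      rw [polar_add_right, polar_smul_right', bt] at this
      simpa using this
    generalize y + c • t = e at he xe te
    have et : polar Q e t = 0 := by rwa [polar_comm]
    by_cases hm : e ∈ Submodule.span F {x, t}
    · rw [polar_comm]
      exact polar_span (by
        rintro s (rfl | rfl)
        · rw [polar_comm]; exact b0 t xt
        · rw [polar_comm]; exact bt) hm
    obtain ⟨l, l1, l2⟩ := exists_polar_one hQ hm 1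
    obtain ⟨d, hd⟩ := comm t xt (Ei Q e t) (ap_Ei_fix he et (by rwa [polar_comm]) xt)
      (ap_Ei_fix he et et tt)
    rw [inv he et] at hd
    have := congrArg (fun y => polar Q y l) hd
    qsimp at this
    rw [l1, l2 x (by simp), l2 t (by simp), bt] at this
    have h3 : Q t * polar Q (a (Ei Q x t)) e = 0 := by linear_combination -this
    exact (mul_eq_zero.1 h3).resolve_left ht
  obtain ⟨e, f, he, hf, ef, p1, p2⟩ := exists_hyp_perp hQ {x} (by simpa using h5)
  have xe := p1 x (by simp)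
  have xf := p2 x (by simp)
  have fe : polar Q f e = 1 := by rw [polar_comm, ef]
  obtain ⟨s, s1, s3, s5, s6⟩ : ∃ s, Q s ≠ 0 ∧ polar Q x s = 0 ∧ polar Q e s = 0 ∧
      polar Q f s = 0 := by
    let S := hypSplit he hf ef
    have hd := S.finrank_eq
    obtain ⟨s, s1, s2⟩ := exists_nonsing_perp (S.nd hQ) {S.p x} (by simp; omega)
    have s3 := s2 (S.p x) (by simp)
    rw [S.polar_p] at s3
    exact ⟨S.j s, by rwa [S.Qj], s3, S.uj s, S.wj s⟩
  set t := Q s • e - f with ht
  set b := Q s • e + f with hb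
  have t1 : Q t = -Q s := by rw [ht]; qsimp; rw [he, hf, ef]; ring
  have b1 : Q b = Q s := by rw [hb]; qsimp; rw [he, hf, ef]; ring
  have xt : polar Q x t = 0 := by rw [ht]; qsimp; rw [xe, xf]; ring
  have xb : polar Q x b = 0 := by rw [hb]; qsimp; rw [xe, xf]; ring
  have tb : polar Q t b = 0 := by rw [ht, hb]; qsimp; rw [he, hf, ef, fe]; ring
  have ts : polar Q t s = 0 := by rw [ht]; qsimp; rw [s5, s6]; ring
  have bs : polar Q b s = 0 := by rw [hb]; qsimp; rw [s5, s6]; ring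
  have L : ∀ c d, Q c ≠ 0 → Q c = Q d → polar Q c d = 0 → polar Q x c = 0 → polar Q x d = 0 →
      polar Q t c = 0 → polar Q t d = 0 → polar Q (a (Ei Q x t)) c = 0 := by
    intro c d hc cd pcd xc xd tc td
    let g : EG Q := ⟨refl Q c * refl Q d, hQ.omega_eq h5 ▸ hQ.refl_mul_refl_mem hc cd⟩
    have g1 : ap g.1 x = x := by
      show ap (refl Q c * refl Q d) x = x
      rw [ap_mul, ap_refl_of_perp xd, ap_refl_of_perp xc]
    have g2 : ap g.1 t = t := by
      show ap (refl Q c * refl Q d) t = t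
      rw [ap_mul, ap_refl_of_perp td, ap_refl_of_perp tc]
    have g3 : ap g.1 c = -c := by
      show ap (refl Q c * refl Q d) c = -c
      rw [ap_mul, ap_refl_of_perp pcd, ap_refl_self hc]
    have g4 : g * g = 1 := Subtype.ext (by
      show refl Q c * refl Q d * (refl Q c * refl Q d) = 1
      nth_rewrite 2 [refl_comm pcd]
      rw [mul_assoc, ← mul_assoc (refl Q d), refl_mul_self, one_mul, refl_mul_self])
    have h1 := congrArg (fun y => polar Q y x) (ha g g)
    simp only [g4, a1, polar_zero_left, polar_add_left, ← polar_ap_right, g1] at h1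
    have h3 : polar Q (a g) x = 0 := by
      have : 2 * polar Q (a g) x = 0 := by linear_combination -h1
      exact (mul_eq_zero.1 this).resolve_left h2
    obtain ⟨r, hr⟩ := comm t xt g g1 g2
    have h4 := congrArg (fun y => polar Q y c) hr
    simp only [← polar_ap_right, g3] at h4
    qsimp at h4
    rw [h3, xc] at h4
    have : 2 * polar Q (a (Ei Q x t)) c = 0 := by linear_combination -h4
    exact (mul_eq_zero.1 this).resolve_left h2
  have hb0 : Q b ≠ 0 := by rwa [b1]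
  have L1 := L s b s1 b1.symm (by rwa [polar_comm]) s3 xb ts tb
  have L2 := L b s hb0 b1 bs xb s3 tb ts
  refine fin t xt (by rw [t1]; exact neg_ne_zero.2 s1) fun y xy ty => ?_
  obtain ⟨i, hi⟩ : ∃ i, 2 * Q s * i = 1 := ⟨_, mul_inv_cancel₀ (mul_ne_zero h2 s1)⟩
  set z := y - (i * polar Q s y) • s - (i * polar Q b y) • b with hz
  have z1 : polar Q x z = 0 := by rw [hz]; qsimp; rw [xy, s3, xb]; ring
  have z2 : polar Q t z = 0 := by rw [hz]; qsimp; rw [ty, ts, tb]; ring
  have z3 : polar Q z s = 0 := by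
    rw [hz]; qsimp; rw [bs, polar_comm Q y s]; linear_combination -polar Q s y * hi
  have z4 : polar Q z b = 0 := by
    rw [hz]; qsimp; rw [polar_comm Q s b, bs, polar_comm Q y b, b1]
    linear_combination -polar Q b y * hi
  suffices polar Q (a (Ei Q x t)) z = 0 by
    rw [hz] at this
    qsimp at this
    rw [L1, L2] at this
    simpa using this
  clear_value z
  by_cases hz0 : Q z = 0
  · have := L (z + s) b (by qsimp; rw [hz0, z3]; simpa using s1) (by qsimp; rw [hz0, z3, b1]; ring)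
      (by qsimp; rw [z4, polar_comm, bs]; ring) (by qsimp; rw [z1, s3]; ring) xb
      (by qsimp; rw [z2, ts]; ring) tb
    rwa [polar_add_right, L1, add_zero] at this
  · obtain ⟨c, d, h⟩ := exists_binary_eq h2 s1 s1 (Q z)
    exact L z (c • s + d • b) hz0 (by qsimp; rw [polar_comm Q s b, bs, b1, ← h]; ring)
      (by qsimp; rw [z3, z4]; ring) z1 (by qsimp; rw [s3, xb]; ring) z2
      (by qsimp; rw [ts, tb]; ring)

variable {V₁ : Type*} [AddCommGroup V₁] [Module F V₁] {Q₁ : QuadraticForm F V₁}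
variable [FiniteDimensional F V₁] {Ω : Type*} [MulAction (EG Q) Ω] {ω : Ω}

theorem not_regular (S : HypSplit Q Q₁) (h₁ : ND Q₁) (h5 : 5 ≤ finrank F V₁)
    (h4 : ∀ v, Q v = 0 → v ≠ 0 → T4 Q ω v)
    (htr : ∀ g : EG Q, ∃ s, Ei Q S.u (S.j s) • ω = g • ω) : False := by
  let ι : EG Q₁ →* EG Q :=
    { toFun := fun g => ⟨S.ext g.1, ext_mem_EG S g.2⟩
      map_one' := Subtype.ext (map_one S.ext)
      map_mul' := fun g h => Subtype.ext (map_mul S.ext g.1 h.1) }
  let E : V₁ → EG Q := fun s => Ei Q S.u (S.j s)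
  have Eadd : ∀ s t, E (s + t) = E s * E t := (orthRad S h₁).E_add
  have Eneg : ∀ s, E (-s) = (E s)⁻¹ := (orthRad S h₁).E_neg
  have conj : ∀ (g : EG Q₁) s, E s * ι g = ι g * E (ap g.1⁻¹ s) := by
    intro g s
    have := mul_inv_eq_iff_eq_mul.1 (Ei_conj (ι g) S.hu (S.uj (ap g.1⁻¹ s)))
    refine Eq.trans ?_ this.symm
    show _ = Ei Q (ap (S.ext g.1) S.u) (ap (S.ext g.1) _) * _
    rw [S.ap_ext_u, S.ap_ext_j, ap_ap_inv]
  have hu0 := ne_zero_of_polar_eq_one S.huw
  choose a ha using fun g : EG Q₁ => htr (ι g)⁻¹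
  replace ha : ∀ g, (ι g * E (a g)) • ω = ω := fun g => by
    rw [mul_smul, show E (a g) • ω = _ from ha g, smul_inv_smul]
  have uniq : ∀ g s, (ι g * E s) • ω = ω → a g = s := by
    intro g s h
    have h1 : E (a g - s) • ω = ω := by
      rw [sub_eq_neg_add, Eadd, Eneg, mul_smul, inv_smul_eq_iff, ← smul_left_cancel_iff (ι g),
        ← mul_smul, ← mul_smul, h, ha]
    obtain ⟨c, hc⟩ := Submodule.mem_span_singleton.1 (h4 _ S.hu hu0 _ ⟨S.uj _, h1⟩)
    have := congrArg S.p hc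
    rw [map_smul, S.p_u, smul_zero, S.pj] at this
    exact sub_eq_zero.1 this.symm
  refine no_cocycle h₁ h5 a (fun g g' => uniq _ _ ?_) fun x t r hx hx0 xt ht h => ht ?_
  · rw [map_mul, Eadd, mul_assoc, ← mul_assoc (ι g'), ← conj, mul_assoc, ← mul_assoc (ι g),
      mul_smul, ha, ha]
  · have h1 := ha (Ei Q₁ x t)
    have hx' : Q (S.j x) = 0 := by rw [S.Qj, hx]
    have xt' : polar Q (S.j x) (S.j t) = 0 := by rw [S.polar_j, xt]
    have e : ι (Ei Q₁ x t) = Ei Q (S.j x) (S.j t) := Subtype.ext (by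
      show S.ext (Ei Q₁ x t).1 = _
      rw [Ei_coe hx xt, Ei_coe hx' xt', S.ext_eich])
    rw [h, sub_eq_neg_add, Eadd, ← ap_neg, ← mul_assoc, ← conj, Eneg, e] at h1
    have h2 := Ei_conj (E r)⁻¹ hx' xt'
    rw [inv_inv] at h2
    rw [h2] at h1
    have h3 := h4 _ (by simpa using hx') (by
      rw [Ne, ap_eq_zero]; exact fun h => hx0 (S.j_injective (by rw [h, map_zero]))) _
      ⟨by simpa using xt', h1⟩
    obtain ⟨c, hc⟩ := Submodule.mem_span_singleton.1 (mem_span_ap.1 h3)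
    exact Submodule.mem_span_singleton.2 ⟨c, S.j_injective (by rw [map_smul, hc])⟩

theorem exists_torus (S : HypSplit Q Q₁) (h₁ : ND Q₁) (h5 : 5 ≤ finrank F V) {c : F}
    (hc : c ≠ 0) : ∃ h : EG Q, ap h.1 S.u = (c * c) • S.u ∧ ap h.1 S.w = (c * c)⁻¹ • S.w ∧
      ∀ y, ap h.1 (S.j y) = S.j y := by
  have hQ := S.nd_of h₁
  have q1 : Q (S.u + S.w) = 1 := by qsimp; rw [S.hu, S.hw, S.huw]; ring
  have q2 : Q (c⁻¹ • S.u + c • S.w) = 1 := by qsimp; rw [S.hu, S.hw, S.huw]; field_simp; ring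
  refine ⟨⟨refl Q (S.u + S.w) * refl Q (c⁻¹ • S.u + c • S.w), hQ.omega_eq h5 ▸
    hQ.refl_mul_refl_mem (by rw [q1]; exact one_ne_zero) (q1.trans q2.symm)⟩, ?_, ?_, fun y => ?_⟩
  · show ap (_ * _) _ = _
    rw [ap_mul, ap_refl, ap_refl, q1, q2]
    qsimp
    rw [S.hu, S.hw, S.huw, S.hwu]
    match_scalars <;> field_simp <;> ring
  · show ap (_ * _) _ = _
    rw [ap_mul, ap_refl, ap_refl, q1, q2]
    qsimp
    rw [S.hu, S.hw, S.huw, S.hwu]
    match_scalars <;> field_simp <;> ring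
  · show ap (_ * _) _ = _
    have e1 : polar Q (S.j y) (c⁻¹ • S.u + c • S.w) = 0 := by qsimp; rw [S.ju, S.jw]; ring
    have e2 : polar Q (S.j y) (S.u + S.w) = 0 := by qsimp; rw [S.ju, S.jw]; ring
    rw [ap_mul, ap_refl_of_perp e1, ap_refl_of_perp e2]

theorem not_all_T3 (S : HypSplit Q Q₁) (h₁ : ND Q₁) (h5 : 5 ≤ finrank F V₁) {N : ℕ}
    (h3 : ∀ v, Q v = 0 → v ≠ 0 → T3 Q N ω v) {h : EG Q} (hω : h • ω = ω) {m : F} (hm0 : m ≠ 0)
    (hm1 : m ≠ 1) (hu : ap h.1 S.u = m • S.u) (hw : ap h.1 S.w = m⁻¹ • S.w)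
    (hj : ∀ y, ap h.1 (S.j y) = S.j y) : False := by
  have perp : ∀ v, Q v = 0 → v ≠ 0 → ∀ x y, Q x = 0 → Q y = 0 → Fx Q ω v x → Fx Q ω v y →
      polar Q x y = 0 := by
    intro v hv hv0 x y hx hy fx fy
    obtain ⟨U, -, -, u3, -, u5⟩ := h3 v hv hv0
    exact (u5 y).1 fy x (u3 x hx ((u5 x).1 fx))
  have key : ∀ y, Q₁ y = 0 → y ≠ 0 → Fx Q ω S.u (S.j y) ∨ Fx Q ω S.w (S.j y) := by
    intro y hy hy0
    have hx : Q (S.j y) = 0 := by rw [S.Qj, hy]
    obtain ⟨U, -, u2, u3, -, u5⟩ := h3 (S.j y) hx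
      fun h => hy0 (S.j_injective (by rw [h, map_zero]))
    have fU : ∀ z ∈ U, Fx Q ω (S.j y) z := fun z hz => (u5 z).2 fun a ha =>
      polar_of_sing (u2 a ha) (u2 z hz) (u2 _ (U.add_mem ha hz))
    by_contra hc
    push Not at hc
    have hz : ∀ z ∈ U, polar Q z S.u = 0 ∧ polar Q z S.w = 0 := by
      intro z hz
      have f1 := (fU z hz).map_fix hx hω
      rw [hj] at f1
      have m1 := U.sub_mem (u3 _ (by simpa using u2 z hz) ((u5 _).1 f1)) hz
      have e : ap h.1 z - z = ((m - 1) * polar Q z S.w) • S.u +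
          ((m⁻¹ - 1) * polar Q z S.u) • S.w := by
        conv_lhs => rw [S.decomp z, ap_add, ap_add, ap_smul, ap_smul, hu, hw, hj]
        module
      rw [e] at m1
      have m2 := u2 _ m1
      qsimp at m2
      rw [S.hu, S.hw, S.huw] at m2
      have n1 : m - 1 ≠ 0 := sub_ne_zero.2 hm1
      have n2 : m⁻¹ - 1 ≠ 0 := sub_ne_zero.2 (by simpa using hm1)
      by_cases a1 : polar Q z S.u = 0
      · refine ⟨a1, ?_⟩
        by_contra a2
        rw [a1, mul_zero, zero_smul, add_zero] at m1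
        exact hc.1 ((fU _ ((U.smul_mem_iff (mul_ne_zero n1 a2)).1 m1)).swap hx S.hu)
      · have a2 : polar Q z S.w = 0 := by simpa [n1, n2, a1] using m2
        rw [a2, mul_zero, zero_smul, zero_add] at m1
        exact (hc.2 ((fU _ ((U.smul_mem_iff (mul_ne_zero n2 a1)).1 m1)).swap hx S.hw)).elim
    exact hc.1 ((fU _ (u3 _ S.hu fun a ha => (hz a ha).1)).swap hx S.hu)
  have hu0 := ne_zero_of_polar_eq_one S.huw
  have hw0 := ne_zero_of_polar_eq_one S.hwu
  have key2 : ∀ v v', Q v = 0 → v ≠ 0 → Q v' = 0 → v' ≠ 0 →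
      (∀ y, Q₁ y = 0 → y ≠ 0 → Fx Q ω v (S.j y) ∨ Fx Q ω v' (S.j y)) → ∀ e f e' f' : V₁, Q₁ e = 0 →
      Q₁ f = 0 → Q₁ e' = 0 → Q₁ f' = 0 → polar Q₁ e f = 1 → polar Q₁ e' f' = 1 →
      polar Q₁ e f' = 0 → polar Q₁ f f' = 0 → polar Q₁ e e' = 0 →
      Fx Q ω v (S.j e) → Fx Q ω v (S.j e') → False := by
    intro v v' hv hv0 hv' hv0' k e f e' f' he hf he' hf' ef ef' p1 p2 p3 a1 a2
    have pj : ∀ v, Q v = 0 → v ≠ 0 → ∀ x y : V₁, Q₁ x = 0 → Q₁ y = 0 → Fx Q ω v (S.j x) →
        Fx Q ω v (S.j y) → polar Q₁ x y = 0 := fun v hv hv0 x y hx hy fx fy => by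
      rw [← S.polar_j]
      exact perp v hv hv0 _ _ (by rwa [S.Qj]) (by rwa [S.Qj]) fx fy
    have a3 := (k f hf (ne_zero_of_polar_eq_one ((polar_comm Q₁ f e).trans ef))).resolve_left
      fun h => by simpa [ef] using pj v hv hv0 e f he hf a1 h
    have q : Q₁ (e + f') = 0 := by qsimp; rw [he, hf', p1]; ring
    have q1 : polar Q₁ (e + f') e' = 1 := by qsimp; rw [p3, polar_comm, ef']; ring
    rcases k (e + f') q (ne_zero_of_polar_eq_one q1) with h | h
    · simpa [q1] using pj v hv hv0 _ _ q he' h a2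
    · have := pj v' hv' hv0' _ _ q hf h a3
      qsimp at this
      rw [ef, polar_comm, p2] at this
      simp at this
  obtain ⟨x, hx, hx0⟩ := exists_sing Q₁ (by omega)
  obtain ⟨x', hx', xx'⟩ := h₁.exists_partner hx hx0
  obtain ⟨e, f, he, hf, ef, p1, p2, p3, p4⟩ : ∃ e f, Q₁ e = 0 ∧ Q₁ f = 0 ∧ polar Q₁ e f = 1 ∧
      polar Q₁ x e = 0 ∧ polar Q₁ x f = 0 ∧ polar Q₁ x' e = 0 ∧ polar Q₁ x' f = 0 := by
    let S₁ := hypSplit hx hx' xx'
    have hd := S₁.finrank_eq
    obtain ⟨e, f, he, hf, ef, -⟩ := exists_hyp_perp (S₁.nd h₁) ∅ (by simp; omega)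
    exact ⟨S₁.j e, S₁.j f, by rwa [S₁.Qj], by rwa [S₁.Qj], by rwa [S₁.polar_j], S₁.uj e, S₁.uj f,
      S₁.wj e, S₁.wj f⟩
  have fe : polar Q₁ f e = 1 := by rw [polar_comm, ef]
  have key3 : ∀ v v', Q v = 0 → v ≠ 0 → Q v' = 0 → v' ≠ 0 →
      (∀ y, Q₁ y = 0 → y ≠ 0 → Fx Q ω v (S.j y) ∨ Fx Q ω v' (S.j y)) →
      Fx Q ω v (S.j x) → False := by
    intro v v' hv hv0 hv' hv0' k a1
    rcases k e he (ne_zero_of_polar_eq_one ef) with h | h
    · exact key2 v v' hv hv0 hv' hv0' k x x' e f hx hx' he hf xx' ef p2 p4 p1 a1 h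
    · have a2 := (k f hf (ne_zero_of_polar_eq_one fe)).resolve_right fun h' => by
        have := perp v' hv' hv0' _ _ (by rwa [S.Qj]) (by rwa [S.Qj]) h h'
        rw [S.polar_j, ef] at this
        exact one_ne_zero this
      exact key2 v v' hv hv0 hv' hv0' k x x' f e hx hx' hf he xx' fe p1 p3 p2 a1 a2
  rcases key x hx hx0 with h | h
  · exact key3 _ _ S.hu hu0 S.hw hw0 key h
  · exact key3 _ _ S.hw hw0 S.hu hu0 (fun y hy hy0 => (key y hy hy0).symm) h

end Cfsg.Agent.H66
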