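import Mathlib

/-!
Doubling a two-subgroup of a general linear group: the wreath product with the group of order two.
-/

set_option autoImplicit false
set_option linter.unusedSectionVars false

namespace Cfsg.Agent.H66.Pn

open Matrix

variable {F : Type*} [Field F] {ι : Type*} [Fintype ι] [DecidableEq ι]

/-- Block diagonal matrices. -/
def dg : GL ι F × GL ι F →* GL (ι ⊕ ι) F where
  toFun x := ⟨fromBlocks x.1.1 0 0 x.2.1, fromBlocks x.1⁻¹.1 0 0 x.2⁻¹.1,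
    by simp [fromBlocks_multiply], by simp [fromBlocks_multiply]⟩
  map_one' := Units.ext fromBlocks_one
  map_mul' x y := Units.ext (by simp [fromBlocks_multiply])

theorem dg_val (a b : GL ι F) : (dg (a, b)).1 = fromBlocks a.1 0 0 b.1 := rfl

/-- The permutation matrix interchanging the two blocks. -/
def sw : GL (ι ⊕ ι) F := ⟨fromBlocks 0 1 1 0, fromBlocks 0 1 1 0,
  by simp [fromBlocks_multiply], by simp [fromBlocks_multiply]⟩

theorem sw_val : (sw : GL (ι ⊕ ι) F).1 = fromBlocks 0 1 1 0 := rfl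

theorem sw_sw : (sw : GL (ι ⊕ ι) F) * sw = 1 := Units.ext sw.3

theorem sw_dg (a b : GL ι F) : sw * dg (a, b) = dg (b, a) * sw :=
  Units.ext (by simp [dg_val, sw_val, fromBlocks_multiply])

theorem dg_sw_val (a b : GL ι F) : (dg (a, b) * sw).1 = fromBlocks 0 a.1 b.1 0 := by
  simp [dg_val, sw_val, fromBlocks_multiply]

theorem det_dg (a b : GL ι F) : (dg (a, b)).1.det = a.1.det * b.1.det := by simp [dg_val]

theorem det_sw : (sw : GL (ι ⊕ ι) F).1.det = (-1 : Matrix ι ι F).det := by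
  have : (sw : GL (ι ⊕ ι) F).1 =
      fromBlocks 1 0 1 1 * fromBlocks 1 1 0 (-1) * fromBlocks 1 0 (-1) 1 := by
    simp [sw_val, fromBlocks_multiply]
  rw [this]
  simp

theorem dg_inj {a b c d : GL ι F} (h : dg (a, b) = dg (c, d)) : a = c ∧ b = d := by
  have := fromBlocks_inj.1 (congrArg Units.val h)
  exact ⟨Units.ext this.1, Units.ext this.2.2.2⟩

theorem dg_ne [Nonempty ι] (a b c d : GL ι F) : dg (a, b) ≠ dg (c, d) * sw := fun h => by
  have := (congrArg Units.val h).trans (dg_sw_val c d)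
  exact a.ne_zero (fromBlocks_inj.1 this).1

/-- The wreath product of `T` with the group of order two. -/
def dbl (T : Subgroup (GL ι F)) : Subgroup (GL (ι ⊕ ι) F) where
  carrier := {g | ∃ a ∈ T, ∃ b ∈ T, g = dg (a, b) ∨ g = dg (a, b) * sw}
  one_mem' := ⟨1, T.one_mem, 1, T.one_mem, Or.inl (map_one dg).symm⟩
  mul_mem' := by
    rintro _ _ ⟨a, ha, b, hb, rfl | rfl⟩ ⟨c, hc, d, hd, rfl | rfl⟩
    · exact ⟨_, T.mul_mem ha hc, _, T.mul_mem hb hd, Or.inl (map_mul dg (a, b) (c, d)).symm⟩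
    · exact ⟨_, T.mul_mem ha hc, _, T.mul_mem hb hd, Or.inr (by rw [← mul_assoc, ← map_mul]; rfl)⟩
    · exact ⟨_, T.mul_mem ha hd, _, T.mul_mem hb hc, Or.inr (by
        rw [mul_assoc, sw_dg, ← mul_assoc, ← map_mul]; rfl)⟩
    · exact ⟨_, T.mul_mem ha hd, _, T.mul_mem hb hc, Or.inl (by
        rw [mul_assoc, ← mul_assoc sw, sw_dg, mul_assoc, sw_sw, mul_one, ← map_mul]; rfl)⟩
  inv_mem' := by
    rintro _ ⟨a, ha, b, hb, rfl | rfl⟩
    · exact ⟨_, T.inv_mem ha, _, T.inv_mem hb, Or.inl (map_inv dg (a, b)).symm⟩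
    · exact ⟨_, T.inv_mem hb, _, T.inv_mem ha, Or.inr (by
        rw [_root_.mul_inv_rev, inv_eq_of_mul_eq_one_left sw_sw, ← map_inv, ← sw_dg]; rfl)⟩

variable {T : Subgroup (GL ι F)}

theorem dg_mem {a b : GL ι F} (ha : a ∈ T) (hb : b ∈ T) : dg (a, b) ∈ dbl T :=
  ⟨a, ha, b, hb, Or.inl rfl⟩

theorem sw_mem : sw ∈ dbl T := ⟨1, T.one_mem, 1, T.one_mem, Or.inr (by
  rw [show dg ((1 : GL ι F), 1) = 1 from map_one dg, one_mul])⟩

theorem isPGroup_dbl (h : IsPGroup 2 T) : IsPGroup 2 (dbl T) := by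
  have h1 : ∀ a ∈ T, ∀ b ∈ T, ∃ k, dg (a, b) ^ 2 ^ k = 1 := fun a ha b hb => by
    obtain ⟨k, hk⟩ := h ⟨a, ha⟩
    obtain ⟨l, hl⟩ := h ⟨b, hb⟩
    have hk : a ^ 2 ^ k = 1 := congrArg Subtype.val hk
    have hl : b ^ 2 ^ l = 1 := congrArg Subtype.val hl
    exact ⟨k + l, by
      rw [← map_pow, Prod.pow_mk, pow_add, pow_mul a, hk, mul_comm, pow_mul b, hl, one_pow,
        one_pow]
      exact map_one _⟩
  rintro ⟨_, a, ha, b, hb, rfl | rfl⟩
  · exact (h1 a ha b hb).imp fun _ e => Subtype.ext e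
  · obtain ⟨k, hk⟩ := h1 _ (T.mul_mem ha hb) _ (T.mul_mem hb ha)
    refine ⟨k + 1, Subtype.ext ?_⟩
    show (dg (a, b) * sw) ^ 2 ^ (k + 1) = 1
    rw [pow_succ', pow_mul, pow_two, mul_assoc, ← mul_assoc sw, sw_dg, mul_assoc, sw_sw, mul_one,
      ← map_mul]
    exact hk

theorem card_dbl [Nonempty ι] [Finite F] : 2 * Nat.card T ^ 2 ≤ Nat.card (dbl T) := by
  have := Nat.card_le_card_of_injective (fun x : (T × T) ⊕ (T × T) => (x.elim
    (fun y => ⟨_, dg_mem y.1.2 y.2.2⟩) fun y => ⟨_, mul_mem (dg_mem y.1.2 y.2.2) sw_mem⟩ : dbl T)) (by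
      rintro (x | x) (y | y) e <;> have e := congrArg Subtype.val e
      · rw [Prod.ext (Subtype.ext (dg_inj e).1) (Subtype.ext (dg_inj e).2)]
      · exact absurd e (dg_ne _ _ _ _)
      · exact absurd e.symm (dg_ne _ _ _ _)
      · have e := dg_inj (mul_right_cancel e)
        rw [Prod.ext (Subtype.ext e.1) (Subtype.ext e.2)])
  rwa [Nat.card_sum, Nat.card_prod, ← two_mul, ← pow_two] at this

/-- The properties of a two-subgroup needed for the induction. -/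
structure Good (T : Subgroup (GL ι F)) : Prop where
  pg : IsPGroup 2 T
  cent : ∀ X : Matrix ι ι F, (∀ a ∈ T, a.1.det = 1 → X * a.1 = a.1 * X) → ∃ c : F, X = c • 1
  sq : ∃ a ∈ T, a.1.det = 1 ∧ a * a = -1
  norm : ∀ x : GL ι F, Odd (orderOf x) → (∀ a ∈ T, x * a * x⁻¹ ∈ T) → ∃ c : F, x.1 = c • 1

theorem diag_of_comm (h2 : (2 : F) ≠ 0) {X : Matrix (ι ⊕ ι) (ι ⊕ ι) F}
    (h : X * (dg ((-1 : GL ι F), 1)).1 = (dg ((-1 : GL ι F), 1)).1 * X) : ∃ A D, X = fromBlocks A 0 0 D := by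
  rw [← fromBlocks_toBlocks X] at h ⊢
  simp only [dg_val, fromBlocks_multiply, fromBlocks_inj] at h
  simp at h
  have k : ∀ Y : Matrix ι ι F, Y = -Y → Y = 0 := fun Y e =>
    (smul_eq_zero.1 (by rw [two_smul]; exact eq_neg_iff_add_eq_zero.1 e)).resolve_left h2
  exact ⟨_, _, by rw [k _ h.1, k _ h.2.symm]⟩

theorem Good.det_sw (h : Good T) : (sw : GL (ι ⊕ ι) F).1.det = 1 := by
  obtain ⟨a, a1, a2, a3⟩ := h.sq
  rw [Pn.det_sw, ← Units.val_one, ← Units.val_neg, ← a3, Units.val_mul, det_mul, a2, one_mul]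

theorem Good.cent_sq (h : Good T) (h2 : (2 : F) ≠ 0) {X : Matrix (ι ⊕ ι) (ι ⊕ ι) F}
    (hX : ∀ s ∈ dbl T, s.1.det = 1 → X * (s * s).1 = (s * s).1 * X) :
    ∃ c d : F, X = fromBlocks (c • 1) 0 0 (d • 1) := by
  obtain ⟨a, a1, a2, a3⟩ := h.sq
  have hs := h.det_sw
  obtain ⟨A, D, rfl⟩ := diag_of_comm h2 (X := X) (by
    have := hX _ (dg_mem a1 T.one_mem) (by simp [det_dg, a2])
    rwa [← map_mul, Prod.mk_mul_mk, a3, mul_one] at this)
  have : ∀ b ∈ T, b.1.det = 1 → A * b.1 = b.1 * A ∧ D * b.1 = b.1 * D := fun b b1 b2 => by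
    have := hX _ (mul_mem (dg_mem b1 T.one_mem) sw_mem) (by simp [det_dg, b2, hs])
    rw [mul_assoc, ← mul_assoc sw, sw_dg, mul_assoc, sw_sw, mul_one, ← map_mul, Prod.mk_mul_mk,
      mul_one, one_mul] at this
    simpa [dg_val, fromBlocks_multiply] using this
  obtain ⟨c, rfl⟩ := h.cent A fun b b1 b2 => (this b b1 b2).1
  obtain ⟨d, rfl⟩ := h.cent D fun b b1 b2 => (this b b1 b2).2
  exact ⟨c, d, rfl⟩

theorem mem_of_dg [Nonempty ι] {a b : GL ι F} (h : dg (a, b) ∈ dbl T) : a ∈ T ∧ b ∈ T := by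
  obtain ⟨c, hc, d, hd, e | e⟩ := h
  · exact ⟨(dg_inj e).1 ▸ hc, (dg_inj e).2 ▸ hd⟩
  · exact absurd e (dg_ne _ _ _ _)

theorem sq_comm {s : GL (ι ⊕ ι) F} (h : s ∈ dbl T) : Commute (s * s) (dg ((-1 : GL ι F), 1)) := by
  have : ∀ a b : GL ι F, Commute (dg (a, b)) (dg ((-1 : GL ι F), 1)) := fun a b =>
    Commute.map (by ext <;> simp) dg
  obtain ⟨a, -, b, -, rfl | rfl⟩ := h
  · exact (this a b).mul_left (this a b)
  · rw [mul_assoc, ← mul_assoc sw, sw_dg, mul_assoc, sw_sw, mul_one]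
    exact (this a b).mul_left (this b a)

theorem Good.norm_dbl [Nonempty ι] (h : Good T) (h2 : (2 : F) ≠ 0) {x : GL (ι ⊕ ι) F}
    (ho : Odd (orderOf x)) (hx : ∀ s ∈ dbl T, s.1.det = 1 → x * s * x⁻¹ ∈ dbl T) :
    ∃ c : F, x.1 = c • 1 := by
  have hp : ∀ k, ∀ s ∈ dbl T, s.1.det = 1 → x ^ k * s * (x ^ k)⁻¹ ∈ dbl T := fun k s s1 s2 => by
    induction k with
    | zero => simpa using s1
    | succ k ih =>
      have := hx _ ih (by rwa [Units.val_mul, Units.val_mul, det_units_conj])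
      rwa [pow_succ', _root_.mul_inv_rev, mul_assoc x, mul_assoc x, ← mul_assoc _ _ x⁻¹,
        ← mul_assoc x]
  obtain ⟨m, hm⟩ := ho
  have e1 : x ^ (2 * m) = x⁻¹ := eq_inv_of_mul_eq_one_left (by rw [← pow_succ, ← hm, pow_orderOf_eq_one])
  obtain ⟨t, ht⟩ : ∃ t, t = dg ((-1 : GL ι F), 1) := ⟨_, rfl⟩
  have t2 : t * t = 1 := by rw [ht, ← map_mul, ← map_one dg]; congr 1; ext <;> simp
  obtain ⟨c, d, hc⟩ := h.cent_sq h2 (X := (x * t * x⁻¹).1) fun s s1 s2 => by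
    have := (sq_comm (hp (2 * m) s s1 s2)).eq
    rw [e1, ← ht] at this
    rw [← Units.val_mul, ← Units.val_mul, Units.val_inj]
    calc _ = x * (t * (x⁻¹ * s * x⁻¹⁻¹ * (x⁻¹ * s * x⁻¹⁻¹))) * x⁻¹ := by group
      _ = _ := by rw [← this]; group
  have e2 : x * t * x⁻¹ = t ∨ x * t * x⁻¹ = -t := by
    have a1 : (x * t * x⁻¹).1 * (x * t * x⁻¹).1 = 1 := by
      rw [← Units.val_mul, show x * t * x⁻¹ * (x * t * x⁻¹) = x * (t * t) * x⁻¹ by group, t2]; simp
    obtain ⟨i⟩ := ‹Nonempty ι›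
    have a2 := congrFun (congrFun a1 (.inl i)) (.inl i)
    have a3 := congrFun (congrFun a1 (.inr i)) (.inr i)
    have a4 : c ≠ d := by
      rintro rfl
      have a5 : t.1 = c • 1 := by
        rw [show t = x⁻¹ * (x * t * x⁻¹) * x by group, Units.val_mul, Units.val_mul, hc,
          show fromBlocks (c • 1) 0 0 (c • 1) = c • (1 : Matrix (ι ⊕ ι) (ι ⊕ ι) F) by
            rw [← fromBlocks_one, fromBlocks_smul, smul_zero]]
        simp
      have a6 := congrFun (congrFun a5 (.inl i)) (.inl i)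
      have a7 := congrFun (congrFun a5 (.inr i)) (.inr i)
      simp [ht, dg_val] at a6 a7
      grind
    simp only [hc, fromBlocks_multiply] at a2 a3
    simp [mul_self_eq_one_iff] at a2 a3
    rcases a2 with rfl | rfl <;> rcases a3 with rfl | rfl
    · exact absurd rfl a4
    · exact Or.inr (Units.ext (by rw [hc]; simp [ht, dg_val, fromBlocks_neg]))
    · exact Or.inl (Units.ext (by rw [hc]; simp [ht, dg_val]))
    · exact absurd rfl a4
  have e3 : Commute x t := by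
    have : Commute (x ^ 2) t := by
      rw [Commute, SemiconjBy, ← mul_inv_eq_iff_eq_mul, show x ^ 2 * t * (x ^ 2)⁻¹ =
        x * (x * t * x⁻¹) * x⁻¹ by rw [pow_two]; group]
      rcases e2 with e | e
      · rw [e, e]
      · rw [e, mul_neg, neg_mul, e, neg_neg]
    have := (this.pow_left m).inv_left
    rwa [← pow_mul, e1, inv_inv] at this
  obtain ⟨A, D, hA⟩ := diag_of_comm h2 (X := x.1) (ht ▸ congrArg Units.val e3.eq :)
  have d0 := x.det_ne_zero
  rw [hA, det_fromBlocks_zero₁₂, mul_ne_zero_iff] at d0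
  obtain ⟨a, b, rfl⟩ : ∃ a b, x = dg (a, b) :=
    ⟨.mkOfDetNeZero A d0.1, .mkOfDetNeZero D d0.2, Units.ext hA⟩
  have o := pow_orderOf_eq_one (dg (a, b))
  rw [← map_pow, ← map_one dg, hm] at o
  have o := dg_inj o
  have k : ∀ u ∈ T, ∀ v ∈ T, u.1.det * v.1.det = 1 → a * u * a⁻¹ ∈ T ∧ b * v * b⁻¹ ∈ T :=
    fun u hu v hv e => mem_of_dg (by
      have := hx _ (dg_mem hu hv) (by rwa [det_dg])
      rwa [← map_inv, ← map_mul, ← map_mul] at this)
  obtain ⟨c, hc⟩ := h.norm a (Odd.of_dvd_nat ⟨m, rfl⟩ (orderOf_dvd_of_pow_eq_one o.1))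
    fun u hu => (k u hu _ (T.inv_mem hu) (by rw [← det_mul]; simp)).1
  obtain ⟨d, hd⟩ := h.norm b (Odd.of_dvd_nat ⟨m, rfl⟩ (orderOf_dvd_of_pow_eq_one o.2))
    fun u hu => (k _ (T.inv_mem hu) u hu (by rw [← det_mul]; simp)).2
  have e4 := mul_mem (hx _ sw_mem h.det_sw) sw_mem
  rw [← map_inv, mul_assoc, mul_assoc, Prod.inv_mk, ← mul_assoc sw, sw_dg, mul_assoc, sw_sw, mul_one,
    ← map_mul] at e4
  obtain ⟨k, hk⟩ := h.pg ⟨_, (mem_of_dg e4).1⟩
  have e5 : Commute a b⁻¹ := Commute.inv_right (Units.ext (by simp [hc]))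
  have e6 : a * b⁻¹ = 1 := (pow_eq_one_iff_of_coprime (Nat.Coprime.pow_left k
    (Nat.coprime_two_left.2 ⟨m, rfl⟩))).1 ⟨congrArg Subtype.val hk, by
      rw [e5.mul_pow, inv_pow, mul_inv_eq_one]; exact o.1.trans o.2.symm⟩
  refine ⟨c, ?_⟩
  rw [dg_val, ← mul_inv_eq_one.1 e6, hc, ← fromBlocks_one, fromBlocks_smul, smul_zero]

theorem Good.dbl [Nonempty ι] (h : Good T) (h2 : (2 : F) ≠ 0) : Good (dbl T) where
  pg := isPGroup_dbl h.pg
  cent X hX := by
    obtain ⟨c, d, rfl⟩ := h.cent_sq h2 (X := X) fun s s1 s2 => hX _ (mul_mem s1 s1) (by simp [s2])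
    have := hX _ sw_mem h.det_sw
    simp only [sw_val, fromBlocks_multiply, fromBlocks_inj] at this
    simp only [mul_zero, mul_one, zero_add, add_zero, zero_mul, one_mul, true_and] at this
    exact ⟨c, by rw [← this.1, ← fromBlocks_one, fromBlocks_smul, smul_zero]⟩
  sq := by
    obtain ⟨a, a1, a2, a3⟩ := h.sq
    refine ⟨_, dg_mem a1 a1, by simp [det_dg, a2], Units.ext ?_⟩
    rw [← map_mul, Prod.mk_mul_mk, a3, dg_val]
    simp [← fromBlocks_one, fromBlocks_neg]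
  norm x ho hx := h.norm_dbl h2 ho fun s s1 _ => hx s s1

end Cfsg.Agent.H66.Pn
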